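import Cfsg.Agent.Lib.SF4.StB

/-!
# S3323: automorphisms of the Sylow subgroup
-/

set_option autoImplicit false

namespace Cfsg.Lib.SF4

open Subgroup Cfsg.Lib.BG Cfsg.Lib.RF4 Cfsg.Lib.RF4.V

/-- Verify a statement in coordinates. -/
scoped macro "vq" : tactic => `(tactic| ((try simp only [cm]) <;> vs <;> (try constructorm* _ ∧ _) <;>
  (try simp only [map_add, map_mul, map_pow, map_zero, map_one, σσ]) <;> grind))

variable {K : Type*} [Field K] [Tw K] {φ : MulAut (V K)}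

theorem inv0 {f : K → K} {w : K} (hw : w ≠ 1) (add : ∀ a b, f (a + b) = f a + f b) (h : ∀ a, f (w * a) = f a) (a : K) :
    f a = 0 := by
  obtain ⟨b, rfl⟩ := ex_mul (show w + 1 ≠ 0 by grind) a
  rw [add_mul, one_mul, add, h, CharTwo.add_self_eq_zero]

theorem aut_16 (φ : MulAut (V K)) (a c : K) : φ (x4 (a * c)) = x4 ((φ (x1 a)).a1 * (φ (x6 c)).c6) := by
  have h := aut_Z2 φ (show x6 c ∈ Z2 by vs)
  rw [show x4 (a * c) = cm (x1 a) (x6 c) by vp, map_cm]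
  generalize φ (x1 a) = v, φ (x6 c) = w at *
  dst w h; vp

theorem aut_x4 (φ : MulAut (V K)) : ∃ f : K → K, (∀ a, φ (x4 a) = x4 (f a)) ∧ ∀ w a, f (w * a) * f 1 = f w * f a := by
  refine ⟨fun a => (φ (x4 a)).c4, fun a => eq_x4 (aut_Z φ (x4_mem a)), fun w a => ?_⟩
  have h1 := aut_16 φ w 1
  have h2 := aut_16 φ 1 a
  have h3 := aut_16 φ 1 1
  simp only [mul_one, one_mul] at h1 h2 h3
  beta_reduce
  rw [aut_16, h1, h2, h3]
  simp only [x4]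
  ring

theorem aut_a1 (h : ∀ a, φ (x4 a) = x4 a) (a : K) : (φ (x1 a)).a1 = (φ (x1 1)).a1 * a := by
  have h1 := x4_inj.1 ((h _).symm.trans (aut_16 φ a 1))
  have h2 := x4_inj.1 ((h _).symm.trans (aut_16 φ 1 1))
  linear_combination (φ (x1 a)).a1 * h2 - (φ (x1 1)).a1 * h1

theorem aut_T4 (h : ∀ a, φ (x4 a) = x4 a) {l l' : T4 K} (e : φ (tor l (x1 1)) = tor l' (φ (x1 1))) : l = l' := by
  have h1 := congrArg V.a1 e
  rw [show tor l (x1 1) = x1 (l.1.1 : K) by vs, aut_a1 h] at h1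
  have a0 : (φ (x1 1)).a1 ≠ 0 := fun e => by simpa [mem_R, x1] using aut_R φ.symm e
  exact inv_mul_eq_one.1 (Subtype.ext (T4_fst (l⁻¹ * l').2 (inv_mul_eq_one.2 (Units.ext
    (mul_left_cancel₀ a0 (h1.trans (mul_comm _ _)))))))

/-- The action of `l4`. -/
def d4 (n m : K) (v : V K) : V K := ⟨m * σ m * v.a1, m * v.b2, m * σ m * v.c2, m * v.a3, v.b4, v.c4, n * v.a5, n * v.b6,
  n * σ n * v.c6, n * σ n * v.a7, σ n * v.b8, n ^ 2 * σ n * v.c8⟩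

theorem tor_l4 (n : Kˣ) (v : V K) : tor (l4 n) v = d4 (n : K) (n⁻¹ : Kˣ) v := by
  have h1 := n.mul_inv
  have h2 := congrArg σ h1
  simp only [l4, d4, mul_inv]
  vs
  simp only [Units.val_mul, map_mul, map_one, σσ, ← map_inv, coe_σu] at *
  generalize (n⁻¹ : Kˣ).1 = m at *
  constructorm* _ ∧ _ <;> grind

theorem eq_all (v : V K) : v = x1 v.a1 * y2 v.b2 * x2 v.c2 * x3 v.a3 * y4 v.b4 * x4 v.c4 * x5 v.a5 * y6 v.b6 *
    x6 v.c6 * x7 v.a7 * y8 v.b8 * x8 v.c8 := by vs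

theorem zfix {l : T4 K} (hT : ∀ v, φ (tor l v) = tor l (φ v)) {x x' : K → V K} {w : K} (hw : w ≠ 1)
    (add : ∀ a b, ∃ c, φ c = c ∧ x (a + b) * c = x a * x b ∧ x' (a + b) * c = x' a * x' b)
    (hx : ∀ a, tor l (x a) = x (w * a) ∧ tor l (x' a) = x' (w * a)) (h : ∀ a, (x' a)⁻¹ * φ (x a) ∈ Z) (a : K) :
    φ (x a) = x' a := by
  have k : ∀ a, φ (x a) = x' a * x4 ((x' a)⁻¹ * φ (x a)).c4 := fun a => by rw [← eq_x4 (h a), mul_inv_cancel_left]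
  generalize hg : (fun a => ((x' a)⁻¹ * φ (x a)).c4) = g
  simp only [show ∀ a, ((x' a)⁻¹ * φ (x a)).c4 = g a from congrFun hg] at k
  rw [k, inv0 (f := g) hw (fun a b => ?_) fun a => ?_]
  · exact mul_one _
  · obtain ⟨c, h1, h2, h3⟩ := add a b
    have := congrArg φ h2
    rw [map_mul, map_mul, h1, k, k, k, mul_assoc, ← Z_comm (x4_mem _), ← mul_assoc, h3, mul_assoc, mul_assoc, mul_right_inj,
      ← mul_assoc, ← Z_comm (x4_mem _), mul_assoc, mul_right_inj] at this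
    revert this; vs; exact id
  · have := hT (x a)
    rwa [(hx a).1, k, k, map_mul, (hx a).2, T4_Z l (x4_mem _), mul_right_inj, x4_inj] at this

theorem cA {u : V K} (h : ∀ a ∈ A, u * a = a * u) :
    u.a1 = 0 ∧ u.b2 = 0 ∧ u.b6 = 0 ∧ u.a7 = 0 ∧ u.b8 = 0 ∧ u.c8 = 0 := by
  have h1 := h (x2 1) (by vs)
  have h2 := h (x3 1) (by vs)
  have h3 := h (x5 1) (by vs)
  have h4 := h (x6 1) (by vs)
  clear h
  vs at *
  grind

theorem aut_A [Finite K] [Bg K] (hT : ∀ l : T4 K, ∀ v, φ (tor l v) = tor l (φ v)) (hZ : ∀ a, φ (x4 a) = x4 a)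
    (hP : ∀ v, v⁻¹ * φ v ∈ Ph) (hQ : ∀ v ∈ Q, φ (ρr v) = ρr (φ v)) : (∀ v ∈ A, φ v = v) ∧ ∀ v, v⁻¹ * φ v ∈ A := by
  obtain ⟨n, n0, n1⟩ := ex_ω (K := K)
  obtain ⟨w1, w2, w3⟩ := wts n1
  have hT := hT (l4 (.mk0 n n0))
  have p1 : (φ (x1 1)).a1 = 1 := by
    have := (hP (x1 1)).1
    generalize φ (x1 1) = u at *
    vs at this; grind
  have h6 : ∀ c, φ (x6 c) = x6 c := zfix hT w2 (fun a b => ⟨1, map_one _, by vs, by vs⟩)
    (fun a => by simp [tor_l4, d4, x6]) fun c => by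
      have h1 := x4_inj.1 ((hZ _).symm.trans (aut_16 φ 1 c))
      have h := aut_Z2 φ (show x6 c ∈ Z2 by vs)
      generalize φ (x6 c) = w at *
      clear * - h h1 p1; dst w h; vp
  have k5 : ∀ c, (φ (x5 c)).c6 = (φ (x1 1)).b2 * c ∧ (φ (x5 c)).a5 = c := fun c => by
    have h := aut_Z3 φ (show x5 c ∈ Z3 by vs)
    have h1 := congrArg φ (show x5 c * x1 1 = x1 1 * x5 c by vp)
    have h2 := congrArg φ (show x5 c * y8 1 = x6 c * (y8 1 * x5 c) by vp)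
    have h3 := (hP (y8 1)).2
    have h4 := aut_R φ (show y8 1 ∈ R by vs)
    simp only [map_mul, h6] at h1 h2
    have h1 := congrArg V.c4 h1
    have h2 := congrArg V.c6 h2
    generalize φ (x5 c) = w, φ (x1 1) = u, φ (y8 1) = u' at *
    clear * - h h1 h2 h3 h4 p1; dst w h; dst u' h4; vs at *; grind
  have h5 : ∀ c, φ (x5 c) = x5 c := zfix hT n1 (fun a b => ⟨1, map_one _, by vs, by vs⟩)
    (fun a => by simp [tor_l4, d4, x5]) fun c => by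
      have h := aut_Z3 φ (show x5 c ∈ Z3 by vs)
      have h1 := congrArg V.c6 (hT (x5 1))
      rw [show tor (l4 (.mk0 n n0)) (x5 1) = x5 n by simp [tor_l4, d4, x5], tor_l4, (k5 _).1] at h1
      simp only [d4, (k5 _).1, Units.val_mk0] at h1
      have h2 := k5 c
      generalize φ (x5 c) = w, (φ (x1 1)).b2 = u at *
      clear * - h h1 h2 n0 w1; dst w h; vs at *; grind
  have h2 : ∀ c, φ (x2 c) = x2 c := fun c => by
    rw [show x2 c = ρr (x6 c) by vs, hQ _ (by vs), h6]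
  have h3 : ∀ c, φ (x3 c) = x3 c := fun c => by
    rw [show x3 c = ρr (x5 c) by vs, hQ _ (by vs), h5]
  have fA : ∀ v ∈ A, φ v = v := fun v hv => by
    rw [show v = x2 v.c2 * x3 v.a3 * x4 v.c4 * x5 v.a5 * x6 v.c6 by clear * - hv; dst v hv; vs]
    simp only [map_mul, h2, h3, hZ, h5, h6]
  have k : ∀ v, _ := fun v => cA (u := v⁻¹ * φ v) fun a ha => by
    have := fA _ (A_norm v ha)
    rw [map_mul, map_mul, fA a ha, map_inv] at this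
    calc _ = v⁻¹ * (φ v * a * (φ v)⁻¹) * φ v := by group
      _ = _ := by rw [this]; group
  obtain ⟨β, hβ⟩ : ∃ β : V K → K, ∀ v, (v⁻¹ * φ v).b4 = β v := ⟨_, fun _ => rfl⟩
  have b1 : ∀ v w, β (v * w) = β v + β w := fun v w => by
    have h1 := k v
    have h2 := k w
    rw [← hβ, ← hβ, ← hβ, show (v * w)⁻¹ * φ (v * w) = w⁻¹ * (v⁻¹ * φ v) * w * (w⁻¹ * φ w) by simp [mul_assoc]]
    generalize v⁻¹ * φ v = a, w⁻¹ * φ w = b at *
    clear * - h1 h2; dst a h1; vp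
  have b2 : ∀ v, β (tor (l4 (.mk0 n n0)) v) = β v := fun v => by
    rw [← hβ, ← hβ, hT, ← map_inv, ← map_mul, tor_l4]; rfl
  have b8 : ∀ c, β (x8 c) = 0 := fun c => by
    obtain ⟨b, rfl⟩ := nm_surj c
    rw [show x8 (b * σ b) = y8 b * y8 b by vp, b1, CharTwo.add_self_eq_zero]
  let N : Subgroup (V K) := ⟨⟨⟨{v | β v = 0}, fun {a b} ha hb => by simp_all⟩, by simpa using b1 1 1⟩, fun {a} ha => by
    have := b1 a⁻¹ a
    have h := b1 1 1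
    simp_all⟩
  have : N = ⊤ := gen18 (inv0 (f := fun a => β (x1 a)) (w := n⁻¹ * σ n⁻¹) (mt nm_one (by simpa)) (fun a b => by
      rw [← b1]; congr 1; vs) fun a => by rw [← b2 (x1 a)]; simp [tor_l4, d4, x1])
    (inv0 (f := fun a => β (y8 a)) w1 (fun a b => by
      rw [← b1, show y8 a * y8 b = y8 (a + b) * x8 (a * σ b) by vs, b1, b8, add_zero])
      fun a => by rw [← b2 (y8 a)]; simp [tor_l4, d4, y8])
  refine ⟨fA, fun v => ?_⟩
  obtain ⟨a, b, c, d, e, f⟩ := k v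
  exact ⟨a, b, (hβ v).trans (this.ge (mem_top v)), c, d, e, f⟩

/-- The pairing between `Q` and `A`. -/
def pr (v a : V K) : K := v.a7 * a.c2 + v.b6 * a.a3 + v.b2 * a.a5 + v.a1 * a.c6

theorem Q_A {v a : V K} (hv : v ∈ Q) (ha : a ∈ A) : v * a * v⁻¹ = a * x4 (pr v a) := by
  simp only [pr]; dst v hv; dst a ha; vp

theorem Q_cm {v w : V K} (hv : v ∈ Q) (hw : w ∈ Q) : cm v w ∈ A := by dst v hv; dst w hw; vp

theorem A_comm {a b : V K} (ha : a ∈ A) (hb : b ∈ A) : a * b = b * a := by dst a ha; dst b hb; vp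

theorem cm_QA {v w a b : V K} (hv : v ∈ Q) (hw : w ∈ Q) (ha : a ∈ A) (hb : b ∈ A) :
    cm (v * a) (w * b) = cm v w * x4 (pr v b + pr w a) := by
  simp only [pr]; dst v hv; dst w hw; dst a ha; dst b hb; vp

/-- A normalized automorphism. -/
structure Nm (φ : MulAut (V K)) (κ : K) : Prop where
  fA : ∀ v ∈ A, φ v = v
  f1 : ∀ a, φ (x1 a) = x1 a
  f2 : ∀ a, φ (y2 a) = y2 a
  f6 : ∀ a, φ (y6 a) = y6 a
  f7 : ∀ a, φ (x7 a) = x7 a
  f4 : ∀ b, φ (y4 (σ b)) = y4 (σ b) * x4 (κ * b)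
  f8 : ∀ c, φ (x8 (σ c)) = x8 (σ c) * x6 (κ * c)
  g8 : ∀ b, (y8 b)⁻¹ * φ (y8 b) ∈ Z3

theorem Z3_A {v : V K} (h : v ∈ Z3) : v ∈ A := by dst v h; vs

theorem Nm.mul {ψ : MulAut (V K)} {κ κ' : K} (h : Nm φ κ) (h' : Nm ψ κ') : Nm (φ * ψ) (κ + κ') where
  fA v hv := by rw [MulAut.mul_apply, h'.fA v hv, h.fA v hv]
  f1 a := by rw [MulAut.mul_apply, h'.f1, h.f1]
  f2 a := by rw [MulAut.mul_apply, h'.f2, h.f2]
  f6 a := by rw [MulAut.mul_apply, h'.f6, h.f6]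
  f7 a := by rw [MulAut.mul_apply, h'.f7, h.f7]
  f4 a := by rw [MulAut.mul_apply, h'.f4, map_mul, h.f4, h.fA _ (by vs)]; vq
  f8 a := by rw [MulAut.mul_apply, h'.f8, map_mul, h.f8, h.fA _ (by vs)]; vq
  g8 a := by
    rw [MulAut.mul_apply, ← mul_inv_cancel_left (y8 a) (ψ _), map_mul, h.fA _ (Z3_A (h'.g8 a)), ← mul_assoc]
    exact mul_mem (h.g8 a) (h'.g8 a)

theorem Nm.app [Finite K] {κ : K} (h : Nm φ κ) {v : V K} (hv : v ∈ Q8) : ∃ b c, σ b = v.b4 ∧ σ c = v.c8 ∧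
    φ v = x1 v.a1 * ((x1 v.a1)⁻¹ * v * x4 (κ * b) * x6 (κ * c)) := by
  obtain ⟨b, hb⟩ := σ_surj v.b4
  obtain ⟨c, hc⟩ := σ_surj v.c8
  refine ⟨b, c, hb, hc, ?_⟩
  nth_rw 1 [eq_all v]
  rw [← hb, ← hc, show v.b8 = 0 from hv, show y8 (0 : K) = 1 from rfl]
  simp only [map_mul, map_one, h.f1, h.f2, h.f4, h.f6, h.f7, h.f8]
  rw [h.fA _ (by vs), h.fA _ (by vs), h.fA _ (by vs), h.fA _ (by vs), h.fA _ (by vs)]
  clear h; dst v hv; vq

theorem Nm.Z3_R [Finite K] {κ : K} (h : Nm φ κ) {v : V K} (hv : v ∈ R) : v⁻¹ * φ v ∈ Z3 := by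
  obtain ⟨b, c, -, -, e⟩ := h.app (v := v * (y8 v.b8)⁻¹) (by vq)
  have h1 := h.g8 v.b8
  rw [← inv_mul_cancel_right (φ v) (φ (y8 v.b8)), ← map_inv, ← map_mul, e, ← mul_inv_cancel_left (y8 v.b8) (φ _)]
  generalize (y8 v.b8)⁻¹ * φ (y8 v.b8) = w at *
  clear * - h1 hv; dst w h1; dst v hv; vq

theorem Nm.tor [Finite K] {κ : K} (h : Nm φ κ) (l : Kˣ × Kˣ) {u : K} (hu : σ u = w4 l) :
    Nm (V.tor l * φ * (V.tor l)⁻¹) (u * κ) := by
  have k : ∀ v, (V.tor l * φ * (V.tor l)⁻¹) (V.tor l v) = V.tor l (φ v) := fun v => by simp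
  have k' : ∀ v, φ (V.tor l⁻¹ v) = V.tor l⁻¹ v → (V.tor l * φ * (V.tor l)⁻¹) v = v := fun v e => by
    rw [MulAut.mul_apply, MulAut.mul_apply, ← map_inv, e, map_inv, MulAut.apply_inv_self]
  obtain ⟨m, hm⟩ := σ_surj (l.2 : K)
  have m0 : m * σ m ≠ 0 := mt nm_zero.1 fun e => l.2.ne_zero (by rw [← hm, e, map_zero])
  obtain rfl : u = l.1 * m * σ m * σ (l.1 * m * σ m) := σ_inj.1 (by
    rw [hu]; simp only [w4, Units.val_mul, Units.val_pow_eq_pow_val, coe_σu, ← hm]; pol)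
  refine ⟨fun v hv => k' _ (h.fA _ (by clear * - hv; dst v hv; vs)), fun a => k' _ ?_, fun a => k' _ ?_,
    fun a => k' _ ?_, fun a => k' _ ?_, fun b => ?_, fun c => ?_, fun b => ?_⟩
  · rw [show V.tor l⁻¹ (x1 a) = x1 (V.tor l⁻¹ (x1 a)).a1 by vs, h.f1]
  · rw [show V.tor l⁻¹ (y2 a) = y2 (V.tor l⁻¹ (y2 a)).b2 by vs, h.f2]
  · rw [show V.tor l⁻¹ (y6 a) = y6 (V.tor l⁻¹ (y6 a)).b6 by vs, h.f6]
  · rw [show V.tor l⁻¹ (x7 a) = x7 (V.tor l⁻¹ (x7 a)).a7 by vs, h.f7]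
  · obtain ⟨b, rfl⟩ := ex_mul (mul_ne_zero l.1.ne_zero m0) b
    rw [show y4 (σ _) = V.tor l (y4 (σ b)) by vs; rw [← hm]; pol, k, h.f4, map_mul]
    clear * - hm; vs; rw [← hm]; pol
  · obtain ⟨c, rfl⟩ := ex_mul m0 c
    rw [show x8 (σ (m * σ m * c)) = V.tor l (x8 (σ c)) by vs; rw [← hm]; simp only [map_mul], k, h.f8, map_mul]
    clear * - hm; vs; rw [← hm]; pol
  · obtain ⟨b, rfl⟩ := ex_mul l.2.ne_zero b
    rw [show y8 _ = V.tor l (y8 b) by vs, k, ← map_inv, ← map_mul]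
    exact aut_Z3 _ (h.g8 b)

theorem B8 {c : K} {w : V K} (h : w ∈ A) (h2 : x8 c * w * y6 1 = y6 1 * (x8 c * w))
    (h3 : x8 c * w * x7 1 = x7 1 * (x8 c * w)) (h4 : cm (y2 1) (x8 c * w) = cm (y2 1) (x8 c)) :
    (x8 c * x6 w.c6)⁻¹ * (x8 c * w) ∈ Z := by
  replace h2 := congrArg V.c4 h2
  replace h3 := congrArg V.c4 h3
  replace h4 := congrArg V.c4 h4
  dst w h; simp only [cm] at *; vs at *; grind

theorem B8' {b : K} {w : V K} (h : w ∈ A) (h2 : y8 b * w * x7 1 = x7 1 * (y8 b * w))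
    (h3 : y8 b * w * y6 1 = x7 b * (y6 1 * (y8 b * w))) : w ∈ Z3 := by
  replace h2 := congrArg V.c4 h2
  replace h3 := congrArg V.c4 h3
  dst w h; vs at *; grind

set_option maxHeartbeats 1600000 in
theorem aut_B [Finite K] [Bg K] (hT : ∀ l : T4 K, ∀ v, φ (tor l v) = tor l (φ v)) (fA : ∀ v ∈ A, φ v = v)
    (pA : ∀ v, v⁻¹ * φ v ∈ A) (h0 : ((x7 1)⁻¹ * φ (x7 1)).c6 = 0) : ∃ κ, Nm φ κ := by
  obtain ⟨n, n0, n1⟩ := ex_ω (K := K)
  obtain ⟨w1, w2, w3⟩ := wts n1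
  have hT := hT (l4 (.mk0 n n0))
  obtain ⟨p, hp⟩ : ∃ p : V K → V K, ∀ v, v⁻¹ * φ v = p v := ⟨_, fun _ => rfl⟩
  have e : ∀ v, φ v = v * p v := fun v => by rw [← hp, mul_inv_cancel_left]
  simp only [hp] at pA h0
  obtain ⟨m, hm, pT⟩ : ∃ m, n * m = 1 ∧ ∀ v, p (d4 n m v) = d4 n m (p v) := ⟨_, mul_inv_cancel₀ n0, fun v => by
    have := tor_l4 (.mk0 n n0)
    simp only [Units.val_mk0, Units.val_inv_eq_inv_val] at this
    rw [← this, ← this, ← hp, ← hp, hT, map_mul, map_inv]⟩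
  have hm' : σ n * σ m = 1 := by rw [← map_mul, hm, map_one]
  have sy : ∀ v ∈ Q, ∀ w ∈ Q, pr v (p w) = pr w (p v) := fun v hv w hw => by
    have := fA _ (Q_cm hv hw)
    rw [map_cm, e v, e w, cm_QA hv hw (pA v) (pA w), mul_eq_left, ← show x4 (0 : K) = 1 from rfl, x4_inj] at this
    exact CharTwo.add_eq_zero.1 this
  have s1 : ∀ v ∈ Q, (p v).c6 = pr v (p (x1 1)) := fun v hv => by simpa [pr, x1] using sy (x1 1) (by vs) v hv
  have s2 : ∀ v ∈ Q, (p v).a5 = pr v (p (y2 1)) := fun v hv => by simpa [pr, y2] using sy (y2 1) (by vs) v hv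
  have s6 : ∀ v ∈ Q, (p v).a3 = pr v (p (y6 1)) := fun v hv => by simpa [pr, y6] using sy (y6 1) (by vs) v hv
  have s7 : ∀ v ∈ Q, (p v).c2 = pr v (p (x7 1)) := fun v hv => by simpa [pr, x7] using sy (x7 1) (by vs) v hv
  have hd : ∀ v ∈ Q, d4 n m v ∈ Q := fun v hv => by clear * - hv; dst v hv; simp [d4, mem_Q]
  have t1 : ∀ v ∈ Q, pr (d4 n m v) (p (x1 1)) = n * σ n * pr v (p (x1 1)) := fun v hv => by
    rw [← s1 _ hv, ← s1 _ (hd v hv), pT]; rfl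
  have t2 : ∀ v ∈ Q, pr (d4 n m v) (p (y2 1)) = n * pr v (p (y2 1)) := fun v hv => by
    rw [← s2 _ hv, ← s2 _ (hd v hv), pT]; rfl
  have t6 : ∀ v ∈ Q, pr (d4 n m v) (p (y6 1)) = m * pr v (p (y6 1)) := fun v hv => by
    rw [← s6 _ hv, ← s6 _ (hd v hv), pT]; rfl
  have t7 : ∀ v ∈ Q, pr (d4 n m v) (p (x7 1)) = m * σ m * pr v (p (x7 1)) := fun v hv => by
    rw [← s7 _ hv, ← s7 _ (hd v hv), pT]; rfl
  have u : ∀ {a : V K} {c : K}, (∀ v ∈ Q, pr (d4 n m v) a = c * pr v a) → (n * σ n = c ∨ a.c2 = 0) ∧ (n = c ∨ a.a3 = 0) ∧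
      (m = c ∨ a.a5 = 0) ∧ (m * σ m = c ∨ a.c6 = 0) := fun h =>
    ⟨by simpa [pr, d4, x7] using h (x7 1) (by vs), by simpa [pr, d4, y6] using h (y6 1) (by vs),
      by simpa [pr, d4, y2] using h (y2 1) (by vs), by simpa [pr, d4, x1] using h (x1 1) (by vs)⟩
  have n2 : n * n ≠ 1 := by clear * - n1; grind
  have n3 : n * σ n * (n * σ n) ≠ 1 := by clear * - w2; grind
  have q1 : (p (x1 1)).c2 = 0 ∧ (p (x1 1)).a3 = 0 ∧ (p (x1 1)).a5 = 0 ∧ (p (x1 1)).c6 = 0 := by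
    have := s7 (x1 1) (by vs)
    simp only [pr, x1, h0] at this
    have h := u t1
    clear * - h this n0 w1 w3 hm hm' n3; simp only [x1] at *; grind
  have q7 : (p (x7 1)).c2 = 0 ∧ (p (x7 1)).a3 = 0 ∧ (p (x7 1)).a5 = 0 := by
    have h := u t7
    clear * - h n0 w1 w3 hm hm' n3; grind
  have q2 : (p (y2 1)).c2 = 0 ∧ (p (y2 1)).a5 = 0 ∧ (p (y2 1)).c6 = 0 := by
    have h := u t2
    clear * - h n0 w1 w3 hm hm' n2; grind
  have q6 : (p (y6 1)).c2 = 0 ∧ (p (y6 1)).a3 = 0 ∧ (p (y6 1)).c6 = 0 := by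
    have h := u t6
    clear * - h n0 w1 w3 hm hm' n2; grind
  simp only [pr, q1, q2, q6, q7, h0, mul_zero, add_zero, zero_add] at s1 s2 s6 s7
  have kZ : ∀ v ∈ Q, (p v).a3 = 0 → (p v).a5 = 0 → v⁻¹ * φ v ∈ Z := fun v hv h1 h2 => by
    obtain ⟨a, b, c, d, e, f, g⟩ := pA v
    exact hp v ▸ ⟨a, b, s7 v hv, h1, c, h2, d, s1 v hv, e, f, g⟩
  have f1 : ∀ a, φ (x1 a) = x1 a := zfix hT (w := n⁻¹ * σ n⁻¹) (mt nm_one (by simpa)) (fun a b => ⟨1, map_one _, by vs, by vs⟩)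
    (fun a => by simp [tor_l4, d4, x1]) fun a => kZ _ (by vs) (by rw [s6 _ (by vs)]; simp [x1]) (by rw [s2 _ (by vs)]; simp [x1])
  have f7 : ∀ a, φ (x7 a) = x7 a := zfix hT w2 (fun a b => ⟨1, map_one _, by vs, by vs⟩)
    (fun a => by simp [tor_l4, d4, x7]) fun a => kZ _ (by vs) (by rw [s6 _ (by vs)]; simp [x7]) (by rw [s2 _ (by vs)]; simp [x7])
  have c8 : ∀ a b, p (cm (x1 a) (x8 b)) = x4 (a * (p (x8 b)).c6) := fun a b => by
    have h := pA (x8 b)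
    rw [← hp, map_cm, f1, e (x8 b)]
    generalize p (x8 b) = w at *
    clear * - h; dst w h; vp
  have g2 : (p (y2 1)).a3 = 0 := by
    have := s2 (cm (x1 1) (x8 1)) (by clear * -; vp)
    rw [c8, show (cm (x1 1) (x8 1) : V K).b6 = 1 by clear * -; vp] at this
    simpa [x4] using this.symm
  have g6 : (p (y6 1)).a5 = 0 := by rw [s2 _ (by vs), g2, mul_zero]
  simp only [g2, g6, mul_zero] at s2 s6
  have kZ' : ∀ v ∈ Q, v⁻¹ * φ v ∈ Z := fun v hv => kZ v hv (s6 v hv) (s2 v hv)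
  have f2 : ∀ a, φ (y2 a) = y2 a := zfix hT (w := n⁻¹) (by simpa) (fun a b => ⟨x2 (a * σ b), fA _ (by vs), by vs, by vs⟩)
    (fun a => by simp [tor_l4, d4, y2]) fun a => kZ' _ (by vs)
  have f6 : ∀ a, φ (y6 a) = y6 a := zfix hT n1 (fun a b => ⟨x6 (a * σ b), fA _ (by vs), by vs, by vs⟩)
    (fun a => by simp [tor_l4, d4, y6]) fun a => kZ' _ (by vs)
  have k4 : ∀ a b, φ (y4 (σ a * b)) = y4 (σ a * b) * x4 (a * (p (x8 b)).c6) := fun a b => by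
    have h := e (cm (x1 a) (x8 b))
    obtain ⟨u, hu, h'⟩ : ∃ u ∈ A, cm (x1 a) (x8 b) = y4 (σ a * b) * (u * y6 (a * b) * x7 (a * σ b)) :=
      ⟨(y4 (σ a * b))⁻¹ * cm (x1 a) (x8 b) * (y6 (a * b) * x7 (a * σ b))⁻¹, by clear * -; vp, by group⟩
    rwa [c8, h', map_mul, map_mul, map_mul, fA u hu, f6, f7, mul_assoc (y4 _), Z_comm (x4_mem _), ← mul_assoc (y4 _),
      mul_left_inj] at h
  have f4 : ∀ b, φ (y4 (σ b)) = y4 (σ b) * x4 ((p (x8 1)).c6 * b) := fun b => by simpa [mul_comm] using k4 b 1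
  refine ⟨(p (x8 1)).c6, fA, f1, f2, f6, f7, f4, zfix hT w2 (fun a b => ⟨1, map_one _, by vq, by vq⟩)
    (fun a => by simp only [tor_l4, d4, Units.val_mk0]; clear * -; vp) fun c => ?_, fun b => ?_⟩
  · have h1 := k4 1 (σ c)
    rw [map_one, one_mul, f4, mul_right_inj, x4_inj, one_mul] at h1
    have h2 := congrArg φ (show x8 (σ c) * y6 1 = y6 1 * x8 (σ c) by clear * -; vp)
    have h3 := congrArg φ (show x8 (σ c) * x7 1 = x7 1 * x8 (σ c) by clear * -; vp)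
    have h4 := fA (cm (y2 1) (x8 (σ c)) * x7 (σ c)) (by clear * -; vp)
    simp only [map_mul, map_cm, f2, f6, f7, e (x8 _)] at h2 h3 h4 ⊢
    exact h1 ▸ B8 (pA _) h2 h3 (mul_right_cancel h4)
  · have h2 := congrArg φ (show y8 b * x7 1 = x7 1 * y8 b by clear * -; vp)
    have h3 := congrArg φ (show y8 b * y6 1 = x7 b * (y6 1 * y8 b) by clear * -; vp)
    simp only [map_mul, f6, f7, e (y8 _), inv_mul_cancel_left] at h2 h3 ⊢
    exact B8' (pA _) h2 h3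

theorem aut_norm [Finite K] [Bg K] (hT : ∀ l : T4 K, ∀ v, φ (tor l v) = tor l (φ v)) (hZ : ∀ a, φ (x4 a) = x4 a)
    (hP : ∀ v, v⁻¹ * φ v ∈ Ph) (hQ : ∀ v ∈ Q, φ (ρr v) = ρr (φ v)) : ∃ γ κ, Nm (MulAut.conj (y4 γ) * φ) κ := by
  obtain ⟨fA, pA⟩ := aut_A hT hZ hP hQ
  refine ⟨((x7 1)⁻¹ * φ (x7 1)).c6, aut_B (fun l v => ?_) (fun v hv => ?_) (fun v => ?_) ?_⟩
  · simp only [MulAut.mul_apply, MulAut.conj_apply, hT, map_mul, map_inv, T4_U4 l (show y4 _ ∈ U4 by vs)]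
  · rw [MulAut.mul_apply, fA v hv, MulAut.conj_apply]
    generalize ((x7 1)⁻¹ * φ (x7 1)).c6 = c
    clear * - hv; dst v hv; vp
  · have h := pA v
    rw [MulAut.mul_apply, MulAut.conj_apply, ← mul_inv_cancel_left v (φ v)]
    generalize ((x7 1)⁻¹ * φ (x7 1)).c6 = c, v⁻¹ * φ v = w at *
    clear * - h; dst w h; vp
  · have h := pA (x7 1)
    rw [MulAut.mul_apply, MulAut.conj_apply]
    nth_rw 2 [← mul_inv_cancel_left (x7 1) (φ (x7 1))]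
    generalize (x7 1)⁻¹ * φ (x7 1) = w at *
    clear * - h; dst w h; vp

end Cfsg.Lib.SF4
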