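import Cfsg.Agent.Lib.RF4.Braid

/-!
# S3323: facts on the large Ree groups
-/

set_option autoImplicit false

namespace Cfsg.Lib.SF4

open Subgroup Cfsg.Lib.BG Cfsg.Lib.Transfer Cfsg.Lib.GW Cfsg.Lib.RF4 Cfsg.Lib.RF4.V Cfsg.Lib.PGroup

/-- The field has more than four elements. -/
class Bg (K : Type*) : Prop where
  h : 4 < Nat.card K

variable {K : Type*}

instance finBg [Bg K] : Finite K := Nat.finite_of_card_ne_zero (by have := Bg.h (K := K); omega)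

theorem ex_ne [Bg K] (a b c d : K) : ∃ x, x ≠ a ∧ x ≠ b ∧ x ≠ c ∧ x ≠ d := by
  classical
  by_contra! h
  have := Fintype.ofFinite K
  have h1 : (Finset.univ : Finset K) ⊆ {a, b, c, d} := fun x _ => by have := h x; simp; tauto
  have := (Finset.card_le_card h1).trans Finset.card_le_four
  rw [Finset.card_univ, ← Nat.card_eq_fintype_card] at this
  exact this.not_gt Bg.h

variable [Field K]

theorem ex_ω [Bg K] : ∃ a : K, a ≠ 0 ∧ a ≠ 1 := let ⟨x, h⟩ := ex_ne (0 : K) 1 0 0; ⟨x, h.1, h.2.1⟩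

section
variable {G : Type*} [Group G]

theorem cjf {a b : G} : a * b * a⁻¹ = b ↔ Commute a b := mul_inv_eq_iff_eq_mul

theorem cjc {a b : G} (h : Commute a b) (g : G) : Commute (g * a * g⁻¹) (g * b * g⁻¹) := h.conj g

theorem mc {a b : G} : a ∈ 𝐂[b] ↔ Commute a b := mem_cent1

theorem root_mem [Tw K] [Bg K] {M N : Subgroup G} (hN : M ≤ 𝐍(N))
    (two : ∀ u ∈ M, ∀ v ∈ M, u * u ∈ N → v * v ∈ N → u ∉ N → v ∉ N → u * v ∈ N) {x : K → G} (hx : ∀ a, x a ∈ M)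
    (sq : ∀ a, x a * x a ∈ N) (add : ∀ a b, (x (a + b))⁻¹ * (x a * x b) ∈ N)
    (tr : ∀ ν ≠ 0, ∃ h ∈ M, h * x 1 * h⁻¹ = x ν) (a : K) : x a ∈ N := by
  have k : ∀ ν ≠ 0, x ν ∈ N ↔ x 1 ∈ N := fun ν h => by
    obtain ⟨h, hm, e⟩ := tr ν h
    rw [← e, ← mem_normalizer_iff.1 (hN hm)]
  by_cases h : a = 0
  · simpa [h] using add 0 0
  obtain ⟨w, w0, w1⟩ := ex_ω (K := K)
  rw [k a h]
  by_contra e
  refine e ((k (1 + w) (by grind)).1 (inv_mem_iff.1 ((mul_mem_cancel_right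
    (two _ (hx _) _ (hx w) (sq _) (sq _) e (mt (k w w0).1 e))).1 (add _ _))))

theorem odd_mem [Finite G] {N : Subgroup G} {g : G} (ho : Odd (orderOf g)) (h : g * g ∈ N) : g ∈ N := by
  obtain ⟨n, hn⟩ := ho
  have := pow_mem h (n + 1)
  rwa [← sq, ← pow_mul, mul_add, mul_one, show 2 * n + 2 = 2 * n + 1 + 1 from rfl, pow_succ, ← hn, pow_orderOf_eq_one,
    one_mul] at this

end

variable [Tw K]

theorem gen18 [Bg K] {N : Subgroup (V K)} (h1 : ∀ a, x1 a ∈ N) (h8 : ∀ a, y8 a ∈ N) : N = ⊤ := by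
  obtain ⟨a, a0, a1⟩ := ex_ω (K := K)
  refine frattini_nongenerating (eq_top_iff.2 fun v _ => ?_)
  have : v * (x1 v.a1 * y8 v.b8)⁻¹ ∈ frattini _ := Ph_le (fun v => sq v ▸ pow_mem_frattini pgV v)
    (commutatorElement_mem_frattini pgV) a0 a1 (by vp)
  simpa [mul_assoc] using mul_mem (mem_sup_right this) (mem_sup_left (mul_mem (h1 v.a1) (h8 v.b8)))

/-- A torus element centralizing `U₄`. -/
def l4 (ν : Kˣ) : T4 K := ⟨((ν * σu ν)⁻¹, σu ν), mem_T4.2 (by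
  have := ν.ne_zero
  have := mt σ_eq_zero.1 this
  simp [mul_assoc])⟩

/-- A torus element centralizing `U₅`. -/
def l5 (μ : Kˣ) : Kˣ × Kˣ := ((μ ^ 2)⁻¹, μ)

theorem w4_surj [Finite K] {c : K} (hc : c ≠ 0) : ∃ l : Kˣ × Kˣ, (w4 l : K) = c := by
  obtain ⟨a, rfl⟩ := σ_surj c
  obtain ⟨a, rfl⟩ := nm_surj a
  exact ⟨(.mk0 a (by rintro rfl; simp at hc), 1), by simp [w4, mul_comm]⟩

theorem w5_surj [Finite K] {c : K} (hc : c ≠ 0) : ∃ l, tor l (x5 c) = x5 1 := by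
  obtain ⟨a, e⟩ := nm_surj c⁻¹
  refine ⟨(.mk0 a (by rintro rfl; simp [hc.symm] at e), 1), ?_⟩
  vs; simp [e, hc]

theorem cent_x5 : 𝐂[(x5 1 : V K)] = X1 := by
  ext v
  rw [mem_cent1]
  vs; grind

theorem A_norm (v : V K) {w : V K} (h : w ∈ A) : v * w * v⁻¹ ∈ A := by dst w h; vp

theorem c6_cj (v : V K) {w : V K} (h : w ∈ Z2) : (v * w * v⁻¹).c6 = w.c6 := by dst w h; vp

theorem Z3_x5 {v : V K} (h : v ∈ Z3) (e : v.a5 ≠ 0) : ∃ w, w * v * w⁻¹ = x5 v.a5 := by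
  obtain ⟨s, hs⟩ := ex_mul e v.c6
  obtain ⟨t, ht⟩ := ex_mul e v.c4
  exact ⟨y2 t * y8 s, by dst v h; vp⟩

theorem ex_26 [Finite K] {t c : K} (ht : t ≠ 0) (hc : c ≠ 0) : ∃ u : V K, u * (x2 t * x6 c) * u⁻¹ ∈ Q ∧
    ρr (u * (x2 t * x6 c) * u⁻¹) ∈ Z3 ∧ (ρr (u * (x2 t * x6 c) * u⁻¹)).a5 ≠ 0 := by
  obtain ⟨s, hs⟩ := ex_σ ht c
  obtain ⟨b, rfl⟩ := nm_surj s
  have b0 : b ≠ 0 := by rintro rfl; simp [hc.symm] at hs
  refine ⟨y8 b * x8 (b * σ b), by vp, ?_, ?_⟩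
  · simp only [map_mul, σσ] at hs; vp
  · have := mul_ne_zero b0 ht
    vp

end Cfsg.Lib.SF4

namespace Cfsg.Lib.RF4.Full

open Subgroup Cfsg.Lib.BG Cfsg.Lib.Transfer Cfsg.Lib.GW Cfsg.Lib.RF4.V Cfsg.Lib.SF4

variable {K : Type*} [Field K] [Tw K] {G : Type*} [Group G] (F : Full K G)

/-- Transport along a homomorphism. -/
def map {G' : Type*} [Group G'] (φ : G →* G') (hφ : Function.Injective φ) : Full K G' where
  e := φ.comp F.e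
  h := φ.comp F.h
  r := φ F.r
  s := φ F.s
  f := F.f
  inj := hφ.comp F.inj
  he l v := by simpa using congrArg φ (F.he l v)
  rr := by simpa using congrArg φ F.rr
  ss := by simpa using congrArg φ F.ss
  re v h := by simpa using congrArg φ (F.re v h)
  se v h := by simpa using congrArg φ (F.se v h)
  rh l := by simpa using congrArg φ (F.rh l)
  sh l := by simpa using congrArg φ (F.sh l)
  s3 := by simpa using congrArg φ F.s3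
  sz x h h' := ⟨(F.sz x h h').1, by simpa using congrArg φ (F.sz x h h').2⟩
  braid := by simpa using congrArg φ F.braid

theorem map_gen {G' : Type*} [Group G'] (φ : G →* G') (hφ : Function.Injective φ) : (F.map φ hφ).gen = F.gen.map φ := by
  rw [gen, gen, Subgroup.map_sup, Subgroup.map_sup, MonoidHom.map_range, MonoidHom.map_range, MonoidHom.map_closure,
    ← Set.range_comp]
  congr 3
  funext b; cases b <;> rfl

theorem map_range {G' : Type*} [Group G'] (φ : G →* G') (hφ : Function.Injective φ) :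
    (F.map φ hφ).e.range = F.e.range.map φ := (MonoidHom.map_range _ _).symm

/-- The centraliser of `Z` in `L`. -/
def C : Subgroup G := F.gen ⊓ 𝐂[F.e (x4 1)]

theorem eC (v : V K) : F.e v ∈ F.C := ⟨F.e_mem v, F.e_cent 1 v⟩

theorem hC (l : T4 K) : F.h l ∈ F.C := ⟨F.h_mem l, (F.h_T4 one_ne_zero).2 l.2⟩

theorem rC : F.r ∈ F.C := ⟨F.r_mem, F.r_cent 1⟩

/-- The structure of the centraliser. -/
def b0 : B0 K G where
  e := F.e
  h := F.h.comp (T4 K).subtype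
  r := F.r
  f := F.f
  C := F.C
  inj := F.inj
  he l := F.he l
  rr := F.rr
  re := F.re
  rh l := (F.rh l).trans ((congrArg F.h (wr_T4 l.2)).trans (map_inv _ _))
  sz := F.sz
  mem g := by
    refine ⟨fun hg => ?_, ?_⟩
    · obtain ⟨v, l, h | ⟨u, hu, h⟩⟩ := F.cent hg.1 one_ne_zero (mul_inv_eq_iff_eq_mul.2 (mem_cent1.1 hg.2))
      · exact ⟨v, ⟨l, (F.h_T4 one_ne_zero).1 ((mul_mem_cancel_left (F.e_cent 1 v)).1 (h ▸ hg.2))⟩, .inl h⟩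
      · exact ⟨v, ⟨l, (F.h_T4 one_ne_zero).1 ((mul_mem_cancel_left (F.e_cent 1 v)).1 ((mul_mem_cancel_right
          (F.r_cent 1)).1 ((mul_mem_cancel_right (F.e_cent 1 u)).1 (h ▸ hg.2))))⟩, .inr ⟨u, hu, h⟩⟩
    · rintro ⟨v, l, rfl | ⟨u, -, rfl⟩⟩
      exacts [mul_mem (F.eC _) (F.hC _), mul_mem (mul_mem (mul_mem (F.eC _) (F.hC _)) F.rC) (F.eC _)]

theorem ej (v w : V K) : F.e v * F.e w * (F.e v)⁻¹ = F.e (v * w * v⁻¹) := by simp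

theorem ec {v w : V K} (h : v * w = w * v) : Commute (F.e v) (F.e w) := Commute.map h F.e

theorem ce {v w : V K} (h : Commute (F.e v) (F.e w)) : v * w = w * v := F.inj (by simpa using h.eq)

theorem C_Z {g : G} (hg : g ∈ F.C) (a : K) : Commute g (F.e (x4 a)) := mc.1 (F.b0.C_cent (x4_mem a) hg)

theorem C_le {M : Subgroup G} (h1 : ∀ v, F.e v ∈ M) (h2 : ∀ l : T4 K, F.h l ∈ M) (h3 : F.r ∈ M) : F.C ≤ M :=
  F.b0.C_le h1 h2 h3

theorem CQ' {g : G} (hg : g ∈ F.gen) (h : ∀ w ∈ Q, Commute g (F.e w)) : ∃ a, g = F.e (x4 a) := by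
  obtain ⟨z, hz, e⟩ := F.b0.cent_Q ⟨hg, mc.2 (h _ (by vs))⟩ fun w hw => cjf.2 (h w hw)
  exact ⟨_, by rw [← eq_x4 hz]; exact e.symm⟩

theorem CZ2 {g : G} (hg : g ∈ F.C) (h : Commute g (F.e (x6 1))) : ∃ v ∈ R, g = F.e v := by
  obtain ⟨v, l, rfl⟩ := F.b0.bru6 (y := x6 1) (by vs) (by vs; simp) (by vs) hg (cjf.2 h)
  replace h : F.e v * F.h l * F.e (x6 1) * (F.e v * F.h l)⁻¹ = _ := cjf.2 h
  rw [show F.e v * F.h l * F.e (x6 1) * (F.e v * F.h l)⁻¹ = F.e v * (F.h l * F.e (x6 1) * (F.h l)⁻¹) * (F.e v)⁻¹ by group,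
    F.he, F.ej, F.inj.eq_iff] at h
  have h1 := T4_c6 l (x6 1)
  rw [← c6_cj v (aut_Z2 _ (by vs)), h] at h1
  obtain rfl : l = 1 := Subtype.ext (T4_fst l.2 (Units.ext (by simpa [x6] using h1)))
  exact ⟨v, R_of (by simpa [mul_inv_eq_iff_eq_mul] using h), by simp [b0]⟩

theorem center {g : G} (hg : g ∈ F.gen) (h : g ∈ 𝐂(F.gen)) : g = 1 := by
  obtain ⟨a, rfl⟩ := F.CQ' hg fun w _ => (mem_cent.1 h _ (F.e_mem w)).symm
  have := F.se _ (show x4 a ∈ R by vs)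
  rw [mem_cent.1 h _ F.s_mem, mul_inv_cancel_right, F.inj.eq_iff] at this
  rw [show x4 a = 1 by revert this; vs; tauto, map_one]

/-- An automorphism centralizing the Sylow subgroup. -/
theorem CS {g : G} (hg : g ∈ 𝐍(F.gen)) (h : ∀ v, Commute g (F.e v)) : g * g ∈ 𝐂(F.gen) := by
  have k : ∀ x ∈ F.gen, ∀ N : Subgroup (V K), (∀ v ∈ N, ∃ w, x⁻¹ * F.e v * x = F.e w) → g * x * g⁻¹ * x⁻¹ ∈ F.gen ∧
      ∀ v ∈ N, Commute (g * x * g⁻¹ * x⁻¹) (F.e v) := fun x hx N hN =>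
    ⟨mul_mem (conj_mem_of_norm hg hx) (inv_mem hx), fun v hv => cjf.1 (by
      obtain ⟨w, e⟩ := hN v hv
      calc _ = g * (x * (g⁻¹ * (x⁻¹ * F.e v * x) * g⁻¹⁻¹) * x⁻¹) * g⁻¹ := by group
        _ = _ := by rw [e, cjf.2 (h w).inv_left, ← e]; simp [mul_assoc, (h v).eq])⟩
  have k2 : ∀ x v, v * v = 1 → g * x * g⁻¹ * x⁻¹ = F.e v → x ∈ 𝐂[g * g] := fun x v h1 h2 => mc.2 (cjf.1 (by
    rw [mul_inv_eq_iff_eq_mul] at h2
    calc _ = g * (g * x * g⁻¹) * g⁻¹ := by group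
      _ = _ := by rw [h2, ← conj_mul, h2, cjf.2 (h v), ← mul_assoc, ← map_mul, h1, map_one, one_mul])).symm
  have k3 : ∀ x ∈ F.gen, (∀ v ∈ Q, ∃ w, x⁻¹ * F.e v * x = F.e w) → x ∈ 𝐂[g * g] := fun x hx hN => by
    obtain ⟨a, e⟩ := F.CQ' (k x hx Q hN).1 (k x hx Q hN).2
    exact k2 x _ (by vp) e
  refine le_cent1_iff.1 (F.gen_le (fun v => mc.2 ((h v).mul_left (h v)).symm)
    (fun l => k3 _ (F.h_mem l) fun v _ => ⟨_, by simpa using F.he l⁻¹ v⟩)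
    (k3 _ F.r_mem fun v hv => ⟨_, by simpa [F.r_inv] using F.re v hv⟩) ?_)
  obtain ⟨k1, k4⟩ := k _ F.s_mem R fun v hv => ⟨_, by simpa [F.s_inv] using F.se v hv⟩
  obtain ⟨v, hv, e⟩ := F.CZ2 ⟨k1, mc.2 (k4 _ (by vs))⟩ (k4 _ (by vs))
  have := Z2_of_R hv fun w hw => (F.ce (e ▸ k4 w hw)).symm
  exact k2 _ v (by clear * - this; dst v this; vp) e

theorem h_NS (l : Kˣ × Kˣ) [Finite G] : F.h l ∈ 𝐍(F.e.range) :=
  mem_normalizer_of_conj_le (conj_le_iff.2 (by rintro _ ⟨v, rfl⟩; exact ⟨_, (F.he l v).symm⟩))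

theorem act {g : G} (hg : g ∈ 𝐍(F.e.range)) : ∃ φ : MulAut (V K), ∀ v, g * F.e v * g⁻¹ = F.e (φ v) :=
  ⟨(MonoidHom.ofInjective F.inj).trans ((F.e.range.normalizerMonoidHom ⟨g, hg⟩).trans
    (MonoidHom.ofInjective F.inj).symm), fun v => (MonoidHom.apply_ofInjective_symm F.inj
      (F.e.range.normalizerMonoidHom ⟨g, hg⟩ ⟨_, v, rfl⟩)).symm⟩

theorem NCS {g : G} (hg : g ∈ F.C) (h : g ∈ 𝐍(F.e.range)) : ∃ v, ∃ l : T4 K, g = F.e v * F.h l := by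
  obtain ⟨φ, e⟩ := F.act h
  exact F.b0.bru6 (y := x6 1) (by vs) (by vs; simp) (aut_Z2 φ (by vs)) hg (e _)

variable [Finite K]

theorem odd_h (l : Kˣ × Kˣ) : Odd (orderOf (F.h l)) :=
  (odd_T (K := K)).of_dvd_nat ((orderOf_map_dvd _ _).trans (_root_.orderOf_dvd_natCard _))

theorem pS : IsPGroup 2 F.e.range := pgV.of_surjective _ (MonoidHom.rangeRestrict_surjective _)

theorem fus {v : V K} (h : Cl v) : ∃ g ∈ F.gen, ∃ m, g * F.e v * g⁻¹ = F.e (x4 m) ∨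
    m ≠ 0 ∧ g * F.e v * g⁻¹ = F.e (x5 m) := by
  have k : ∀ {v w : V K} {k : G}, k ∈ F.gen → k * F.e v * k⁻¹ = F.e w →
      (∃ g ∈ F.gen, ∃ m, g * F.e w * g⁻¹ = F.e (x4 m) ∨ m ≠ 0 ∧ g * F.e w * g⁻¹ = F.e (x5 m)) →
      ∃ g ∈ F.gen, ∃ m, g * F.e v * g⁻¹ = F.e (x4 m) ∨ m ≠ 0 ∧ g * F.e v * g⁻¹ = F.e (x5 m) := by
    rintro v w k hk e ⟨g, hg, h⟩
    exact ⟨g * k, mul_mem hg hk, by simpa only [← e, mul_inv_rev, mul_assoc] using h⟩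
  have k4 : ∀ t, ∃ g ∈ F.gen, ∃ m, g * F.e (x6 t) * g⁻¹ = F.e (x4 m) ∨ m ≠ 0 ∧ g * F.e (x6 t) * g⁻¹ = F.e (x5 m) :=
    fun t => ⟨_, F.s_mem, t, .inl ((F.se _ (by vs)).trans (congrArg _ (by vs)))⟩
  have k5 : ∀ a ≠ 0, ∃ g ∈ F.gen, ∃ m, g * F.e (x5 a) * g⁻¹ = F.e (x4 m) ∨ m ≠ 0 ∧ g * F.e (x5 a) * g⁻¹ = F.e (x5 m) :=
    fun m h => ⟨1, one_mem _, m, .inr ⟨h, by simp⟩⟩
  induction h with
  | @z2 y h =>
    by_cases hZ : y ∈ Z
    · exact ⟨1, one_mem _, y.c4, .inl (by rw [← eq_x4 hZ]; simp)⟩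
    obtain ⟨t, e⟩ := x1_Z2 h (y' := x6 y.c6) (by vs) hZ rfl
    exact k (F.e_mem _) ((F.ej _ _).trans (congrArg _ e)) (k4 _)
  | r5 h => exact k5 _ h
  | @r7 m h => exact k F.s_mem (F.se _ (by vs)) (k F.r_mem ((F.re _ (by vs)).trans (congrArg _ (by vs))) (k5 m h))
  | @r8 t a h =>
    refine k F.s_mem ((F.se _ (by vp)).trans (congrArg _ (show _ = x2 t * x6 a by vp))) ?_
    by_cases e : a = 0
    · exact k F.r_mem ((F.re _ (by vp)).trans (congrArg _ (by subst e; vp))) (k4 t)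
    obtain ⟨u, h1, h2, h3⟩ := ex_26 h e
    obtain ⟨w, hw⟩ := Z3_x5 h2 h3
    exact k (F.e_mem u) (F.ej _ _) (k F.r_mem (F.re _ h1) (k (F.e_mem w) ((F.ej _ _).trans (congrArg _ hw)) (k5 _ h3)))
  | conj w _ ih => exact k (F.e_mem w) (F.ej _ _) ih
  | refl h _ ih => exact k F.r_mem (F.re _ h) ih

variable [Finite G] (hS : Syl 2 F.e.range F.gen)
include hS

theorem cls {l : G} (hl : l ∈ F.gen) (l2 : l * l = 1) (l1 : l ≠ 1) :
    ∃ g ∈ F.gen, g * l * g⁻¹ = F.e (x4 1) ∨ g * l * g⁻¹ = F.e (x5 1) := by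
  obtain ⟨k, hk, e⟩ := Syl.exists_conj_le hS (Q := zpowers l) (.of_card (n := 1) (by
    rw [Nat.card_zpowers, orderOf_eq_prime (p := 2) (by rwa [sq]) l1, pow_one])) (zpowers_le.2 hl)
  obtain ⟨v, hv⟩ := conj_le_iff.1 e _ (mem_zpowers _)
  obtain ⟨g, hg, m, h | ⟨h0, h⟩⟩ := F.fus (cl (v := v) (F.inj (by rw [map_mul, hv, map_one, sq_conj l2])))
  · obtain ⟨y, e⟩ := w4_surj (c := m⁻¹) (inv_ne_zero (by
      rintro rfl
      rw [hv, show x4 (0 : K) = 1 from rfl, map_one, conj_eq_one_iff, conj_eq_one_iff] at h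
      exact l1 h))
    refine ⟨F.h y * g * k, mul_mem (mul_mem (F.h_mem y) hg) hk, .inl ?_⟩
    rw [← inv_mul_cancel₀ (a := m) (fun h => by simp [h] at e), ← e, ← tor_w4, ← F.he, ← h, hv]; group
  · obtain ⟨y, e⟩ := w5_surj h0
    exact ⟨F.h y * g * k, mul_mem (mul_mem (F.h_mem y) hg) hk, .inr (by rw [← e, ← F.he, ← h, hv]; group)⟩

omit hS [Finite K] [Finite G] in
theorem N5 {n : G} (hn : n ∈ 𝐍(X1.map F.e)) : ∃ c, n * F.e (x4 1) * n⁻¹ = F.e (x4 c) := by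
  rw [← cent_x5] at hn
  have k : ∀ W : Subgroup (V K), n ∈ 𝐍(W.map F.e) → n ∈ 𝐍(⁅W, 𝐂[x5 1]⁆.map F.e) := fun W hW => by
    rw [map_commutator]
    exact norm_comm (zpowers_le.2 hW) (zpowers_le.2 hn) (mem_zpowers n)
  rcases cent5 (K := K) one_ne_zero 1 with ⟨h1, h2⟩ | ⟨h1, h2⟩
  · obtain ⟨v, hv, e⟩ := conj_mem_of_norm (k _ (k _ (k _ hn))) ⟨_, h1, rfl⟩
    exact ⟨_, by rw [← eq_x4 (h2 hv), e]⟩
  · obtain ⟨v, hv, e⟩ := conj_mem_of_norm (k _ (k _ (k _ (k _ hn)))) ⟨_, h1, rfl⟩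
    exact ⟨_, by rw [← eq_x4 (h2 hv), e]⟩

theorem syl5 : Syl 2 (X1.map F.e) (F.gen ⊓ 𝐂[F.e (x5 1)]) := by
  have h1 : X1.map F.e ≤ F.gen ⊓ 𝐂[F.e (x5 1)] := by
    rintro _ ⟨v, hv, rfl⟩
    exact ⟨F.e_mem v, mc.2 (F.ec (mem_cent1.1 (cent_x5.ge hv)))⟩
  refine Syl.of_norm (Syl.of_max (le_inf h1 (le_norm _)) (pgroup_of_le F.pS (map_le_range _ _)) fun P hP _ h n hn => ?_)
  obtain ⟨⟨h2, h3⟩, h4⟩ := h hn
  obtain ⟨c, e⟩ := F.N5 h4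
  obtain ⟨l, hl⟩ := w4_surj (c := c⁻¹) (inv_ne_zero (by
    rintro rfl
    rw [show x4 (0 : K) = 1 from rfl, map_one, conj_eq_one_iff, map_eq_one_iff _ F.inj] at e
    exact one_ne_zero (x4_inj.1 e)))
  obtain ⟨v, l', e'⟩ := F.b0.bruQ (g := F.h l * n) (y := x5 1) (y' := tor l (x5 1)) (fun φ _ => aut_Z3 φ) (by vs) (by vs)
    (fun u hu h => by dst u hu; clear * - h; vs at *; grind) ⟨mul_mem (F.h_mem l) h2, mc.2 (cjf.1 (by
      rw [mul_inv_rev, mul_assoc _ n, ← mul_assoc, mul_assoc (F.h l), e, F.he, tor_w4, hl,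
        inv_mul_cancel₀ fun h => by simp [h] at hl]))⟩ (by
      change _ * F.e _ * _ = F.e _
      rw [← F.he, ← cjf.2 (mc.1 h3)]; nth_rw 1 [cjf.2 (mc.1 h3)]; group)
  obtain ⟨w, rfl⟩ := zpowers_le.1 (Syl.ge_of_norm_p' hS (zpowers_le.2 h2) (pgroup_of_le hP (zpowers_le.2 hn))
    (zpowers_le.2 ((mul_mem_cancel_left (F.h_NS l)).1 (e' ▸ mul_mem (le_norm _ ⟨v, rfl⟩) (F.h_NS l')))))
  exact ⟨w, cent_x5.le (mem_cent1.2 (F.ce (mc.1 h3))), rfl⟩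

end Cfsg.Lib.RF4.Full
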