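import Cfsg.Agent.Lib.SF4.Rel

/-!
# S3323: the core construction
-/

set_option autoImplicit false

namespace Cfsg.Lib.SF4

open Subgroup Cfsg.Lib.BG Cfsg.Lib.Transfer Cfsg.Lib.GW Cfsg.Lib.RF4 Cfsg.Lib.RF4.V

variable {K : Type*} [Field K] [Tw K] [Bg K] {G : Type*} [Group G] [Finite G] {F : Full K G} {t : G}

omit [Tw K] [Bg K] in
theorem ex_two {P : K → Prop} (h : ∀ a b, P a → P b → a = b ∨ a = b + 1) : ∃ a, ∀ b, P b → b = a ∨ b = a + 1 := by
  by_cases e : ∃ a, P a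
  exacts [e.imp fun a ha b hb => h b a hb ha, ⟨0, fun b hb => (e ⟨b, hb⟩).elim⟩]

omit [Bg K] in
theorem σ_ker {a : K} (h : a + σ a = 0) : a = 0 ∨ a = 1 := by
  by_contra! e
  exact add_σ_ne e.1 e.2 h

theorem ex_δ (β : K) : ∃ δ, β + δ + σ δ = 0 ∨ β + δ + σ δ = 1 := by
  obtain ⟨⟨_, δ, rfl⟩, e⟩ := Finite.surjective_of_injective (f := fun x : Set.range fun x : K => x + σ x =>
    (⟨x + σ x.1, x, rfl⟩ : Set.range fun x : K => x + σ x)) (by
      rintro ⟨_, a, rfl⟩ ⟨_, b, rfl⟩ e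
      have h := σ_ker (a := a + b + σ (a + b)) (by simp only [Subtype.ext_iff, map_add] at e ⊢; grind)
      have h1 := h.imp_right (congrArg σ)
      have h2 := σ_ker (a := a + b)
      simp only [Subtype.ext_iff, map_add, map_one, σσ] at *
      have : a + b = 1 → σ a + σ b = 1 := fun e => by rw [← map_add, e, map_one]
      have : a + b = 0 → σ a + σ b = 0 := fun e => by rw [← map_add, e, map_zero]
      have : (a + b) * (a + b + 1) = 0 → a + b = 0 ∨ a + b = 1 := by grind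
      grind) ⟨_, β, rfl⟩
  exact ⟨δ, σ_ker (by simp only [Subtype.ext_iff, map_add] at e ⊢; grind)⟩

theorem S0.core (s : S0 F t) : ∃ sw X4 X5, Core F t sw X4 X5 := by
  obtain ⟨X, s⟩ := s.ex_YS
  obtain ⟨X5, s⟩ := s.ex_WS
  obtain ⟨β, x⟩ := s.x82
  obtain ⟨l, m, h⟩ := s.B4 (β := β) x
  obtain ⟨a, ha⟩ := ex_two (P := fun k : K => k ^ 2 + k + l = 0) fun a b h h' => by grind
  obtain ⟨b, hb⟩ := ex_two (P := fun k : K => k + σ k + β = 0) fun a b h h' => by
    have := σ_ker (a := a + b) (by rw [map_add]; grind)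
    grind
  obtain ⟨k, k1, k2, k3, k4⟩ := ex_ne a (a + 1) b (b + 1)
  obtain ⟨rfl, h2⟩ := s.eqs x h (k := k) fun e => (ha k e).elim k1 k2
  obtain rfl := (mul_eq_zero.1 h2).resolve_right fun e => (hb k e).elim k3 k4
  obtain ⟨δ, hδ⟩ := ex_δ β
  obtain ⟨sw, hδ⟩ : ∃ sw, β + δ + σ δ = cond sw 1 0 := hδ.elim (⟨false, ·⟩) (⟨true, ·⟩)
  have hδ' := congrArg σ hδ
  let j : K × K → K × K := fun p => (p.1 * δ + p.2 * δ + p.2, p.1 + p.2)
  have j1 : ∀ p q, j (p + q) = j p + j q := fun p q => by simp only [j]; pq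
  have j2 : ∀ p, τp (j p) = j p.swap := fun p => by simp only [j, Prod.fst_swap, Prod.snd_swap]; pq
  have j3 : ∀ c, j (c, c) = (c, 0) := fun p => by simp only [j]; pq
  have j4 : ∀ (c : K) p, c • j p = j (c • p) := fun c p => by simp only [j]; pq
  have j5 : ∀ p q, ml (β + σ β) (j p) (j q) = j (p * q) := fun p q => by
    cases sw <;> simp only [j, Prod.fst_mul, Prod.snd_mul, cond, map_add, map_zero, map_one, σσ] at * <;> pr2
  have j6 : ∀ p q, b4 β (β + σ β) 0 (j p) (j q) = j (p * sg2 sw q) := fun p q => by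
    rw [← j5, b4, zero_mul, Prod.mk_zero_zero, add_zero]
    congr 1
    cases sw <;> simp only [j, sg2, cond] at * <;> pr2
  exact ⟨sw, fun p => X (j p), fun p => X5 (j p), fun p q => by rw [j1, s.add], fun p q => by rw [j1, s.add5],
    fun g hg p => s.cC g hg _, fun p => cjf.1 (s.s5 _), fun p => by rw [s.tX, j2], fun p => by rw [s.t5, j2],
    fun c => by rw [j3, s.d], fun c => by rw [j3, s.d5], fun l p => by rw [s.h4, j4], fun l p => by rw [s.h5, j4],
    fun p q => s.sh1 _ ▸ s.c46 _ _, fun p q => s.sh2 _ ▸ F.cs_cs (X (j p)) ▸ (s.c26 _ _).symm.map F.cs,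
    fun p q => ((s.wm _).c4 _).symm, fun p q => s.shm _ ▸ s.c25 _ _,
    fun p q => by simp only [s.sh1, s.sh2, s.shm, h, j5, j6, D5, mul_comm q],
    fun p q => by simp only [s.sh1, s.sh2, s.shm5, s.b83 x h, j5]⟩

end Cfsg.Lib.SF4
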