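import Cfsg.Agent.Lib.SF4.Bas
import Cfsg.Agent.Lib.Schur.Hopf

/-!
# S3323: the configurations

Roots of the Ree group are indexed by `i mod 16`; `r : i ↦ 8 - i`, `s : i ↦ 10 - i`, `F.sh k : i ↦ i + 2 k`.
-/

set_option autoImplicit false

namespace Cfsg.Lib.RF4.Full

open Subgroup Cfsg.Lib.RF4.V

variable {K : Type*} [Field K] [Tw K] {G : Type*} [Group G] (F : Full K G)

/-- The shift of the roots by `2 k`. -/
def sh' (k : ℤ) : MulAut G := MulAut.conj ((F.s * F.r) ^ k)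

theorem sh'_apply (k : ℤ) (x : G) : F.sh' k x = (F.s * F.r) ^ k * x * ((F.s * F.r) ^ k)⁻¹ := rfl

theorem sh'_add (j k : ℤ) (x : G) : F.sh' j (F.sh' k x) = F.sh' (j + k) x := by
  rw [sh', sh', sh', zpow_add, map_mul, MulAut.mul_apply]

@[simp] theorem sh'_zero (x : G) : F.sh' 0 x = x := by simp [sh']

theorem sr_inv : (F.s * F.r)⁻¹ = F.r * F.s := by rw [mul_inv_rev, F.r_inv, F.s_inv]

theorem sh'_per (k : ℤ) (x : G) : F.sh' (k + 8) x = F.sh' k x := by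
  have : (F.s * F.r) ^ (8 : ℤ) = 1 := by
    rw [show (8 : ℤ) = (4 : ℕ) + (4 : ℕ) from rfl, zpow_add, zpow_natCast]
    nth_rw 1 [F.braid]
    rw [← F.sr_inv, inv_pow, inv_mul_cancel]
  rw [sh', zpow_add, this, mul_one, sh']

theorem r_sh' (k : ℤ) (x : G) : F.r * F.sh' k x * F.r⁻¹ = F.sh' (-k) (F.r * x * F.r⁻¹) := by
  have : F.r * (F.s * F.r) ^ k * F.r⁻¹ = (F.s * F.r) ^ (-k) := by
    rw [← conj_zpow, ← inv_zpow', F.sr_inv, ← mul_assoc, mul_inv_cancel_right]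
  rw [sh'_apply, sh'_apply, ← this]; group

theorem s_eq (x : G) : F.s * x * F.s⁻¹ = F.sh' 1 (F.r * x * F.r⁻¹) := by
  rw [sh'_apply, zpow_one, mul_inv_rev]
  simp only [F.r_inv, mul_assoc, ← mul_assoc F.r F.r, F.rr, one_mul]

theorem s_sh' (k : ℤ) (x : G) : F.s * F.sh' k x * F.s⁻¹ = F.sh' (1 - k) (F.r * x * F.r⁻¹) := by
  rw [s_eq, r_sh', sh'_add, sub_eq_add_neg]

theorem sr_mem (k : ℤ) : (F.s * F.r) ^ k ∈ F.gen := zpow_mem (mul_mem F.s_mem F.r_mem) k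

theorem sh'_h (k : ℤ) (l : Kˣ × Kˣ) : ∃ l', F.sh' k (F.h l) = F.h l' := by
  induction k using Int.induction_on generalizing l with
  | zero => exact ⟨l, by simp⟩
  | succ k ih =>
    obtain ⟨l', e⟩ := ih (ws (wr l))
    exact ⟨l', by rw [← e, ← F.sh, s_eq, F.rh, wr_wr, sh'_add]⟩
  | pred k ih =>
    obtain ⟨l', e⟩ := ih (wr (ws l))
    exact ⟨l', by rw [← e, ← F.rh, ← F.sh, s_eq, r_sh', F.rh, F.rh, wr_wr, sh'_add, sub_eq_add_neg]⟩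

theorem sh'_fix {t : G} (h : ∀ l ∈ F.gen, Commute t l) (k : ℤ) : F.sh' k t = t :=
  mul_inv_eq_iff_eq_mul.2 (h _ (F.sr_mem k)).eq.symm

end Cfsg.Lib.RF4.Full

namespace Cfsg.Lib.SF4

open Subgroup Cfsg.Lib.BG Cfsg.Lib.Transfer Cfsg.Lib.GW Cfsg.Lib.RF4 Cfsg.Lib.RF4.V

variable {K : Type*} [Field K] [Tw K] {G : Type*} [Group G]

/-- The weight on `U₅`. -/
def w5 (l : Kˣ × Kˣ) : Kˣ := l.1 * σu l.1 * l.2 ^ 2 * σu l.2 ^ 2

theorem tor_w5 (l : Kˣ × Kˣ) (a : K) : tor l (x5 a) = x5 (w5 l * a) := by vs; simp [w5]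

/-- Perfect with trivial multiplier. -/
def TM (J : Type*) [Group J] : Prop := commutator J = ⊤ ∧ HasCyclicSchurMultiplier J 1

/-- The standard configuration. -/
structure St (F : Full K G) (t : G) : Prop where
  t2 : t * t = 1
  t1 : t ≠ 1
  tL : ∀ l ∈ F.gen, Commute t l
  cn : ∀ g, Commute g t → g ∈ 𝐍(F.gen)
  kinv : ∀ g, Commute g t → g ∈ 𝐂(F.gen) → g * g = 1 → g = 1 ∨ g = t
  out : ∀ g, Commute g t → ∃ n, Odd n ∧ ∃ l ∈ F.gen, l⁻¹ * g ^ n ∈ 𝐂(F.gen)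
  syl : Syl 2 F.e.range F.gen

/-- The centraliser of `L ⟨t⟩` is `O × ⟨t⟩`. -/
structure S1 (F : Full K G) (t : G) (O : Subgroup G) : Prop extends St F t where
  odd : Odd (Nat.card O)
  Ot : O ≤ 𝐂[t]
  OL : O ≤ 𝐂(F.gen)
  K0 : ∀ g, Commute g t → g ∈ 𝐂(F.gen) → g ∈ O ∨ t * g ∈ O
  g0 : ∃ g ∈ 𝐍(O), g ∈ 𝐍(F.e.range) ∧ g * t * g⁻¹ = t * F.e (x4 1)

/-- The centraliser of `L ⟨t⟩` is `⟨t⟩`. -/
structure S0 (F : Full K G) (t : G) : Prop extends St F t where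
  K0 : ∀ g, Commute g t → g ∈ 𝐂(F.gen) → g = 1 ∨ g = t
  g0 : ∃ g ∈ 𝐍(F.e.range), g * t * g⁻¹ = t * F.e (x4 1)

/-- The twist on `K × K`. -/
def sg2 (sw : Bool) (p : K × K) : K × K := cond sw (σ p.2, σ p.1) (σ p.1, σ p.2)

/-- The big root groups `X_{4 + 2 k} = F.sh' k ∘ X4` and `X_{5 + 2 k} = F.sh' k ∘ X5`. -/
structure Core (F : Full K G) (t : G) (sw : Bool) (X4 X5 : K × K → G) : Prop where
  add4 : ∀ p q, X4 (p + q) = X4 p * X4 q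
  add5 : ∀ p q, X5 (p + q) = X5 p * X5 q
  c4 : ∀ g ∈ F.C, ∀ p, Commute g (X4 p)
  s5 : ∀ p, Commute F.s (X5 p)
  t4 : ∀ p, t * X4 p * t⁻¹ = X4 p.swap
  t5 : ∀ p, t * X5 p * t⁻¹ = X5 p.swap
  d4 : ∀ c, X4 (c, c) = F.e (x4 c)
  d5 : ∀ c, X5 (c, c) = F.e (x5 c)
  h4 : ∀ l p, F.h l * X4 p * (F.h l)⁻¹ = X4 ((w4 l : K) • p)
  h5 : ∀ l p, F.h l * X5 p * (F.h l)⁻¹ = X5 ((w5 l : K) • p)
  c46 : ∀ p q, Commute (X4 p) (F.sh' 1 (X4 q))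
  c48 : ∀ p q, Commute (X4 p) (F.sh' 2 (X4 q))
  c45 : ∀ p q, Commute (X4 p) (X5 q)
  c25 : ∀ p q, Commute (F.sh' (-1) (X4 p)) (X5 q)
  b82 : ∀ p q, cm (F.sh' 2 (X4 p)) (F.sh' (-1) (X4 q)) =
    X4 (p * sg2 sw q) * X5 (p * q) * F.sh' 1 (X4 (sg2 sw p * q))
  b83 : ∀ p q, cm (F.sh' 2 (X4 p)) (F.sh' (-1) (X5 q)) = F.sh' 1 (X4 (p * q))

/-- The outcome: a subgroup `M` and a `2`-subgroup `U` of it. -/
structure Out (F : Full K G) (t : G) (M U : Subgroup G) : Prop where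
  pU : IsPGroup 2 U
  UM : U ≤ M
  LM : F.gen ≤ M
  SU : F.e.range ≤ U
  tM : t ∈ 𝐍(M)
  tU : t ∈ 𝐍(U)
  lang : ∀ u ∈ U, t * u * (t * u) = 1 → ∃ w ∈ U, w * t * w⁻¹ = t * u
  Y : ∃ Y ≤ U, U ≤ 𝐂(Y) ∧ 2 * Nat.card K < Nat.card Y

/-- The two isomorphism types. -/
def Res (K : Type*) [Field K] (L M : Type*) [Group L] [Group M] : Prop :=
  Nonempty (M ≃* Lie.chevF4.group K) ∨ Nonempty (M ≃* L × L)

theorem TM.congr {J J' : Type*} [Group J] [Group J'] (h : TM J) (e : J ≃* J') : TM J' :=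
  ⟨by rw [_root_.commutator, ← map_top_of_surjective e.toMonoidHom e.surjective, ← map_commutator,
    ← _root_.commutator, h.1], Schur.hasSchurMultiplier_congr_left h.2 e⟩

/-- A perfect central extension is trivial. -/
theorem TM.inj {J E : Type*} [Group J] [Group E] (h : TM J) {π : E →* J} (hs : Function.Surjective π)
    (hc : π.ker ≤ center E) {x : E} (hx : x ∈ commutator E) (h1 : π x = 1) : x = 1 :=
  (Schur.hopf_eq_bot_of_trivial h.2 hs hc).le ⟨h1, hx⟩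

end Cfsg.Lib.SF4
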