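import Cfsg.Agent.Lib.SF4.Y
import Cfsg.Agent.Lib.Twisted.MultF4
import Cfsg.Agent.Lib.Chev.Fold
import Cfsg.Agent.Lib.Chev.Types
import Cfsg.Agent.Lib.Chev.Perfect

/-!
# S3323: the case `F₄(q)`, the Curtis–Tits step
-/

set_option autoImplicit false

namespace Cfsg.Lib.SF4

open Subgroup Cfsg.Lib.BG Cfsg.Lib.Transfer Cfsg.Lib.GW Cfsg.Lib.RF4 Cfsg.Lib.RF4.V Cfsg.Lie Cfsg.Lib.Chev Cfsg.Lib.Twisted

variable {K : Type*} [Field K] [Tw K] [Finite K] {G : Type*} [Group G] {F : Full K G} {t : G} {X4 X5 : K × K → G}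

/-- The inverse of the twist. -/
noncomputable def τi : K ≃+* K := (RingEquiv.ofBijective σ ⟨RingHom.injective _, σ_surj⟩).symm

@[simp] theorem σ_τi (u : K) : σ (τi u) = u := (RingEquiv.ofBijective σ _).apply_symm_apply u

@[simp] theorem τi_σ (u : K) : τi (σ u) = u := (RingEquiv.ofBijective σ _).symm_apply_apply u

theorem τi_sq (u : K) : τi u ^ 2 = σ u := by rw [← σσ, σ_τi]

/-- The parameter of a long or short root element. -/
noncomputable def par (l : Bool) (u : K) : K × K := cond l (τi u, 0) (0, u)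

/-- Index and length of the roots in the subsystems of rank two. -/
def ix (r : ℕ) : ℤ × Bool := (List.lookup r [(24, 13, true), (23, 5, true), (25, 2, true), (22, 10, true), (26, 0, true),
  (21, 8, true), (30, 6, true), (17, 14, true), (27, 8, false), (20, 0, false), (33, 13, false), (14, 5, false), (34, 10, false),
  (13, 2, false), (28, 4, false), (19, 12, false)]).getD (0, true)

variable (F X4 X5) in
/-- The root elements. -/
noncomputable def yx (r : ℤ × Bool) (u : K) : G := Y F X4 X5 r.1 (par r.2 u)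

variable (F X4 X5) in
/-- The commutator relation. -/
def Ok (r s : ℤ × Bool) (L : List ((ℤ × Bool) × ℕ × ℕ)) : Prop :=
  ∀ t u, cm (yx F X4 X5 s u) (yx F X4 X5 r t) = (L.map fun a => yx F X4 X5 a.1 (t ^ a.2.1 * u ^ a.2.2)).prod

/-- The basic relations. -/
def Bs (r s : ℤ × Bool) (L : List ((ℤ × Bool) × ℕ × ℕ)) : Prop :=
  L = [] ∧ ((r.1, s.1) ∈ [(4, 4), (5, 5), (4, 6), (4, 8), (4, 5), (5, 4), (2, 5), (5, 2)] ∨
    r.2 ≠ s.2 ∧ (r.1, s.1) ∈ [(8, 3), (3, 8)] ∨ r = (5, true) ∧ s = (13, false) ∨ s = (5, true) ∧ r = (13, false)) ∨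
  r.2 = s.2 ∧ (L = [((6, r.2), 1, 1)] ∧ (r.1, s.1) ∈ [(8, 3), (3, 8)] ∨ L = [((5, r.2), 1, 1)] ∧ r.1 = 2 ∧ s.1 = 8) ∨
  r = (2, true) ∧ s = (8, false) ∧ L = [((4, false), 1, 1), ((6, true), 1, 2)] ∨
  r = (2, false) ∧ s = (8, true) ∧ L = [((6, false), 1, 1), ((4, true), 2, 1)]

set_option synthInstance.maxSize 2000 in
instance decBs (r s : ℤ × Bool) (L : List ((ℤ × Bool) × ℕ × ℕ)) : Decidable (Bs r s L) := by unfold Bs; infer_instance

/-- The symmetries. -/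
def mv (a e : ℤ) (r : ℤ × Bool) : ℤ × Bool := ((a + e * r.1) % 16, r.2)

/-- The terms of the commutator formula. -/
def tm (r s : ℕ) : List ((ℤ × Bool) × ℕ × ℕ) := ((chevF4.commTerms r s).filter fun a => a.2.1 % 2 = 1).map fun a => (ix a.1, a.2.2)

theorem tm_ok : (allTo 48 fun r => allTo 48 fun s =>
    (allTo 4 fun i => allTo 4 fun j => !(inJB chevF4 certF4 [i, j] r && inJB chevF4 certF4 [i, j] s)) ||
      (decide (s = r ∨ s = chevF4.neg r) || [0, 2, 4, 6, 8, 10, 12, 14].any fun a => [1, -1].any fun e =>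
        decide (Bs (mv a e (ix r)) (mv a e (ix s)) ((tm r s).map fun x => (mv a e x.1, x.2))))) = true := by decide +kernel

namespace Core

variable (c : Core F t true X4 X5)
include c

theorem c513 (u v : K) : Commute (Y F X4 X5 5 (u, 0)) (Y F X4 X5 13 (0, v)) := by
  have h := c.y82 (u, 0) (1, 0)
  have h1 := c.m5 (a := 8) (e := 1) rfl (.inl rfl) (u, 0) (0, v)
  have h2 := c.m5 (a := 2) (e := -1) rfl (.inr rfl) (1, 0) (0, v)
  simp only [sg2, cond_true, Prod.mk_mul_mk, map_zero, mul_zero, zero_mul, mul_one, Prod.mk_zero_zero, c.zero, one_mul] at h h1 h2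
  exact h ▸ (commute_cm (cm_one.1 h1).symm (Y_congr (F := F) (i := 2 + -1 * 5) (j := 13) (by decide) (0, v) ▸ cm_one.1 h2).symm).symm

theorem bs {r s : ℤ × Bool} {L : List ((ℤ × Bool) × ℕ × ℕ)} (h : Bs r s L) : Ok F X4 X5 r s L := fun v u => by
  obtain ⟨i, l⟩ := r
  obtain ⟨j, l'⟩ := s
  have m : ∀ l, par l u * par l v = par l (v * u) := fun l => by cases l <;> simp [par, mul_comm]
  have k := c.y82 (par l' u) (par l v)
  have k1 := c.y83 (par l' u) (par l v)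
  have k2 := cm_symm (c.y83 (par l v) (par l' u)) (c.sq _ _)
  simp only [Bs, List.mem_cons, Prod.mk.injEq, List.not_mem_nil, or_false] at h
  simp only [yx]
  rcases h with ⟨rfl, h | ⟨n, h⟩ | ⟨⟨rfl, rfl⟩, rfl, rfl⟩ | ⟨⟨rfl, rfl⟩, rfl, rfl⟩⟩ | ⟨rfl, ⟨rfl, h⟩ | ⟨rfl, rfl, rfl⟩⟩ |
    ⟨⟨rfl, rfl⟩, ⟨rfl, rfl⟩, rfl⟩ | ⟨⟨rfl, rfl⟩, ⟨rfl, rfl⟩, rfl⟩
  · refine cm_one.2 ?_
    rcases h with ⟨rfl, rfl⟩ | ⟨rfl, rfl⟩ | ⟨rfl, rfl⟩ | ⟨rfl, rfl⟩ | ⟨rfl, rfl⟩ | ⟨rfl, rfl⟩ | ⟨rfl, rfl⟩ | ⟨rfl, rfl⟩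
    exacts [c.c0 _ _ _, c.c0 _ _ _, (c.y46 _ _).symm, (c.y48 _ _).symm, (c.y45 _ _).symm, c.y45 _ _, (c.y25 _ _).symm, c.y25 _ _]
  · have z : par l v * par l' u = 0 := by cases l <;> cases l' <;> simp [par] at n ⊢
    rcases h with ⟨rfl, rfl⟩ | ⟨rfl, rfl⟩
    · rw [k2, z, c.zero]; rfl
    · rw [k1, mul_comm, z, c.zero]; rfl
  · exact cm_one.2 (c.c513 _ _).symm
  · exact cm_one.2 (c.c513 _ _)
  · rcases h with ⟨rfl, rfl⟩ | ⟨rfl, rfl⟩
    · simp [k2, mul_comm (par l v), m]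
    · simp [k1, m]
  · rw [k, m]; cases l <;> simp [par, sg2, Prod.mk_zero_zero, c.zero]
  · rw [k]; simp [par, sg2, Prod.mk_zero_zero, c.zero, τi_sq, mul_comm]
  · rw [k]; simp [par, sg2, Prod.mk_zero_zero, c.zero, τi_sq, mul_comm, (c.y46 _ _).eq]

theorem ok_mv {r s : ℤ × Bool} {L : List ((ℤ × Bool) × ℕ × ℕ)} {a e : ℤ} (ha : a % 2 = 0) (he : e = 1 ∨ e = -1)
    (h : Ok F X4 X5 (mv a e r) (mv a e s) (L.map fun x => (mv a e x.1, x.2))) : Ok F X4 X5 r s L := fun v u => by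
  obtain ⟨g, -, k⟩ := c.sym ha he
  have k : ∀ r u, MulAut.conj g (yx F X4 X5 r u) = yx F X4 X5 (mv a e r) u := fun r u => (k _ _).trans (Y_mod _ _).symm
  refine (MulAut.conj g).injective ?_
  rw [map_cm, k, k, h, map_list_prod]
  simp only [List.map_map, Function.comp_def, k]

theorem exists_hom' : ∃ φ : chevF4.group K →* G, ∀ (i j : Fin 4) (r : Fin 48), inJB chevF4 certF4 [i, j] r = true →
    ∀ u, φ ((CF4 K).x r u) = yx F X4 X5 (ix r) u := by
  have e : ∀ i j : Fin chevF4.rank, pr i j = {k | k.val ∈ [i.val, j.val]} := fun i j => by ext; simp [pr, Fin.val_inj]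
  have ad : ∀ r (v u : K), yx F X4 X5 r (v + u) = yx F X4 X5 r v * yx F X4 X5 r u := fun r v u => by
    rw [yx, yx, yx, ← c.add]; cases r.2 <;> simp [par]
  have hl : ∀ i j, checkedF4.T.Loc (fun k => yx F X4 X5 (ix (checkedF4.R.simple k)))
      (fun k => yx F X4 X5 (ix (checkedF4.R.neg (checkedF4.R.simple k)))) (pr i j) fun r => yx F X4 X5 (ix r) := fun i j => by
    refine ⟨fun r _ => ad _, fun r s hr hs k1 k2 v u => ?_, fun _ _ => rfl, fun _ _ => rfl⟩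
    have := allTo_iff.1 (allTo_iff.1 tm_ok r r.2) s s.2
    simp only [Bool.or_eq_true, decide_eq_true_eq, List.any_eq_true] at this
    obtain ⟨a, ha, b, hb, d⟩ := (this.resolve_left fun H => by
      have := allTo_iff.1 (allTo_iff.1 H i i.2) j j.2
      rw [checkedF4.inJB_of (e i j ▸ hr), checkedF4.inJB_of (e i j ▸ hs)] at this
      simp at this).resolve_left fun e => e.elim (fun e => k1 (Fin.ext e)) fun e => k2 (Fin.ext e)
    have := c.ok_mv (by clear d; revert a; decide) (by simpa using hb) (c.bs d) v u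
    rw [checkedF4.commProd_eq _ k1 k2]
    convert_to _ = _ * _ * ((tm r s).map fun a => yx F X4 X5 a.1 (v ^ a.2.1 * u ^ a.2.2)).prod using 2
    · have hl := fun a => checkedF4.lt_of_mem_commTerms k1 k2 (a := a)
      rw [tm]
      generalize chevF4.commTerms r s = L at hl
      induction L with
      | nil => rfl
      | cons a L ih =>
        rw [List.map_cons, List.prod_cons, ih fun b hb => hl b (by simp [hb]), extF, dif_pos (hl a (by simp)),
          List.filter_cons, CharTwo.neg_eq, CharP.intCast_eq_intCast_mod K 2]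
        rcases Int.emod_two_eq_zero_or_one a.2.1 with z | z <;> simp [z, show yx F X4 X5 (ix a.1) 0 = 1 by simpa using ad _ 0 0]
    · rw [← this]
      simp only [cm, yx, c.inv, mul_assoc]
      rw [← mul_assoc (Y F X4 X5 (ix s).1 _) (Y F X4 X5 (ix s).1 _), c.sq, one_mul, ← mul_assoc (Y F X4 X5 (ix r).1 _), c.sq, one_mul]
  have hF := checkedF4.gsys_faithful K
  have hM := (checkedF4.gsys_adjoint K).hMul
  obtain ⟨C, k1, k2, k3⟩ := hF.exists_sys_of_loc (checkedF4.gsys_strongComm _) hM (fun i =>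
    (checkedF4.noA1 (by simp) i).elim fun j hj => (hl i j).rk1 hF (checkedF4.gsys_strongComm _) hj.1 hj.2) hl
  obtain ⟨ψ, hψ⟩ := hF.exists_hom_of_sc (checkedF4.gsys_grp _) hM (by
    rw [← MonoidHom.ker_eq_bot_iff, (checkedF4.gsys_adjoint _).ker_torus hF, (kerDataF4 _).kerChr_eq_bot]) k1 k2
  exact ⟨ψ, fun i j r a u => (hψ r u).trans (k3 i j r (e i j ▸ (St.inJB_iff checkedF4).1 a) u)⟩

end Core

/-- Pattern: E6T/F4M `pres` (l. 170–220) or Chev/Fold `exists_fold` (`checkedF4.T.Loc`, `commProd_eq`, `inJB_of`,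
`exists_sys_of_loc`, `Loc.rk1`, `noA1`, `exists_hom_of_sc`, `(kerDataF4 _).kerChr_eq_bot`).
Write `a_i c`, `b_i c` for the elements with parameter `(c, 0)`, `(0, c)` of the root `i mod 16`
(`i = 4 + 2 k`: `F.sh' k (X4 _)`, `i = 5 + 2 k`: `F.sh' k (X5 _)`; `sh'_per`; conjugation by `F.r` is `i ↦ 8 - i`: `r_sh'`,
`c4` with `F.rC`, `F.r * X5 p * F.r⁻¹ = sh' (-1) (X5 p)` by `s5`, `s_eq`).  Put `y r u = a_i (σ⁻¹ u)` for the long roots
`24 ↦ 13, 23 ↦ 5, 25 ↦ 2, 22 ↦ 10, 26 ↦ 0, 21 ↦ 8, 30 ↦ 6, 17 ↦ 14` and `y r u = b_i u` for the short roots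
`27 ↦ 8, 20 ↦ 0, 33 ↦ 13, 14 ↦ 5, 34 ↦ 10, 13 ↦ 2, 28 ↦ 4, 19 ↦ 12` (all other roots lie in no rank two subsystem).
All relations are shifts / reflections of: same `i` (`add4`, `add5`; all elements are commuting involutions), even-even at distance
`2` (`c46`), `4` (`c48`), `6` (`b82`), even-odd at distance `3` (`c25`), `5` (`b83`), and `[a_5, b_13] = 1`:
`a_5 (c c') = cm (a_8 c) (a_2 c')` (`b82`) and `b_13` commutes with `a_8`, `a_2` (`b83`, product zero).  The right sides of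
`b82`, `b83` are products of commuting involutions which commute with both arguments (`c45`, `c46`, `c48`, `c25`). -/
theorem Core.exists_hom (c : Core F t true X4 X5) : ∃ φ : chevF4.group K →* G, ∀ u : K,
    φ ((CF4 K).x 24 (σ u)) = F.sh' 4 (X5 (u, 0)) ∧ φ ((CF4 K).x 23 (σ u)) = X5 (u, 0) ∧
    φ ((CF4 K).x 25 (σ u)) = F.sh' (-1) (X4 (u, 0)) ∧ φ ((CF4 K).x 22 (σ u)) = F.sh' 3 (X4 (u, 0)) ∧
    φ ((CF4 K).x 27 u) = F.sh' 2 (X4 (0, u)) ∧ φ ((CF4 K).x 20 u) = F.sh' (-2) (X4 (0, u)) ∧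
    φ ((CF4 K).x 33 u) = F.sh' 4 (X5 (0, u)) ∧ φ ((CF4 K).x 14 u) = X5 (0, u) := by
  obtain ⟨φ, h⟩ := c.exists_hom'
  refine ⟨φ, fun u => ⟨(h 3 3 24 (by decide +kernel) _).trans ?_, (h 3 3 23 (by decide +kernel) _).trans ?_,
    (h 2 2 25 (by decide +kernel) _).trans ?_, (h 2 2 22 (by decide +kernel) _).trans ?_, h 1 1 27 (by decide +kernel) _,
    (h 1 1 20 (by decide +kernel) _), h 0 0 33 (by decide +kernel) _, (h 0 0 14 (by decide +kernel) _).trans (Y5 _)⟩⟩ <;>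
    rw [yx, show (ix _).2 = true from rfl, par, cond_true, τi_σ]
  exacts [rfl, Y5 _, rfl, rfl]

end Cfsg.Lib.SF4
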