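import Cfsg.Agent.Lib.SF4.Y

/-!
# S3323: generating the Ree group
-/

set_option autoImplicit false

namespace Cfsg.Lib.SF4

open Subgroup Cfsg.Lib.BG Cfsg.Lib.Transfer Cfsg.Lib.GW Cfsg.Lib.RF4 Cfsg.Lib.RF4.V

variable {K : Type*} [Field K] [Tw K] [Bg K] {G : Type*} [Group G] {F : Full K G}

theorem gen_le (hs : IsSimpleGroup F.gen) {N : Subgroup G} (h1 : F.r ∈ 𝐍(N)) (h2 : F.s ∈ 𝐍(N))
    (h3 : ∀ l, F.h l ∈ 𝐍(N)) (h4 : ∀ c, F.e (x4 c) ∈ N) (h5 : ∀ c, F.e (x5 c) ∈ N) : F.gen ≤ N := by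
  have r : ∀ {x y : K → V K}, (∀ c, x c ∈ Q ∧ ρr (x c) = y c) → (∀ c, x c ∈ N.comap F.e) → ∀ c, y c ∈ N.comap F.e :=
    fun a b c => by rw [mem_comap, ← (a c).2, ← F.re _ (a c).1]; exact conj_mem_of_norm h1 (b c)
  have s : ∀ {x y : K → V K}, (∀ c, x c ∈ R ∧ ρs (x c) = y c) → (∀ c, x c ∈ N.comap F.e) → ∀ c, y c ∈ N.comap F.e :=
    fun a b c => by rw [mem_comap, ← (a c).2, ← F.se _ (a c).1]; exact conj_mem_of_norm h2 (b c)
  have h6 := s (y := x6) (fun _ => by vs) h4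
  have h2' := r (y := x2) (fun _ => by vs) h6
  have h8 := s (y := x8) (fun _ => by vs) h2'
  have h3' := r (y := x3) (fun _ => by vs) h5
  have h7 := s (y := x7) (fun _ => by vs) h3'
  have h1' := r (y := x1) (fun _ => by vs) h7
  have X : Xs ≤ N.comap F.e := fun v h => by
    rw [show v = x2 v.c2 * x3 v.a3 * x4 v.c4 * x5 v.a5 * x6 v.c6 * x7 v.a7 * x8 v.c8 by revert h; vs; grind]
    exact mul_mem (mul_mem (mul_mem (mul_mem (mul_mem (mul_mem (h2' _) (h3' _)) (h4 _)) (h5 _)) (h6 _)) (h7 _)) (h8 _)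
  obtain ⟨a, a0, a1⟩ := ex_ω (K := K)
  have k4 : ∀ c, y4 c ∈ N.comap F.e := fun c => by
    obtain ⟨b, rfl⟩ : ∃ b, b * (σ a + a) = c := ⟨_, div_mul_cancel₀ c fun e => by
      have := σσ a
      rw [show σ a = a by grind, show σ a = a by grind] at this
      grind⟩
    exact inv_mem_iff.1 ((mul_mem_cancel_right (mul_mem (cm_in (h1' a) (h8 b)) (inv_mem (cm_in (h1' 1) (h8 (a * b)))))).1
      (X (by simp only [cm]; vs; grind)))
  have k := gen18 h1' (s (y := y8) (fun _ => by vs) (r (y := y2) (fun _ => by vs) (s (y := y6) (fun _ => by vs) k4)))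
  have := (normal_subgroupOf_iff_le_normalizer_inf.2 ((le_inf (F.gen_le (fun v => le_norm _ (k.ge (mem_top v))) h3 h1 h2)
    (le_norm _)).trans inf_normalizer_le_normalizer_inf) : (N.subgroupOf F.gen).Normal)
  refine subgroupOf_eq_top.1 (this.eq_bot_or_eq_top.resolve_left fun e => one_ne_zero (α := K) ?_)
  have := F.inj ((congrArg Subtype.val (e.le (show ⟨_, F.e_mem (x4 1)⟩ ∈ N.subgroupOf F.gen from h4 1))).trans (map_one _).symm)
  revert this; vs; exact id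

end Cfsg.Lib.SF4
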