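import Cfsg.Agent.Lib.SF4.FCT
import Cfsg.Agent.Lib.SF4.Gen

/-!
# S3323: the case `F₄(q)`
-/

set_option autoImplicit false

namespace Cfsg.Lib.SF4

open Subgroup Cfsg.Lib.BG Cfsg.Lib.Transfer Cfsg.Lib.GW Cfsg.Lib.RF4 Cfsg.Lib.RF4.V Cfsg.Lie Cfsg.Lib.Chev Cfsg.Lib.Twisted

variable {K : Type*} [Field K] [Tw K] [Bg K] {G : Type*} [Group G] [Finite G] {F : Full K G} {t : G}
  {X4 X5 : K × K → G} {m : ℕ} {S : Twist (CF4 K) symF4} {φ : K →+* K}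

/-- Descending induction (`TS_induction`) along the filtration `XS (TS RF4 rkF i)` of `rk_F4` (Twisted/MultP: `lc`, `lc_mul`,
`lc_x`, `σ_x_lc`, `mem_of_lc`, `σ_mem`, `cong_comm`); each level is empty or an orbit `{r, ρ r}` with `ρ r ≠ r`
(`rkF_ρ`, `rkF_orb`); replace `u` by `(S.σ w)⁻¹ * u * w` with `w = x r (lc r u)`; `S.σ (S.σ g) = g` by `σ_x`. -/
theorem langF (h : Twisted.IsF4 m S φ σ) {u : chevF4.group K} (hu : u ∈ (CF4 K).U) (h1 : S.σ u * u = 1) :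
    ∃ w ∈ (CF4 K).U, S.σ w * w⁻¹ = u := by
  rw [← XS_TS_zero (rk := rkF)] at hu
  generalize 0 = i at hu
  induction i using TS_induction (R := RF4) (rk := rkF) generalizing u with
  | h0 i e => exact ⟨1, one_mem _, by simpa [e, PreSys.XS_empty, eq_comm] using hu⟩
  | h1 i ih =>
    by_cases e : ∃ r, RF4.IsPos r ∧ rkF r = i
    swap
    · exact ih h1 (rk_F4.mem_of_lc hu fun r a b => absurd ⟨r, a, b⟩ e)
    obtain ⟨r, hr, rfl⟩ := e
    obtain ⟨n1, n2, n3⟩ := (by decide +kernel : ∀ r, r ≠ symF4.ρ r ∧ symF4.ρ (symF4.ρ r) = r ∧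
      (RF4.ln (symF4.ρ r) = 1 ↔ ¬ RF4.ln r = 1)) r
    have hr' := symF4.isPos_ρ.2 hr
    have e := rkF_ρ r hr
    have m : ∀ v, (CF4 K).x r v ∈ (CF4 K).XS (TS RF4 rkF (rkF r)) := fun v => (CF4 K).x_mem (S := TS RF4 rkF _) ⟨hr, le_rfl⟩ v
    have m' : ∀ v, (CF4 K).x (symF4.ρ r) v ∈ (CF4 K).XS (TS RF4 rkF (rkF r)) := fun v =>
      (CF4 K).x_mem (S := TS RF4 rkF _) ⟨hr', e.ge⟩ v
    obtain ⟨w, hw, k⟩ := ih (u := (S.σ ((CF4 K).x r (lc (CF4 K) rkF r u)))⁻¹ * u * (CF4 K).x r (lc (CF4 K) rkF r u)) (by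
      rw [map_mul, map_mul, map_inv, h.σ_x, h.σ_x, n2, eq_inv_of_mul_eq_one_left h1]
      by_cases c : RF4.ln r = 1 <;> simp [c, n3, h.φψ, h.ψφ, mul_assoc]) (by
      rw [rk_F4.σ_x_lc rkF_ρ hr hu, ← PreSys.x_neg]
      refine rk_F4.mem_of_lc (mul_mem (mul_mem (m' _) hu) (m _)) fun s hs e' => ?_
      rw [rk_F4.lc_mul hs (e' ▸ mul_mem (m' _) hu) (e' ▸ m _), rk_F4.lc_mul hs (e' ▸ m' _) (e' ▸ hu),
        rk_F4.lc_x hs ⟨hr', (e'.trans e.symm).le⟩, rk_F4.lc_x hs ⟨hr, e'.le⟩]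
      obtain rfl | rfl := (by decide +kernel : ∀ r s, RF4.IsPos r → RF4.IsPos s → rkF s = rkF r → s = r ∨ s = symF4.ρ r) r s hr hs e'
      · simp [n1, CharTwo.add_self_eq_zero]
      · have := rk_F4.lc_mul hs (e' ▸ Rk.σ_mem (S := S) rkF_ρ hu) (e' ▸ hu)
        rw [h1, rk_F4.lc_of_mem hs (one_mem _)] at this
        simp [n1.symm, CharTwo.neg_eq, ← this])
    exact ⟨_ * w, mul_mem (XS_TS_le_U _ (m (lc (CF4 K) rkF r u))) hw, by
      rw [map_mul, mul_inv_rev, mul_assoc, ← mul_assoc (S.σ w), k]; group⟩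

/-- A subgroup `N` normalized by `F.r`, `F.s`, `F.h l` and containing `x4 c`, `x5 c` contains all `x_i c`; in
`cm (x1 a) (x8 b) = x2 x3 y4 (σ a b) x4 x5 y6 (a b) x7 (a σ b)` vary `a`, `b` with `a b` fixed to get `y4 c₀ ∈ N`,
`c₀ ≠ 0`; `H` is transitive on `y4`; `y8` is conjugate to `y4` under `r`, `s`; `gen18`: `S ≤ N`.  Then `L ≤ 𝐍(N)` and
`L ⊓ N` is normal in `L`. -/
theorem gen_le_of (hs : IsSimpleGroup F.gen) {N : Subgroup G} (h1 : F.r ∈ 𝐍(N)) (h2 : F.s ∈ 𝐍(N))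
    (h3 : ∀ l, F.h l ∈ 𝐍(N)) (h4 : ∀ c, F.e (x4 c) ∈ N) (h5 : ∀ c, F.e (x5 c) ∈ N) : F.gen ≤ N :=
  gen_le hs h1 h2 h3 h4 h5

theorem sup_zp {H : Subgroup G} {x y : G} (x2 : x * x = 1) (hn : x ∈ 𝐍(H)) (hy : y ∈ H ⊔ zpowers x) : y ∈ H ∨ y * x ∈ H := by
  obtain ⟨a, b, k, rfl⟩ := (PGroup.mem_sup_zpowers_iff hn).1 hy
  rcases Int.even_or_odd' k with ⟨k, rfl | rfl⟩ <;> simp [zpow_add, zpow_mul, sq, mul_assoc, x2, b]

theorem pgroup_zp {x : G} (x2 : x * x = 1) : IsPGroup 2 (zpowers x) := .of_card_dvd_pow (n := 1) (by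
  rw [Nat.card_zpowers]; exact orderOf_dvd_of_pow_eq_one (by rwa [pow_one, sq]))

section

variable {J : Type*} [Group J] {ψ : J →* G} (i : Function.Injective ψ) {α : J →* J} {U Z : Subgroup J} {τ : G} (τ2 : τ * τ = 1)
  (hτ : ∀ g, τ * ψ g * τ⁻¹ = ψ (α g)) (hα : ∀ u ∈ U, α u ∈ U) (lang : ∀ u ∈ U, α u * u = 1 → ∃ w ∈ U, α w * w⁻¹ = u)
include i τ2 hτ hα lang

omit [Finite G] in
theorem inv_conj {x : G} (h : x * τ ∈ U.map ψ) (x2 : x * x = 1) : ∃ w ∈ U.map ψ, w * τ * w⁻¹ = x := by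
  obtain ⟨u, hu, e⟩ := h
  have k := inv_eq_of_mul_eq_one_right τ2
  obtain ⟨w, hw, rfl⟩ := lang u hu (i (by
    rw [map_mul, ← hτ, e, map_one, ← mul_assoc, ← mul_assoc τ, mul_inv_cancel_right, mul_assoc τ, x2, mul_one, τ2]))
  refine ⟨_, ⟨_, hα w hw, rfl⟩, ?_⟩
  rw [← mul_inv_cancel_right x τ, ← e, map_mul, map_inv, ← hτ, k]
  simp [mul_assoc, k, τ2]

variable (s : St F t) (hU : Syl 2 (U.map ψ) ψ.range) (hL : F.gen ≤ ψ.range) (hZ : Z ≤ U) (hc : U ≤ 𝐂(Z))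
  (hq : 2 * Nat.card K < Nat.card Z)
include s hU hL hZ hc hq

omit [Bg K] in
theorem out_of (ht : t ∉ ψ.range) (hS : F.e.range ⊔ zpowers t ≤ U.map ψ ⊔ zpowers τ) : Out F t ψ.range (U.map ψ) := by
  have n : τ ∈ 𝐍(U.map ψ) := mem_normalizer_of_conj_le (conj_le_iff.2 fun _ ⟨u, hu, e⟩ => ⟨_, hα u hu, e ▸ (hτ u).symm⟩)
  have n' : τ ∈ 𝐍(ψ.range) := mem_normalizer_of_conj_le (conj_le_iff.2 fun _ ⟨u, e⟩ => ⟨_, e ▸ (hτ u).symm⟩)
  have m := hS (mem_sup_right (mem_zpowers t))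
  have k := (sup_zp τ2 n m).resolve_left fun e => ht (hU.le e)
  refine ⟨hU.pgroup, hU.le, hL, fun x hx => ?_, sup_le (hU.le.trans (le_norm _)) (zpowers_le.2 n') m,
    sup_le_norm_left (zpowers_le.2 n) m, fun u hu e => ?_, Z.map ψ, map_mono hZ, ?_, by rwa [card_map_of_injective i]⟩
  · exact (hU.eq_of_le_pgroup (le_inf le_sup_left hU.le) inf_le_right (pgroup_sup hU.pgroup (pgroup_zp τ2)
      (zpowers_le.2 n)).to_inf_left).ge ⟨hS (mem_sup_left hx), hL (hx.elim fun v e => e ▸ F.e_mem v)⟩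
  · obtain ⟨a, ha, b⟩ := inv_conj i τ2 hτ hα lang k s.t2
    obtain ⟨c, hc, d⟩ := inv_conj i τ2 hτ hα lang (x := t * u) (by
      simpa [mul_assoc] using mul_mem k (conj_mem_of_norm' n hu)) e
    exact ⟨_, mul_mem hc (inv_mem ha), by rw [← d, ← b]; group⟩
  · rintro _ ⟨u, hu, rfl⟩
    exact mC.2 fun _ ⟨z, hz, e⟩ => e ▸ (mC.1 (hc hu) z hz).map ψ

theorem exists_out (h1 : τ ≠ 1) (ht : t * τ ∈ ψ.range) : ∃ U, Out F t ψ.range U := by
  have n : τ ∈ 𝐍(U.map ψ) := mem_normalizer_of_conj_le (conj_le_iff.2 fun _ ⟨u, hu, e⟩ => ⟨_, hα u hu, e ▸ (hτ u).symm⟩)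
  have n' : τ ∈ 𝐍(ψ.range) := mem_normalizer_of_conj_le (conj_le_iff.2 fun _ ⟨u, e⟩ => ⟨_, e ▸ (hτ u).symm⟩)
  have T : Syl 2 (U.map ψ ⊔ zpowers τ) (ψ.range ⊔ zpowers τ) := .of_max (sup_le_sup_right hU.le _)
    (pgroup_sup hU.pgroup (pgroup_zp τ2) (zpowers_le.2 n)) fun Q a b c x hx => by
      have := (hU.eq_of_le_pgroup (le_inf (le_sup_left.trans b) hU.le) inf_le_right a.to_inf_left).ge
      have z : τ ∈ U.map ψ ⊔ zpowers τ := mem_sup_right (mem_zpowers τ)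
      exact (sup_zp τ2 n' (c hx)).elim (fun e => mem_sup_left (this ⟨hx, e⟩)) fun e =>
        (mul_mem_cancel_right z).1 (mem_sup_left (this ⟨mul_mem hx (b z), e⟩))
  obtain ⟨g, hg, e⟩ := T.exists_le_conj (Q := F.e.range ⊔ zpowers t) (pgroup_sup F.pS (pgroup_zp s.t2) (zpowers_le.2
    (cent_le_norm _ (mC.2 (by rintro _ ⟨v, rfl⟩; exact s.te v)))))
    (sup_le (le_sup_of_le_left fun _ ⟨v, e⟩ => hL (e ▸ F.e_mem v)) (zpowers_le.2 ((mul_mem_cancel_right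
      (mem_sup_right (mem_zpowers τ))).1 (mem_sup_left ht))))
  have r : ((MulAut.conj g).toMonoidHom.comp ψ).range = ψ.range :=
    (MonoidHom.range_comp _ _).trans (conj_eq_of_norm (sup_le_norm_left (zpowers_le.2 n') hg))
  refine ⟨_, r ▸ out_of (τ := g * τ * g⁻¹) ((MulAut.conj g).injective.comp i) (by rw [conj_mul, τ2]; simp)
    (fun x => by simp [← hτ, mul_assoc]) hα lang s (by rw [MonoidHom.range_comp, ← map_map]; exact hU.conj g) (r.symm ▸ hL) hZ hc hq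
    (r.symm ▸ fun k => ?_) (by rwa [Subgroup.map_sup, map_map, MonoidHom.map_zpowers] at e)⟩
  obtain ⟨w, -, k⟩ := inv_conj i τ2 hτ hα lang (x := 1) (by
    simpa using hU.ge_of_norm_p' (zpowers_le.2 ((mul_mem_cancel_left k).1 ht)) (pgroup_zp τ2) (zpowers_le.2 n)) (one_mul 1)
  exact h1 (conj_eq_one_iff.1 k)

end

/-- `ψ` from `exists_hom`, `M = ψ.range` is generated by the eight families (`grp_le_of_simple`); notation as in FCT.
`τ = t * F.s` acts on them as `S.σ` (`s_sh'`, `t4`, `t5`, `sh'_fix`, `σ_pos`, `σ_neg`, `θ_eq`), so `τ (ψ g) τ⁻¹ = ψ (S.σ g)`.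
`M` contains `a_i` for `i = 2, 5, 10, 13`, `8, 0` (`b83`), `b_i` for `i = 0, 5, 8, 13`, `2, 10` (`b83`), so `t` normalizes `M`;
`b82` for `b_8, a_2` gives `b_4 a_6` and varying the parameters (or: `x 28`, `x 30`) `b_4, a_6`, ... : all `a_i, b_i` lie in `M`
(`a_3 = cm a_6 a_0`).  So `r, s, t, H` (`sh'_h`, `h4`, `h5`) normalize `M` and `L ≤ M` by `gen_le_of` (`d4`, `d5`).
`ψ` is injective (`isSimpleGroup_group'`).  `U₀ = U.map ψ` is Sylow in `M` (`not_dvd_index_U`), `τ ∉ U₀` (`langF` with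
`ψ u = τ⁻¹` would give `τ = 1`, `t ∈ L`), so `τ ∉ M`, `t ∉ M`; `U₀ ⟨τ⟩` is Sylow in `M ⟨t⟩`; conjugate `S ⟨t⟩` into it by `k`,
`U = k⁻¹ ⋆ U₀`; involutions of `τ U₀` are `U₀`-conjugate to `τ` (`langF`).  `Y = XS {44, 47}` is central in `U`, of order `q²`
(`word_inj`). -/
theorem Core.f4 (h : Twisted.IsF4 m S φ σ) (s : St F t) (c : Core F t true X4 X5) (hs : IsSimpleGroup F.gen) :
    ∃ M U, Out F t M U ∧ (∀ N : Subgroup G, N.Normal → F.gen ≤ N → M ≤ N) ∧ Nonempty (M ≃* chevF4.group K) := by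
  obtain ⟨ψ, hψ⟩ := c.exists_hom'
  have y : ∀ r, (∃ i j : Fin 4, ∃ k : Fin 48, inJB chevF4 certF4 [i, j] k = true ∧ ix k = r) →
      ∀ u, yx F X4 X5 r u ∈ ψ.range := fun _ ⟨i, j, k, a, b⟩ u => ⟨_, b ▸ hψ i j k a u⟩
  have top : ∀ {H : Subgroup (chevF4.group K)}, (∀ (i : Fin 4) (r : Fin 48), inJB chevF4 certF4 [i, i] r = true →
      ∀ u, (CF4 K).x r u ∈ H) → ∀ g, g ∈ H := fun k g => (CF4 K).grp_le_of_simple
    (fun i => k i _ (by revert i; decide +kernel)) (fun i => k i _ (by revert i; decide +kernel))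
    ((checkedF4.gsys_grp K).ge (mem_top g))
  have n : ∀ g, (∀ (i : Fin 4) (r : Fin 48), inJB chevF4 certF4 [i, i] r = true → ∀ u,
      g * yx F X4 X5 (ix r) u * g⁻¹ ∈ ψ.range) → g ∈ 𝐍(ψ.range) := fun g k => mem_normalizer_of_conj_le (conj_le_iff.2
    fun _ ⟨x, e⟩ => e ▸ top (H := ψ.range.comap ((MulAut.conj g).toMonoidHom.comp ψ)) (fun i r a u => by
      simpa [hψ i i r a] using k i r a u) x)
  have sw : ∀ l (u : K), ∃ v, (par l u).swap = par (!l) v := fun l u => by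
    cases l
    exacts [⟨σ u, by simp [par]⟩, ⟨τi u, rfl⟩]
  have nt : t ∈ 𝐍(ψ.range) := n t fun i r a u => by
    obtain ⟨v, e⟩ := sw (ix r).2 u
    rw [yx, c.t_Y s.tL, e]
    exact y ((ix r).1, !(ix r).2) (by clear e; revert i r; decide +kernel) v
  have ev : ∀ i l, i % 2 = 0 → ∀ u, Y F X4 X5 i (par l u) ∈ ψ.range := fun i l hi u => by
    rw [← Y_mod]
    have : ∀ i ∈ [(0 : ℤ), 2, 4, 6, 8, 10, 12, 14], ∀ l, (∃ a b : Fin 4, ∃ k : Fin 48, inJB chevF4 certF4 [a, b] k = true ∧ ix k = (i, l)) ∨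
      ∃ a b : Fin 4, ∃ k : Fin 48, inJB chevF4 certF4 [a, b] k = true ∧ ix k = (i, !l) := by decide +kernel
    refine (this (i % 16) (by simp; omega) l).elim (y _ · u) fun k => ?_
    obtain ⟨v, e⟩ := sw l u
    exact (mem_normalizer_iff.1 nt _).2 (by rw [c.t_Y s.tL, e]; exact y _ k v)
  have all : ∀ i p, Y F X4 X5 i p ∈ ψ.range := by
    have ev : ∀ i p, i % 2 = 0 → Y F X4 X5 i p ∈ ψ.range := fun i p hi =>
      c.split' i p ▸ mul_mem (by simpa [par] using ev i true hi (σ p.1)) (ev i false hi p.2)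
    refine fun i p => (Int.emod_two_eq_zero_or_one i).elim (ev i p) fun hi => ?_
    have := c.m6 (a := i - 3) (e := 1) (by omega) (.inl rfl) p 1
    rw [mul_one p, one_mul, one_mul, one_mul, one_mul, sub_add_cancel] at this
    exact (mul_mem_cancel_left (ev _ _ (by omega))).1 ((mul_mem_cancel_right (ev _ _ (by omega))).1
      (this ▸ cm_in (ev _ _ (by omega)) (ev _ _ (by omega))))
  have hL := gen_le hs (n _ fun _ _ _ _ => c.r_Y _ _ ▸ all _ _) (n _ fun _ _ _ _ => c.s_Y _ _ ▸ all _ _)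
    (fun l => n _ fun _ r _ _ => let ⟨_, e⟩ := c.h_Y l (ix r).1; e _ ▸ all _ _)
    (fun u => by simpa only [Y4, c.d4] using all 4 (u, u)) fun u => by simpa only [Y5, c.d5] using all 5 (u, u)
  have sim := (isSimpleGroup_group' (D := chevF4) (F := K) (by simp)).1
  have z : F.e (x4 1) ≠ 1 := fun e => one_ne_zero (x4_inj.1 (F.inj (e.trans (map_one _).symm)) : (1 : K) = 0)
  obtain ⟨x, hx⟩ := hL (F.e_mem (x4 1))
  have i : Function.Injective ψ := (MonoidHom.ker_eq_bot_iff ψ).1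
    (ψ.normal_ker.eq_bot_or_eq_top.resolve_right fun e => z (hx.symm.trans (e.ge (mem_top x))))
  have ts := s.tL _ F.s_mem
  have := Finite.of_injective ψ i
  have q : 2 * Nat.card K < Nat.card ((CF4 K).XS (TS RF4 rkF 11)) := by
    have p4 : RF4.IsPos 44 ∧ 11 ≤ rkF 44 := by decide +kernel
    have p7 : RF4.IsPos 47 ∧ 11 ≤ rkF 47 := by decide +kernel
    have m4 := (CF4 K).x_mem (S := TS RF4 rkF 11) p4
    have m7 := (CF4 K).x_mem (S := TS RF4 rkF 11) p7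
    have := Nat.card_le_card_of_injective (fun p : K × K => (⟨_, mul_mem (m4 p.1) (m7 p.2)⟩ : (CF4 K).XS (TS RF4 rkF 11)))
      fun a b e => by
        have e4 := congrArg (lc (CF4 K) rkF 44 ·.1) e
        have e7 := congrArg (lc (CF4 K) rkF 47 ·.1) e
        simp only [rk_F4.lc_mul p4.1 (m4 _) (m7 _), rk_F4.lc_mul p7.1 (m4 _) (m7 _), rk_F4.lc_x p4.1 p4, rk_F4.lc_x p4.1 p7,
          rk_F4.lc_x p7.1 p4, rk_F4.lc_x p7.1 p7] at e4 e7
        exact Prod.ext (by simpa using e4) (by simpa using e7)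
    rw [Nat.card_prod] at this
    have := Bg.h (K := K)
    nlinarith
  obtain ⟨U, o⟩ := exists_out (τ := t * F.s) (α := S.σ) (U := (CF4 K).U) (Z := (CF4 K).XS (TS RF4 rkF 11)) i
    (by rw [ts.symm.mul_mul_mul_comm, s.t2, F.ss, one_mul])
    (top (H := ((MulAut.conj (t * F.s)).toMonoidHom.comp ψ).eqLocus (ψ.comp S.σ)) fun i r a u => by
      obtain ⟨j, b, e1, e2, e3⟩ := (by decide +kernel : ∀ (i : Fin 4) (r : Fin 48), inJB chevF4 certF4 [i, i] r = true →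
        ∃ j : Fin 4, inJB chevF4 certF4 [j, j] (symF4.ρ r) = true ∧ (10 - (ix r).1) % 16 = (ix (symF4.ρ r)).1 % 16 ∧
          (ix (symF4.ρ r)).2 = !(ix r).2 ∧ (RF4.ln r = 1 ↔ (ix r).2 = false)) i r a
      change t * F.s * ψ _ * (t * F.s)⁻¹ = ψ (S.σ _)
      rw [h.σ_x, hψ i i r a, hψ j j _ b, mul_inv_rev, mul_assoc t, mul_assoc t, ← mul_assoc _ F.s⁻¹, ← mul_assoc t, yx, c.s_Y,
        c.t_Y s.tL, Y_congr e1, yx, e2]
      congr 1
      cases k : (ix r).2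
      · simp [par, e3, k]
      · simp only [par, e3, k, Bool.true_eq_false, if_false, cond_true, Bool.not_true, cond_false, Prod.swap_prod_mk]
        rw [← τi_σ (φ u), h.ψφ])
    (fun u hu => XS_TS_zero (C := CF4 K) (rk := rkF) ▸ Rk.σ_mem rkF_ρ (XS_TS_zero (C := CF4 K) (rk := rkF) ▸ hu))
    (fun u => langF h) s (ψ.range_eq_map ▸ Hall.map (Syl.mk' le_top (faithful_F4.isPGroup_U 2) (relIndex_top_right (CF4 K).U ▸
      faithful_F4.not_dvd_index_U 2 (checkedF4.gsys_grp K))) ψ) hL (XS_TS_le_U _)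
    (cent_symm (commutator_eq_bot_iff_le_centralizer.1 (by
      simpa [show TS RF4 rkF 12 = ∅ from Set.eq_empty_of_forall_notMem (by unfold TS; decide +kernel), PreSys.XS_empty]
        using rk_F4.commutator_le (C := CF4 K) 11))) q
    (fun e => s.not_mem (eq_inv_of_mul_eq_one_left e ▸ inv_mem F.s_mem)) (by
      rw [← mul_assoc, s.t2, one_mul]; exact hL F.s_mem)
  exact ⟨_, U, o, fun N hN k _ ⟨g, e⟩ => e ▸ ((hN.comap ψ).eq_bot_or_eq_top.resolve_left fun e => z (hx ▸ (map_eq_one_iff ψ i).2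
      (e.le (show ψ x ∈ N from hx ▸ k (F.e_mem _))))).ge (mem_top g), ⟨(MonoidHom.ofInjective i).symm⟩⟩

end Cfsg.Lib.SF4
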