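import Cfsg.Agent.Lib.SF4.Aut

/-!
# S3323: elements moving `t` inside `t Z`
-/

set_option autoImplicit false

namespace Cfsg.Lib.RF4.Full

open Subgroup Cfsg.Lib.BG Cfsg.Lib.Transfer Cfsg.Lib.GW Cfsg.Lib.RF4.V Cfsg.Lib.SF4

variable {K : Type*} [Field K] [Tw K] {G : Type*} [Group G] (F : Full K G)

theorem eh (u : V K) (l : Kˣ × Kˣ) : F.e u * F.h l * (F.e u)⁻¹ = F.e (u * (tor l u)⁻¹) * F.h l := by
  rw [map_mul, map_inv, ← F.he]; group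

theorem hh (l l' : Kˣ × Kˣ) : Commute (F.h l) (F.h l') := (Commute.all l l').map _

theorem rT (l : T4 K) : F.r * F.h l * F.r⁻¹ = (F.h l)⁻¹ := F.b0.rh l

theorem rT' (l : T4 K) : F.r⁻¹ * F.h l * F.r = (F.h l)⁻¹ := by rw [← F.rT, F.r_inv]

theorem r_S {v w : V K} (h : F.r * F.e v * F.r⁻¹ = F.e w) : v ∈ Q := by
  have := not_rB F.inj F.re (mem_U8' v.b8 v.c8) (v := (ρr (v * (y8 v.b8 * x8 v.c8)⁻¹))⁻¹ * w) (l := 1) (b := 1) (by simp)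
    (by rw [map_mul _ _ w, map_inv, ← F.re _ (dec_Q v), ← h, map_mul _ v, map_inv]; group)
  simpa [this] using dec_Q v

theorem ex_T [Bg K] : ∃ l : T4 K, l ≠ 1 := by
  obtain ⟨a, a0, a1⟩ := ex_ω (K := K)
  obtain ⟨l, hl, e⟩ := T4_ex_fst (Units.mk0 a a0)
  exact ⟨⟨l, hl⟩, fun h => a1 (by rw [show l = 1 from congrArg Subtype.val h] at e; exact (congrArg Units.val e).symm)⟩

theorem CT4 [Bg K] {g : G} (hg : g ∈ F.C) (h : ∀ l : T4 K, Commute g (F.h l)) :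
    ∃ u ∈ U4, ∃ l : T4 K, g = F.e u * F.h l := by
  obtain ⟨l0, l1⟩ := ex_T (K := K)
  have h := cjf.2 (h l0)
  obtain ⟨v, l, rfl | ⟨u, hu, rfl⟩⟩ := (F.b0.mem g).1 hg
  · refine ⟨v, fix4 l1 (F.inj (mul_inv_eq_one.1 ?_).symm), l, rfl⟩
    rw [← map_inv, ← map_mul, ← mul_left_inj (F.h l0), ← F.eh, one_mul, ← F.h_comm l l0]
    exact (by simp [b0, mul_assoc] : _ = _).trans (h.trans (F.h_comm l l0).symm)
  change F.e v * F.h l * F.r * F.e u * _ * (F.e v * F.h l * F.r * F.e u)⁻¹ = _ at h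
  have k : F.r * F.e (u * (tor l0 u)⁻¹) * F.r⁻¹ = F.e (tor (l⁻¹ : T4 K) (v⁻¹ * tor l0 v)) * F.h (l0 * l0 : T4 K) := by
    calc _ = (F.e v * F.h l)⁻¹ * (F.e v * F.h l * F.r * F.e u * F.h l0 * (F.e v * F.h l * F.r * F.e u)⁻¹) *
          (F.e v * F.h l) * (F.r * F.h l0 * F.r⁻¹)⁻¹ := by rw [← mul_inv_eq_iff_eq_mul.2 (F.eh u l0)]; group
      _ = _ := by
        rw [h, F.rT, ← F.he, map_mul F.e, map_inv, ← F.he, coe_mul, map_mul, coe_inv, map_inv]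
        simp only [mul_assoc, mul_inv_rev, inv_inv, ← mul_assoc (F.h l) (F.h l0), (F.hh l l0).eq, inv_mul_cancel_left]
  have u1 := not_rB F.inj F.re (mul_mem hu (inv_mem (tor_U8 _ hu))) (F.he _) k
  rw [u1, map_one, mul_one, mul_inv_cancel] at k
  exact absurd (sq_one (Subtype.ext (F.eh_one k.symm).2)) l1

theorem act_pow {g : G} {φ : MulAut (V K)} (h : ∀ v, g * F.e v * g⁻¹ = F.e (φ v)) (n : ℕ) (v : V K) :
    g ^ n * F.e v * (g ^ n)⁻¹ = F.e ((φ ^ n) v) := by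
  induction n with
  | zero => simp
  | succ n ih => rw [pow_succ', pow_succ', MulAut.mul_apply, ← h, ← ih]; group

theorem actT {g : G} {φ : MulAut (V K)} (h : ∀ v, g * F.e v * g⁻¹ = F.e (φ v)) (h2 : ∀ l : T4 K, Commute g (F.h l))
    (l : T4 K) (v : V K) : φ (tor l v) = tor l (φ v) :=
  F.inj (by rw [← h, ← F.he, ← F.he, ← h, ← conj_conj_conj, cjf.2 (h2 l)])

theorem rU4 {u : V K} (hu : u ∈ U4) : Commute F.r (F.e u) :=
  cjf.1 ((F.re u (by dst u hu; vs)).trans (congrArg _ (by dst u hu; vs)))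

theorem hU4 (l : T4 K) {u : V K} (hu : u ∈ U4) : Commute (F.h l) (F.e u) :=
  cjf.1 ((F.he _ _).trans (congrArg _ (T4_U4 l hu)))

variable [Finite K] [Finite G]

theorem adj (hS : Syl 2 F.e.range F.gen) {w : G} (hw : w ∈ 𝐍(F.C)) (hZ : ∀ a, Commute w (F.e (x4 a))) :
    ∃ k ∈ F.C, k * w ∈ 𝐍(F.e.range) ∧ ∀ l : T4 K, Commute (k * w) (F.h l) := by
  have h1 : Syl 2 F.e.range F.C := hS.of_le F.b0.S_le inf_le_left
  obtain ⟨k, hk, e⟩ := Syl.exists_conj_eq (h1.conj_of_norm hw) h1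
  have h2 := norm_of_conj_eq ((conj_conj _ _ _).symm.trans e.symm)
  have h3 : F.b0.h.range ≤ 𝐍(F.e.range) := by rintro _ ⟨l, rfl⟩; exact F.h_NS l
  have h4 : F.e.range ⊔ F.b0.h.range = F.C ⊓ 𝐍(F.e.range) := le_antisymm (sup_le (le_inf F.b0.S_le (le_norm _))
    (le_inf (by rintro _ ⟨l, rfl⟩; exact F.hC l) h3)) fun g hg =>
      let ⟨v, l, e⟩ := F.NCS hg.1 hg.2; e ▸ mul_mem_sup ⟨v, rfl⟩ ⟨l, rfl⟩
  have h5 : Odd (Nat.card F.b0.h.range) :=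
    (odd_T (K := K)).of_dvd_nat ((card_range_dvd _).trans (card_subgroup_dvd_card _))
  have h6 := (Hall.of_sd ⟨h3, eq_bot_iff.2 (by
    rintro _ ⟨⟨v, rfl⟩, l, e⟩
    rw [inv_eq_one.1 (F.eh_one (v := v⁻¹) (l := l) (by rw [map_inv, ← e]; exact inv_mul_cancel _)).1, map_one]
    exact one_mem _), h4⟩ h1.pi (pi_odd_iff.2 h5)).2
  obtain ⟨k', hk', e'⟩ := BG.Hall.exists_conj_eq (h6.conj_of_norm (zpowers_le.1 (norm_inf (zpowers_le.2
    (mul_mem (le_norm _ hk) hw)) (norm_norm (zpowers_le.2 h2))))) h6 (h4 ▸ sol_sup (pgroup_sol F.pS) (odd_sol h5) h3)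
  have h7 := norm_of_conj_eq ((conj_conj _ _ _).symm.trans e'.symm)
  rw [← mul_assoc] at h7
  have h8 : k' * k * w ∈ 𝐍(F.e.range) := mul_assoc k' k w ▸ mul_mem hk'.2 h2
  refine ⟨k' * k, mul_mem hk'.1 hk, h8, fun l => cjf.1 ?_⟩
  obtain ⟨φ, hφ⟩ := F.act h8
  obtain ⟨l', e⟩ := conj_mem_of_norm h7 ⟨l, rfl⟩
  change F.h l' = _ * F.h l * _ at e
  rw [← e, aut_T4 (φ := φ) (l := l) (l' := l') (fun a => F.inj ((hφ _).symm.trans
    (cjf.2 ((F.C_Z (mul_mem hk'.1 hk) a).mul_left (hZ a))))) (F.inj ?_)]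
  rw [← hφ, ← F.he, ← F.he, e, ← hφ]; group

end Cfsg.Lib.RF4.Full

namespace Cfsg.Lib.SF4

open Subgroup Cfsg.Lib.BG Cfsg.Lib.Transfer Cfsg.Lib.GW Cfsg.Lib.RF4 Cfsg.Lib.RF4.V

variable {K : Type*} [Field K] [Tw K] {G : Type*} [Group G] {F : Full K G} {t g w w' : G} {c c' κ κ' : K}

/-- A normalized element. -/
structure NW (F : Full K G) (t w : G) (c κ : K) : Prop where
  act : ∃ φ, Nm φ κ ∧ ∀ v, w * F.e v * w⁻¹ = F.e (φ v)
  cT : ∀ l : T4 K, Commute w (F.h l)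
  ct : w * t * w⁻¹ = t * F.e (x4 c)
  cr : ∃ z, w * F.r * w⁻¹ = F.e (x4 z) * F.r

theorem x4_add (a b : K) : x4 (a + b) = x4 a * x4 b := by vs

theorem x4_sq (a : K) : x4 a * x4 a = 1 := by vq

theorem cm_mem' {H : Subgroup G} {a b : G} (ha : a ∈ H) (hb : b ∈ H) : cm a b ∈ H :=
  mul_mem (mul_mem (mul_mem ha hb) (inv_mem ha)) (inv_mem hb)

theorem NW.c0 (h : NW F t w c κ) (e : Commute w t) : c = 0 := by
  have := h.ct
  rw [cjf.2 e, left_eq_mul, ← map_one F.e, F.inj.eq_iff] at this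
  exact x4_inj.1 this

theorem NW.cA (h : NW F t w c κ) {v : V K} (hv : v ∈ A) : Commute w (F.e v) :=
  let ⟨_, h1, h2⟩ := h.act; cjf.1 ((h2 v).trans (congrArg _ (h1.fA v hv)))

theorem NW.c4 (h : NW F t w c κ) (a : K) : Commute w (F.e (x4 a)) := h.cA (by vs)

theorem NW.mul (h : NW F t w c κ) (h' : NW F t w' c' κ') : NW F t (w * w') (c + c') (κ + κ') where
  act := by
    obtain ⟨φ, h1, h2⟩ := h.act
    obtain ⟨φ', h3, h4⟩ := h'.act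
    exact ⟨_, h1.mul h3, fun v => by rw [MulAut.mul_apply, ← h2, ← h4]; group⟩
  cT l := (h.cT l).mul_left (h'.cT l)
  ct := by rw [x4_add, map_mul, ← mul_assoc, ← h.ct, ← cjf.2 (h.c4 c'), conj_mul, ← h'.ct]; group
  cr := by
    obtain ⟨z, h1⟩ := h.cr
    obtain ⟨z', h2⟩ := h'.cr
    exact ⟨z' + z, by rw [x4_add, map_mul, mul_assoc (F.e _), ← h1, ← cjf.2 (h.c4 z'), conj_mul, ← h2]; group⟩

theorem NW.conj [Finite K] (s : St F t) (h : NW F t w c κ) (l : Kˣ × Kˣ) {u : K} (hu : σ u = w4 l) :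
    NW F t (F.h l * w * (F.h l)⁻¹) (σ u * c) (u * κ) where
  act := by
    obtain ⟨φ, h1, h2⟩ := h.act
    exact ⟨_, h1.tor l hu, fun v => by
      rw [MulAut.mul_apply, MulAut.mul_apply, ← F.he, ← h2, ← map_inv V.tor, ← F.he, map_inv]; group⟩
  cT l' := by simpa only [F.h_comm] using cjc (h.cT l') (F.h l)
  ct := by
    have : F.h l * _ * (F.h l)⁻¹ = F.h l * _ * (F.h l)⁻¹ := congrArg (fun x => F.h l * x * (F.h l)⁻¹) h.ct
    rwa [← conj_conj_conj, ← conj_mul (a := t), cjf.2 (s.th l).symm, F.he, tor_w4, ← hu] at this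
  cr := by
    obtain ⟨z, h1⟩ := h.cr
    refine ⟨w4 l * z, ?_⟩
    have h2 := (h.cT ⟨_, wr_mem l⁻¹⟩).eq
    calc _ = F.h l * (w * (F.h l⁻¹ * F.r * (F.h l⁻¹)⁻¹) * w⁻¹) * (F.h l)⁻¹ := by rw [map_inv]; group
      _ = F.h l * (F.h (l⁻¹ * (wr l⁻¹)⁻¹) * F.e (x4 z) * (F.h (l⁻¹ * (wr l⁻¹)⁻¹))⁻¹ * (F.h l⁻¹ * F.r * (F.h l⁻¹)⁻¹)) *
          (F.h l)⁻¹ := by rw [F.h_r, ← mul_assoc w, h2, mul_assoc _ w, mul_assoc _ _ w⁻¹, h1]; group
      _ = _ := by rw [F.he, T4_Z ⟨_, wr_mem l⁻¹⟩ (x4_mem z), ← tor_w4, ← F.he, map_inv]; group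

theorem NW.x4 (s : St F t) (a : K) : NW F t (F.e (x4 a)) 0 0 where
  act := ⟨1, ⟨fun _ _ => rfl, fun _ => rfl, fun _ => rfl, fun _ => rfl, fun _ => rfl, fun _ => by
    rw [zero_mul]; exact (mul_one _).symm, fun _ => by rw [zero_mul]; exact (mul_one _).symm, fun _ => by simp⟩,
    fun v => cjf.2 (F.C_Z (F.eC v) a).symm⟩
  cT l := (F.C_Z (F.hC l) a).symm
  ct := (cjf.2 (s.te _).symm).trans ((mul_one _).symm.trans (congrArg _ (map_one F.e).symm))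
  cr := ⟨0, (cjf.2 (F.C_Z F.rC a).symm).trans ((one_mul _).symm.trans (congrArg (· * _) (map_one F.e).symm))⟩

theorem St.tt (s : St F t) {x y l : G} (h1 : x * t ∈ F.C) (hl : l ∈ F.C) (h2 : y * t ∈ F.C) : x * l * y ∈ F.C := by
  have := mul_mem (mul_mem h1 hl) h2
  rwa [mul_assoc, mul_assoc, (s.tL _ (mul_mem hl h2).1).eq, mul_assoc l, mul_assoc y, s.t2, mul_one, ← mul_assoc] at this

namespace S0

variable [Bg K] [Finite G] (s : S0 F t)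
include s

theorem sq4 (hg : Commute g t) (h : ∀ v, Commute g (F.e v)) : g ^ 2 ^ 2 = 1 := by
  rcases s.K0 _ (hg.mul_left hg) (F.CS (s.cn g hg) h) with e | e <;>
    rw [show g ^ 2 ^ 2 = g * g * (g * g) by rw [sq 2, pow_mul, sq, sq], e]
  exacts [one_mul _, s.t2]

theorem inL (hg : Commute g t) {φ : MulAut (V K)} (h : ∀ v, g * F.e v * g⁻¹ = F.e (φ v)) (hP : ∀ v, v⁻¹ * φ v ∈ Ph) :
    g ∈ F.gen ∨ g * t ∈ F.gen := by
  obtain ⟨k, m, hm, e⟩ := Nat.exists_eq_two_pow_mul_odd (orderOf_pos g).ne'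
  have h1 : ∀ n v, v⁻¹ * (φ ^ n) v ∈ Ph := fun n => by
    induction n with
    | zero => simp
    | succ n ih => exact fun v => by simpa [pow_succ'] using mul_mem (ih v) (hP ((φ ^ n) v))
  have h2 : φ ^ 2 ^ k = 1 := aut_eq_one (hm.of_dvd_nat (orderOf_dvd_of_pow_eq_one (MulEquiv.ext fun v => F.inj (by
    rw [← pow_mul, ← e, ← F.act_pow h, pow_orderOf_eq_one]; simp)))) (h1 _)
  exact s.s1.two_el hg (k := k + 2) (by
    rw [pow_add, pow_mul]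
    exact s.sq4 (hg.pow_left _) fun v => cjf.1 (by rw [F.act_pow h, h2]; rfl))

theorem CZ (hg : Commute g t) (h : ∀ a, Commute g (F.e (x4 a))) : g ∈ F.C ∨ g * t ∈ F.C := by
  obtain ⟨k, hk, h1, h2⟩ := F.adj s.syl (zpowers_le.1 (norm_inf (zpowers_le.2 (s.cn g hg))
    (norm_cent1 (zpowers_le.2 (mc.2 (h 1)))))) h
  obtain ⟨φ, hφ⟩ := F.act h1
  obtain ⟨l, hl⟩ := aut_lin (F.actT hφ h2)
  have h3 := mul_mem (F.h_mem l⁻¹) hk.1
  refine (s.inL (g := F.h l⁻¹ * k * g) (φ := tor l⁻¹ * φ) ((s.tL _ h3).symm.mul_left hg) (fun v => ?_) fun v => ?_).imp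
    (fun e => ⟨(mul_mem_cancel_left h3).1 e, mc.2 (h 1)⟩) fun e =>
      ⟨(mul_mem_cancel_left h3).1 (mul_assoc _ g t ▸ e), mc.2 ((h 1).mul_left (s.te _))⟩
  · rw [MulAut.mul_apply, ← F.he, ← hφ]; group
  · simpa using aut_Ph (tor l⁻¹) (hl v)

theorem C6 (hg : Commute g t) (h : ∀ a, Commute g (F.e (x4 a))) (h6 : Commute g (F.e (x6 1))) :
    ∃ v ∈ R, g = F.e v ∨ g = F.e v * t :=
  (s.CZ hg h).elim (fun e => let ⟨v, hv, e⟩ := F.CZ2 e h6; ⟨v, hv, .inl e⟩) fun e =>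
    let ⟨v, hv, e⟩ := F.CZ2 e (h6.mul_left (s.te _)); ⟨v, hv, .inr (by rw [← e, mul_assoc, s.t2, mul_one])⟩

theorem CR (hg : Commute g t) (h : ∀ v ∈ R, Commute g (F.e v)) : ∃ v ∈ Z2, g = F.e v ∨ g = F.e v * t := by
  obtain ⟨v, hv, e⟩ := s.C6 hg (fun a => h _ (by vs)) (h _ (by vs))
  refine ⟨v, Z2_of_R hv fun w hw => (F.ce ?_).symm, e⟩
  rcases e with rfl | rfl
  exacts [h w hw, by simpa using (h w hw).mul_left (s.te w).inv_left]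

theorem CQ (hg : Commute g t) (h : ∀ v ∈ Q, Commute g (F.e v)) : ∃ a, g = F.e (x4 a) ∨ g = F.e (x4 a) * t :=
  (s.CZ hg fun a => h _ (by vs)).elim (fun e => (F.CQ' e.1 h).imp fun _ => .inl) fun e =>
    (F.CQ' e.1 fun v hv => (h v hv).mul_left (s.te _)).imp fun _ e => .inr (by rw [← e, mul_assoc, s.t2, mul_one])

theorem ex_w : ∃ w ∈ 𝐍(F.e.range), ∃ c ≠ 0, (∀ a, Commute w (F.e (x4 a))) ∧ w * t * w⁻¹ = t * F.e (x4 c) := by
  obtain ⟨g, hg, e⟩ := s.g0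
  obtain ⟨φ, hφ⟩ := F.act hg
  obtain ⟨f, h1, h2⟩ := aut_x4 φ
  have fi : Function.Injective f := fun a b e => x4_inj.1 (φ.injective (by rw [h1, h1, e]))
  have f0 : f 0 = 0 := x4_inj.1 ((h1 0).symm.trans (map_one φ))
  have f1 : f 1 ≠ 0 := fun e => one_ne_zero (fi (e.trans f0.symm))
  obtain ⟨n, n0, n1⟩ := ex_ω (K := K)
  obtain ⟨m, hm⟩ := ex_mul f1 (f n)
  have m0 : m ≠ 0 := by rintro rfl; exact n0 (fi (by rw [← hm, f0, mul_zero]))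
  obtain ⟨l, hl⟩ := w4_surj n0
  obtain ⟨l', hl'⟩ := w4_surj (inv_ne_zero m0)
  have k : ∀ a, g * F.h l * g⁻¹ * F.e (x4 a) * (g * F.h l * g⁻¹)⁻¹ = F.e (x4 (m * a)) := fun a => by
    obtain ⟨a, rfl⟩ := Finite.surjective_of_injective fi a
    rw [← h1, ← hφ, conj_conj_conj, F.he, tor_w4, hφ, h1, hl]
    congr 2
    exact mul_right_cancel₀ f1 (by rw [h2, ← hm]; ring)
  refine ⟨g * F.h l * g⁻¹ * F.h l', mul_mem (mul_mem (mul_mem hg (F.h_NS l)) (inv_mem hg)) (F.h_NS l'), m + 1,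
    fun e => n1 (fi (by rw [← hm, CharTwo.add_eq_zero.1 e, mul_one])), fun a => cjf.1 ?_, ?_⟩
  · rw [mul_inv_rev, ← mul_assoc, mul_assoc _ (F.h l'), mul_assoc _ _ (F.h l')⁻¹, F.he, tor_w4, k, hl',
      mul_inv_cancel_left₀ m0]
  · rw [mul_inv_rev, ← mul_assoc, mul_assoc _ (F.h l'), mul_assoc _ _ (F.h l')⁻¹, cjf.2 (s.th l').symm]
    have : t = g * t * g⁻¹ * F.e (x4 1) := by
      rw [e, mul_assoc, ← map_mul, x4_sq, map_one, mul_one]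
    nth_rw 1 [this]
    rw [← conj_mul, k, conj_conj_conj, cjf.2 (s.th l).symm, e, add_comm, x4_add, map_mul, mul_one, mul_assoc]

theorem nC (hw : w ∈ 𝐍(F.e.range)) (h : ∀ a, Commute w (F.e (x4 a))) (e : w * t * w⁻¹ = t * F.e (x4 c)) :
    w ∈ 𝐍(F.C) := by
  have k : ∀ g ∈ F.C, w⁻¹ * g * w ∈ F.C ∨ w⁻¹ * g * w * t ∈ F.C := fun g hg => s.CZ
    (by simpa [mul_assoc] using cjc (e ▸ (s.tL g hg.1).symm.mul_right (F.C_Z hg c) : Commute g (w * t * w⁻¹)) w⁻¹)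
    fun a => ((h a).inv_left.mul_left (F.C_Z hg a)).mul_left (h a)
  have k1 : ∀ v, w⁻¹ * F.e v * w ∈ F.C := fun v => F.b0.S_le (conj_mem_of_norm' hw ⟨v, rfl⟩)
  have k2 : ∀ l : T4 K, w⁻¹ * F.h l * w ∈ F.C := fun l => (k _ (F.hC l)).elim id fun e => mem_conj.1 (odd_mem (F.odd_h l)
    (mem_conj.2 (by simpa [mul_assoc] using s.tt e (one_mem _) e)))
  refine inv_mem_iff.1 (mem_normalizer_of_conj_le (conj_le_iff_le_inv_conj.2 (F.C_le (fun v => mem_conj.2 (by simpa using k1 v))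
    (fun l => mem_conj.2 (by simpa using k2 l)) (mem_conj.2 ?_))))
  rw [inv_inv, inv_inv]
  refine (k _ F.rC).elim id fun e => ?_
  have h1 := s.tt e (k1 (x8 1)) e
  rw [show ∀ a, w⁻¹ * F.r * w * (w⁻¹ * a * w) * (w⁻¹ * F.r * w) = w⁻¹ * (F.r * a * F.r) * w from fun a => by group,
    (F.sz (x8 1) (by vs) (by vs; simp)).2] at h1
  simpa [mul_assoc] using mul_mem (mul_mem (inv_mem (mul_mem (k1 (F.f (x8 1)).1) (k2 (F.f (x8 1)).2.1))) h1)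
    (inv_mem (k1 (F.f (x8 1)).2.2))

theorem nrm (hw : w ∈ 𝐍(F.C)) (h : ∀ a, Commute w (F.e (x4 a))) (e : w * t * w⁻¹ = t * F.e (x4 c)) :
    ∃ w κ, NW F t w c κ := by
  obtain ⟨k, hk, h1, h2⟩ := F.adj s.syl hw h
  replace e : k * w * t * (k * w)⁻¹ = t * F.e (x4 c) := by
    rw [← cjf.2 ((s.tL k hk.1).symm.mul_right (F.C_Z hk c)), ← e]; group
  replace h := fun a => (F.C_Z hk a).mul_left (h a)
  replace hw := mul_mem (le_norm _ hk) hw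
  generalize k * w = w at *
  have sq : ∀ {w}, (∀ a, Commute w (F.e (x4 a))) → (∀ l : T4 K, Commute w (F.h l)) → w * t * w⁻¹ = t * F.e (x4 c) →
      ∃ u ∈ U4, ∃ l : T4 K, ∀ g ∈ F.gen, w * w * g * (w * w)⁻¹ = F.e u * F.h l * g * (F.e u * F.h l)⁻¹ := fun {w} h h2 e => by
    have c : Commute (w * w) t := cjf.1 (by
      rw [mul_inv_rev, ← mul_assoc, mul_assoc w w, mul_assoc w _ w⁻¹, e, ← conj_mul, e, cjf.2 (h c), mul_assoc, ← map_mul,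
        x4_sq, map_one, mul_one])
    rcases s.CZ c fun a => (h a).mul_left (h a) with h3 | h3
    · obtain ⟨u, hu, l, e⟩ := F.CT4 h3 fun l => (h2 l).mul_left (h2 l)
      exact ⟨u, hu, l, fun g _ => by rw [e]⟩
    · obtain ⟨u, hu, l, e⟩ := F.CT4 h3 fun l => ((h2 l).mul_left (h2 l)).mul_left (s.th l)
      exact ⟨u, hu, l, fun g hg => by rw [← e]; nth_rw 1 [← cjf.2 (s.tL g hg)]; group⟩
  obtain ⟨φ, hφ⟩ := F.act h1
  obtain ⟨l, hl⟩ := aut_lin (F.actT hφ h2)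
  have lT : l ∈ T4 K := by
    obtain ⟨u, hu, l', e⟩ := sq h h2 e
    have k : ∀ v, (tor (l * l) v)⁻¹ * (u * tor l' v * u⁻¹) ∈ Ph := fun v => by
      have := e _ (F.e_mem v)
      rw [mul_inv_rev, ← mul_assoc, mul_assoc w w, mul_assoc w _ w⁻¹, hφ, hφ, mul_inv_rev, ← mul_assoc, mul_assoc _ (F.h _),
        mul_assoc _ _ (F.h _)⁻¹, F.he, F.ej, F.inj.eq_iff] at this
      simpa [← this] using mul_mem (aut_Ph (tor l) (hl v)) (hl (φ v))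
    have k1 := (k (x1 1)).1
    have k2 := (k (y8 1)).2
    refine odd_mem (odd_T.of_dvd_nat (_root_.orderOf_dvd_natCard _)) ((show l * l = l' from ?_) ▸ l'.2)
    generalize l * l = m at *
    clear * - k1 k2; vs at k1 k2
    exact Prod.ext (Units.ext (by grind)) (Units.ext (by grind))
  have c1 : F.h l⁻¹ ∈ F.C := F.hC ⟨l⁻¹, inv_mem lT⟩
  replace e : F.h l⁻¹ * w * t * (F.h l⁻¹ * w)⁻¹ = t * F.e (x4 c) := by
    rw [← cjf.2 ((s.tL _ c1.1).symm.mul_right (F.C_Z c1 c)), ← e]; group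
  replace h := fun a => (F.C_Z c1 a).mul_left (h a)
  replace hw := mul_mem (le_norm _ c1) hw
  replace h2 := fun l' : T4 K => (F.hh l⁻¹ l').mul_left (h2 l')
  replace hφ : ∀ v, F.h l⁻¹ * w * F.e v * (F.h l⁻¹ * w)⁻¹ = F.e ((tor l⁻¹ * φ) v) := fun v => by
    rw [MulAut.mul_apply, ← F.he, ← hφ]; group
  replace hl : ∀ v, v⁻¹ * (tor l⁻¹ * φ) v ∈ Ph := fun v => by simpa using aut_Ph (tor l⁻¹) (hl v)
  clear h1 c1 lT hk
  generalize F.h l⁻¹ * w = w, tor l⁻¹ * φ = φ at *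
  obtain ⟨z, hz⟩ : ∃ z, w * F.r * w⁻¹ = F.e (x4 z) * F.r := by
    obtain ⟨u, hu, l, e1⟩ := F.CT4 (mul_mem (conj_mem_of_norm hw F.rC) (inv_mem F.rC)) fun l => cjf.1 (by
      calc _ = w * (F.r * (w⁻¹ * (F.r⁻¹ * F.h l * F.r⁻¹⁻¹) * w⁻¹⁻¹) * F.r⁻¹) * w⁻¹ := by group
        _ = _ := by
          rw [inv_inv F.r, F.rT', cjf.2 (h2 l).inv_inv, ← conj_inv, F.rT, inv_inv, cjf.2 (h2 l)])
    rw [mul_inv_eq_iff_eq_mul] at e1
    have uZ : u = x4 u.c4 := eq_x4 (U4_inv hu (F.inj (by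
      have := sq_conj F.rr w
      rw [e1, mul_assoc (F.e u), ((F.hU4 l hu).mul_left (F.rU4 hu)).mul_mul_mul_comm, mul_assoc (F.h l),
        ← mul_assoc F.r] at this
      nth_rw 1 [← F.r_inv] at this
      rw [map_mul, map_one, ← this, F.rT', mul_inv_cancel, mul_one])))
    obtain ⟨u', hu', l', e2⟩ := sq h h2 e
    obtain rfl : l' = 1 := by
      have := e2 _ (F.e_mem (x1 1))
      rw [mul_inv_rev, ← mul_assoc, mul_assoc w w, mul_assoc w _ w⁻¹, hφ, hφ, mul_inv_rev, ← mul_assoc, mul_assoc _ (F.h _),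
        mul_assoc _ _ (F.h _)⁻¹, F.he, F.ej, F.inj.eq_iff] at this
      have k := (mul_mem (hl (x1 1)) (hl (φ (x1 1)))).1
      rw [mul_assoc, mul_inv_cancel_left, this] at k
      refine Subtype.ext (T4_fst l'.2 (Units.ext ?_))
      clear * - k; vs at k; simp only [Units.val_one]; grind
    have := e2 _ F.r_mem
    rw [mul_inv_rev, ← mul_assoc, mul_assoc w w, mul_assoc w _ w⁻¹, e1, ← conj_mul, ← conj_mul, e1, cjf.2 (h2 l), uZ,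
      cjf.2 (h _), ← uZ, coe_one, map_one, mul_one, cjf.2 (F.rU4 hu').symm, ← mul_assoc, mul_eq_right,
      (F.hU4 l hu).mul_mul_mul_comm, ← map_mul, ← map_mul] at this
    obtain rfl : l = 1 := sq_one (Subtype.ext (F.eh_one this).2)
    exact ⟨u.c4, by rw [e1, ← uZ, coe_one, map_one, mul_one]⟩
  obtain ⟨γ, κ, hN⟩ := aut_norm (F.actT hφ h2) (fun a => F.inj ((hφ _).symm.trans (cjf.2 (h a)))) hl fun v hv => by
    have : F.r * F.e (φ v) * F.r⁻¹ = F.e (φ (ρr v)) := by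
      rw [← cjf.2 (F.C_Z (F.eC (φ (ρr v))) z).symm.inv_left, ← hφ, ← hφ, ← F.re v hv, ← conj_conj_conj w, hz]; group
    exact F.inj (by rw [← this, F.re _ (F.r_S this)])
  have y : y4 γ ∈ U4 := by vs
  refine ⟨F.e (y4 γ) * w, κ, ⟨_, hN, fun v => ?_⟩, fun l => (F.hU4 l y).symm.mul_left (h2 l), ?_, z, ?_⟩
  · rw [MulAut.mul_apply, MulAut.conj_apply, ← F.ej, ← hφ]; group
  · rw [← cjf.2 ((s.te (y4 γ)).symm.mul_right (F.C_Z (F.eC _) c)), ← e]; group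
  · rw [← cjf.2 ((F.C_Z (F.eC (y4 γ)) z).mul_right (F.rU4 y).symm), ← hz]; group

theorem ex_NW : ∃ w κ, NW F t w 1 κ := by
  obtain ⟨w, h1, c, c0, h2, h3⟩ := s.ex_w
  obtain ⟨w, κ, h⟩ := s.nrm (s.nC h1 h2 h3) h2 h3
  obtain ⟨l, hl⟩ := w4_surj (inv_ne_zero c0)
  obtain ⟨u, hu⟩ := σ_surj (w4 l : K)
  exact ⟨_, _, by simpa only [hu, hl, inv_mul_cancel₀ c0] using h.conj s.toSt l hu⟩

theorem zero (h : NW F t w 0 κ) : ∃ a, w = F.e (x4 a) ∨ w = F.e (x4 a) * t := by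
  obtain ⟨φ, h1, h2⟩ := h.act
  have k : ∀ g ∈ F.C, (∀ l : T4 K, Commute g (F.h l)) → Commute g (F.e (x1 1)) → ∃ a, g = F.e (x4 a) := fun g hg h3 h4 => by
    obtain ⟨u, hu, l, rfl⟩ := F.CT4 hg h3
    replace h4 := cjf.2 h4
    rw [mul_inv_rev, ← mul_assoc, mul_assoc _ (F.h _), mul_assoc _ _ (F.h _)⁻¹, F.he, F.ej, F.inj.eq_iff] at h4
    obtain rfl : l = 1 := Subtype.ext (T4_fst l.2 (Units.ext (by
      have := congrArg V.a1 h4
      clear * - this; vs at this; simp only [Units.val_one]; grind)))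
    refine ⟨u.c4, by rw [coe_one, map_one, mul_one]; congr 1; have := congrArg V.c2 h4; clear * - hu this; dst u hu; vs at *; simp_all⟩
  have c1 : Commute w (F.e (x1 1)) := cjf.1 ((h2 _).trans (congrArg _ (h1.f1 1)))
  rcases s.CZ (cjf.1 (h.ct.trans (by rw [show x4 (0 : K) = 1 from rfl, map_one, mul_one]))) h.c4 with e | e
  · exact (k w e h.cT c1).imp fun _ => .inl
  · exact (k _ e (fun l => (h.cT l).mul_left (s.th l)) (c1.mul_left (s.te _))).imp fun a e =>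
      .inr (by rw [← e, mul_assoc, s.t2, mul_one])

theorem sqZ (h : NW F t w c κ) : ∃ a, w * w = F.e (x4 a) := by
  obtain ⟨a, e | e⟩ := s.zero (CharTwo.add_self_eq_zero c ▸ h.mul h)
  · exact ⟨a, e⟩
  have c1 := (h.c4 a).inv_right.mul_right (e ▸ (Commute.refl w).mul_right (Commute.refl w))
  rw [inv_mul_cancel_left] at c1
  obtain rfl := h.c0 c1
  obtain ⟨b, rfl | rfl⟩ := s.zero h
  · exact ⟨0, by rw [← map_mul, x4_sq]; rfl⟩
  · exact ⟨0, by rw [(s.te _).mul_mul_mul_comm, s.t2, mul_one, ← map_mul, x4_sq]; rfl⟩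

theorem inv_eq (h : NW F t w c κ) : ∃ a, w⁻¹ = w * F.e (x4 a) :=
  let ⟨a, e⟩ := s.sqZ h
  ⟨a, inv_eq_of_mul_eq_one_right (by rw [← mul_assoc, e, ← map_mul, x4_sq, map_one])⟩

theorem inv (h : NW F t w c κ) : NW F t w⁻¹ c κ := by
  obtain ⟨a, e⟩ := s.inv_eq h
  simpa only [e, add_zero] using h.mul (.x4 s.toSt a)

theorem cjZ (h : NW F t w c κ) (h' : NW F t w' c' κ') : ∃ a, w * w' * w⁻¹ = F.e (x4 a) * w' := by
  obtain ⟨a, e⟩ := s.sqZ (h.mul h')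
  obtain ⟨b, e1⟩ := s.sqZ (s.inv h)
  obtain ⟨d, e2⟩ := s.inv_eq h'
  refine ⟨a + b + d, ?_⟩
  calc _ = w * w' * (w * w') * (w'⁻¹ * (w⁻¹ * w⁻¹)) := by group
    _ = _ := by
      rw [e, e1, e2, mul_assoc w', ← map_mul, ← x4_add, (h'.c4 _).eq, ← mul_assoc, ← map_mul, ← x4_add, add_comm d,
        add_assoc]

end S0

/-- The group `Y₄`. -/
structure Y0 (F : Full K G) (t : G) (Y : Subgroup G) (y0 : G) (κ0 : K) : Prop extends S0 F t where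
  nw : ∀ y ∈ Y, ∃ c κ, NW F t y c κ
  Z : ∀ a, F.e (x4 a) ∈ Y
  tn : t ∉ Y
  H : ∀ l, ∀ y ∈ Y, F.h l * y * (F.h l)⁻¹ ∈ Y
  m0 : y0 ∈ Y
  n0 : NW F t y0 1 κ0

theorem S0.ex_Y0 [Bg K] [Finite G] (s : S0 F t) : ∃ Y y0 κ0, Y0 F t Y y0 κ0 := by
  obtain ⟨ω, ω0, ω1⟩ := ex_ω (K := K)
  obtain ⟨l0, hl⟩ := w4_surj ω0
  have cj : ∀ l {w c κ}, NW F t w c κ → ∃ κ, NW F t (F.h l * w * (F.h l)⁻¹) (w4 l * c) κ := fun l _ _ _ h =>
    let ⟨_, hu⟩ := σ_surj (w4 l : K); ⟨_, hu ▸ h.conj s.toSt l hu⟩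
  have k : ∀ a {w c κ}, NW F t w c κ → ∃ κ, NW F t (F.e (x4 a) * cm (F.h l0) w) ((ω + 1) * c) κ := fun a _ c _ h =>
    let ⟨_, h1⟩ := cj l0 h
    ⟨_, by simpa only [zero_add, hl, add_one_mul, cm] using (NW.x4 s.toSt a).mul (h1.mul (s.inv h))⟩
  have k1 : ∀ a, ∃ b w c κ, NW F t w c κ ∧ F.e (x4 a) = F.e (x4 b) * cm (F.h l0) w := fun a =>
    ⟨a, _, _, _, .x4 s.toSt 0, by simp [cm, show x4 (0 : K) = 1 from rfl]⟩
  have k2 : ∀ {x y}, (∃ b w c κ, NW F t w c κ ∧ x = F.e (x4 b) * cm (F.h l0) w) →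
      (∃ b w c κ, NW F t w c κ ∧ y = F.e (x4 b) * cm (F.h l0) w) →
      ∃ b w c κ, NW F t w c κ ∧ x * y = F.e (x4 b) * cm (F.h l0) w := by
    rintro _ _ ⟨a, w, c, κ, h, rfl⟩ ⟨a', w', c', κ', h', rfl⟩
    obtain ⟨_, h1⟩ := k a h
    obtain ⟨_, h2⟩ := k a' h'
    obtain ⟨b, e⟩ := s.cjZ h h2
    refine ⟨a + a' + b, _, _, _, h.mul h', ?_⟩
    calc _ = F.e (x4 a) * cm (F.h l0) w * (F.e (x4 b))⁻¹ * (w * (F.e (x4 a') * cm (F.h l0) w') * w⁻¹) := by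
          rw [e]; group
      _ = F.e (x4 a) * cm (F.h l0) w * F.e (x4 (a' + b)) * (w * cm (F.h l0) w' * w⁻¹) := by
          rw [← conj_mul, cjf.2 (h.c4 _), add_comm, x4_add, map_mul, ← map_inv, inv_eq_of_mul_eq_one_left (x4_sq b)]; group
      _ = _ := by rw [(h1.c4 _).eq, add_assoc, add_comm a, x4_add _ a, map_mul, cm, cm, cm]; group
  let Y : Subgroup G :=
    { carrier := {y | ∃ b w c κ, NW F t w c κ ∧ y = F.e (x4 b) * cm (F.h l0) w}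
      mul_mem' := k2
      one_mem' := map_one F.e ▸ k1 0
      inv_mem' := fun {x} hx => by
        obtain ⟨a, w, c, κ, h, e⟩ := id hx
        obtain ⟨_, h1⟩ := k a h
        obtain ⟨b, e1⟩ := s.inv_eq (e ▸ h1)
        exact e1 ▸ k2 hx (k1 b) }
  have H : ∀ l, ∀ y ∈ Y, F.h l * y * (F.h l)⁻¹ ∈ Y := by
    rintro l _ ⟨a, w, c, κ, h, rfl⟩
    obtain ⟨_, h1⟩ := cj l h
    exact ⟨w4 l * a, _, _, _, h1, by rw [← conj_mul, F.he, tor_w4]; nth_rw 2 [← F.h_comm l l0]; rw [cm, cm]; group⟩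
  obtain ⟨w, κ, h⟩ := s.ex_NW
  obtain ⟨_, h1⟩ := k 0 h
  obtain ⟨l, hl'⟩ := w4_surj (inv_ne_zero (show ω + 1 ≠ 0 by grind))
  obtain ⟨_, h2⟩ := cj l h1
  rw [hl', mul_one, inv_mul_cancel₀ (show ω + 1 ≠ 0 by grind)] at h2
  refine ⟨Y, _, _, s, ?_, k1, ?_, H, H l _ ⟨0, w, _, _, h, rfl⟩, h2⟩
  · rintro _ ⟨a, w, c, κ, h, rfl⟩
    exact ⟨_, k a h⟩
  rintro ⟨a, w, c, κ, h, e⟩
  obtain ⟨_, h1⟩ := k a h
  obtain rfl : c = 0 := by rw [← e] at h1; have := h1.c0 (.refl t); grind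
  have m := mul_mem (F.e_mem (x4 a)) (cm_mem' (F.h_mem l0) (F.e_mem (x4 (s.zero h).choose)))
  rcases (s.zero h).choose_spec with e' | e'
  · exact s.not_mem (by rwa [← e', ← e] at m)
  · refine s.not_mem (e ▸ ?_)
    rwa [e', cm, mul_inv_rev, ← mul_assoc (F.h l0), mul_assoc _ t, (s.th l0).inv_right.eq, ← mul_assoc _ _ t,
      ← mul_assoc _ t⁻¹, mul_inv_cancel_right]

end Cfsg.Lib.SF4
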