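import Cfsg.Agent.Lib.SF4.Gen

/-!
# S3323: the case `L × L`
-/

set_option autoImplicit false

namespace Cfsg.Lib.SF4

open Subgroup Cfsg.Lib.BG Cfsg.Lib.Transfer Cfsg.Lib.GW Cfsg.Lib.RF4 Cfsg.Lib.RF4.V

variable {K : Type*} [Field K] [Tw K] [Bg K] {G : Type*} [Group G] [Finite G] {F : Full K G} {t : G}
  {X4 X5 : K × K → G}

omit [Bg K] [Finite G] in
theorem Core.ab (c : Core F t false X4 X5) {i j : ℤ} (hi : i % 2 = 0) (hj : j % 2 = 0) (u v : K) :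
    Commute (Y F X4 X5 i (u, 0)) (Y F X4 X5 j (0, v)) := by
  have k : ∀ j, j % 2 = 0 → Commute (Y F X4 X5 4 (u, 0)) (Y F X4 X5 j (0, v)) := fun j hj => by
    have h1 := c.m6 (a := 4) (e := 1) rfl (.inl rfl) (u, 0) (0, v)
    have h2 := c.m6 (a := 4) (e := -1) rfl (.inr rfl) (u, 0) (0, v)
    have h3 := c.m5 (a := 2) (e := 1) rfl (.inl rfl) (u, 0) (1, 0)
    have h4 := c.m6 (a := 12) (e := 1) rfl (.inl rfl) (0, v) (u, 0)
    have h5 := c.m5 (a := 12) (e := -1) rfl (.inr rfl) (0, v) (1, 0)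
    simp only [sg2, cond_false, Prod.mk_mul_mk, map_zero, mul_zero, zero_mul, mul_one, Prod.mk_zero_zero, c.zero, cm_one]
      at h1 h2 h3 h4 h5
    rw [Y_congr (i := 4 + -1 * 6) (j := 14) (by decide)] at h2
    rw [Y_congr (i := 12 + 1 * 6) (j := 2) (by decide)] at h4
    rw [← Y_mod j]
    obtain h | h | h | h | h | h | h | h : j % 16 = 0 ∨ j % 16 = 2 ∨ j % 16 = 4 ∨ j % 16 = 6 ∨ j % 16 = 8 ∨ j % 16 = 10 ∨
      j % 16 = 12 ∨ j % 16 = 14 := by omega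
    all_goals rw [h]
    exacts [c.sym_c (a := 8) (e := -1) rfl (.inr rfl) (c.y48 _ _), c.sym_c (a := 8) (e := -1) rfl (.inr rfl) (c.y46 _ _),
      c.c0 _ _ _, c.y46 _ _, c.y48 _ _, h1, (h3 ▸ commute_cm h4 h5 :).symm, h2]
  have := c.sym_c (a := i - 4) (e := 1) (by omega) (.inl rfl) (k (j - i + 4) (by omega))
  convert this using 2 <;> ring

omit [Bg K] [Finite G] in
theorem Core.diag {sw : Bool} (c : Core F t sw X4 X5) {i : ℤ} (hi : i % 2 = 0) (u : K) : Y F X4 X5 i (u, u) ∈ F.gen := by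
  obtain ⟨g, hg, k⟩ := c.sym (a := i - 4) (e := 1) (by omega) (.inl rfl)
  rw [show i = i - 4 + 1 * 4 by ring, ← k, Y4, c.d4]
  exact mul_mem (mul_mem hg (F.e_mem _)) (inv_mem hg)

theorem Core.exists_f (s : St F t) (c : Core F t false X4 X5) (hs : IsSimpleGroup F.gen) (hm : TM F.gen) :
    ∃ f : F.gen →* G, (∀ l, f l * (t * f l * t⁻¹) = l) ∧ ∀ l m, Commute (f l) (t * f m * t⁻¹) := by
  let A := closure {x | ∃ i u, i % 2 = 0 ∧ x = Y F X4 X5 i (u, 0)}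
  have a0 : ∀ i u, i % 2 = 0 → Y F X4 X5 i (u, 0) ∈ A := fun i u h => subset_closure ⟨i, u, h, rfl⟩
  have a : ∀ i u, Y F X4 X5 i (u, 0) ∈ A := fun i u => (Int.emod_two_eq_zero_or_one i).elim (a0 i u) fun h => by
    have := c.m6 (a := i - 3) (e := 1) (by omega) (.inl rfl) (u, 0) (1, 0)
    simp only [sg2, cond_false, Prod.mk_mul_mk, mul_zero, zero_mul, mul_one, one_mul, sub_add_cancel] at this
    exact (mul_mem_cancel_left (a0 _ _ (by omega))).1 ((mul_mem_cancel_right (a0 _ _ (by omega))).1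
      (this ▸ cm_in (a0 _ _ (by omega)) (a0 _ _ (by omega))))
  have ab : ∀ x ∈ A, ∀ y ∈ A, Commute x (t * y * t⁻¹) := fun x hx y hy => mc.1 ((closure_le 𝐂[t * y * t⁻¹]).2 (by
    rintro _ ⟨i, u, hi, rfl⟩
    refine mc.2 (mc.1 ((closure_le ((𝐂[Y F X4 X5 i (u, 0)]).comap (MulAut.conj t).toMonoidHom)).2 ?_ hy)).symm
    rintro _ ⟨j, v, hj, rfl⟩
    exact mc.2 (show Commute (t * _ * t⁻¹) _ from (c.t_Y s.tL j (v, 0)).symm ▸ (c.ab hi hj u v).symm)) hx)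
  let π : A →* G := MonoidHom.mk' (fun m => m * (t * m * t⁻¹)) fun m n => by
    rw [coe_mul, ← conj_mul]; exact (ab _ n.2 _ m.2).mul_mul_mul_comm _ _
  have p : ∀ i u, π ⟨_, a i u⟩ = Y F X4 X5 i (u, u) := fun i u =>
    (congrArg _ (c.t_Y s.tL i _)).trans (c.split' i (u, u)).symm
  have n : ∀ g ∈ F.gen, (∀ i u, ∃ j w, g * Y F X4 X5 i (u, 0) * g⁻¹ = Y F X4 X5 j (w, 0)) → g ∈ 𝐍(π.range) := fun g hg h => by
    have : ∀ x ∈ A, g * x * g⁻¹ ∈ A := (closure_le (A.comap (MulAut.conj g).toMonoidHom)).2 (by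
      rintro _ ⟨i, u, -, rfl⟩
      obtain ⟨j, w, e⟩ := h i u
      exact (e ▸ a j w :))
    refine mem_normalizer_of_conj_le (conj_le_iff.2 ?_)
    rintro _ ⟨m, rfl⟩
    refine ⟨⟨_, this _ m.2⟩, ?_⟩
    change g * m * g⁻¹ * (t * (g * m * g⁻¹) * t⁻¹) = g * (m * (t * m * t⁻¹)) * g⁻¹
    nth_rw 1 [← cjf.2 (s.tL g hg).symm, ← cjf.2 (s.tL g hg).symm.inv_right]
    group
  have r := gen_le hs (n _ F.r_mem fun i u => ⟨_, _, c.r_Y i _⟩) (n _ F.s_mem fun i u => ⟨_, _, c.s_Y i _⟩)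
    (fun l => n _ (F.h_mem l) fun i u => let ⟨w, e⟩ := c.h_Y l i; ⟨i, w * u, by simp [e]⟩)
    (fun u => ⟨_, by rw [p 4, Y4, c.d4]⟩) fun u => ⟨_, by rw [p 5, Y5, c.d5]⟩
  have r' : ∀ m, π m ∈ F.gen := fun m => by
    obtain ⟨m', b, e⟩ := (closure_le ((F.gen.comap π).map A.subtype)).2 (by
      rintro _ ⟨i, u, hi, rfl⟩
      exact ⟨⟨_, a i u⟩, mem_comap.2 ((p i u).symm ▸ c.diag hi u), rfl⟩) m.2
    exact Subtype.ext e ▸ b
  have su : Function.Surjective (π.codRestrict _ r') := fun l => (r l.2).imp fun _ => Subtype.ext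
  let e := MulEquiv.ofBijective (π.codRestrict _ r') ⟨(injective_iff_map_eq_one _).2 fun m => hm.inj su (fun m k => mem_center_iff.2
    fun x => Subtype.ext (by
      have := (ab _ x.2 _ m.2).inv_right
      rw [← eq_inv_of_mul_eq_one_left (congrArg Subtype.val k :)] at this
      exact this)) (by
      refine (mem_map_iff_mem A.subtype_injective).1 (map_subtype_commutator A ▸ (closure_le _).2 ?_ m.2)
      rintro _ ⟨i, u, hi, rfl⟩
      have := c.m5 (a := i - 2) (e := 1) (by omega) (.inl rfl) (u, 0) (1, 0)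
      simp only [Prod.mk_mul_mk, mul_zero, mul_one, one_mul, sub_add_cancel] at this
      exact this ▸ commutator_mem_commutator (a _ _) (a _ _)), su⟩
  exact ⟨A.subtype.comp e.symm.toMonoidHom, fun l => congrArg Subtype.val (e.apply_symm_apply l),
    fun l m => ab _ (e.symm l).2 _ (e.symm m).2⟩

/-- `a c = X4 (c, 0)`, `b c = X4 (0, c) = t (a c) t`, `a c * b c = x4 c`.
(1) `a c` commutes with `F.sh' k (b c')` for all `k` (period 8, `r_sh'` turns `k` into `-k`, `F.rC`): `k = 0` `add4`,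
`1` `c46`, `2` `c48`, `3` `b82` shifted by `1` (all products vanish); `k = 4`: shift by `2`:
`sh' 2 (a (c c')) = cm (sh' 3 (a c)) (X5 (c', 0))` (`b83` shifted by `1`) and `sh' 6 (b c'') = sh' (-2) (b c'')` commutes with
`sh' 3 (a c)` (`b82` shifted by `4`) and with `X5 (c', 0)` (`b83` conjugated by `F.r`, `s5`, `s_eq`).
(2) Bruhat (`F.r2.cell`, `F.r2.mem_B`; `S` centralizes `X4` by `c4`, `h4`; `alt F.sf i k` acts on `b` as some `sh' k'`,
induction with `r_sh'`, `s_sh'`): `a c` commutes with `l (b c') l⁻¹` for all `l ∈ L`.  So `Ma = closure {l (a c) l⁻¹}` and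
`Mb = t ⋆ Ma` commute elementwise; both are normalized by `L`.
(3) `π : Ma → G`, `m ↦ m * (t m t⁻¹)` is a homomorphism, `π (l (a c) l⁻¹) = l (x4 c) l⁻¹`, its range is a nontrivial normal
subgroup of `L`, so it is `L`.  `π m` acts on `Ma` as `m`; hence `ker π ≤ Z(Ma)`, and `Ma` is perfect
(`F.h l = π m`, `m (a c) m⁻¹ (a c)⁻¹ = a ((w4 l + 1) c)`, `w4_surj`, `ex_ω`).  `TM.inj`: `Ma ≃* L`, `Ma ⊓ Mb ≤ Z(Ma) = 1`
(`F.center`).  `M = Ma ⊔ Mb ≃* L × L`; `Ua = π⁻¹ S`, `U = Ua ⊔ t ⋆ Ua`; `Y = X4` (order `q² > 2 q`), centralized by `U`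
(`m ∈ Ua` acts on `a c` as `π m ∈ S`).  Lang: `(t m m')² = 1` gives `m' = t m⁻¹ t`, take `w = m⁻¹`.
A normal `N ≥ L` contains `F.h l * a c * (F.h l)⁻¹ * (a c)⁻¹`, so all `a c`. -/
theorem Core.split (s : St F t) (c : Core F t false X4 X5) (hs : IsSimpleGroup F.gen) (hm : TM F.gen) :
    ∃ M U, Out F t M U ∧ (∀ N : Subgroup G, N.Normal → F.gen ≤ N → M ≤ N) ∧ Nonempty (M ≃* F.gen × F.gen) := by
  obtain ⟨f, h1, h2⟩ := c.exists_f s hs hm
  let Φ := MonoidHom.noncommCoprod f ((MulAut.conj t).toMonoidHom.comp f) h2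
  have p : ∀ x y, Φ (x, y) = f x * (t * f y * t⁻¹) := fun _ _ => rfl
  have i : Function.Injective f := fun x y e => Subtype.ext (by rw [← h1, e, h1])
  have j : Function.Injective Φ := (injective_iff_map_eq_one _).2 fun ⟨x, y⟩ e => by
    obtain rfl : x = 1 := Subtype.ext (F.center x.2 (mC.2 fun l hl => show x * l = l * x from congrArg Subtype.val (i (a₁ := x * ⟨l, hl⟩)
      (a₂ := ⟨l, hl⟩ * x) (by rw [map_mul, map_mul, eq_inv_of_mul_eq_one_left e]; exact (h2 _ y).inv_right.eq.symm))))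
    rw [p, map_one, one_mul, conj_eq_one_iff, map_eq_one_iff f i] at e
    rw [e]; rfl
  have q : ∀ x y, t * Φ (x, y) * t⁻¹ = Φ (y, x) := fun x y => by
    rw [p, p, ← conj_mul, (h2 y x).eq, s.ti]
    simp only [mul_assoc, ← mul_assoc t t, s.t2, one_mul, mul_one]
  let e := F.e.codRestrict _ F.e_mem
  let Ψ := Φ.comp (e.prodMap e)
  have j' : Function.Injective Ψ := j.comp (Function.Injective.prodMap (g := e) (f := e) (F.inj.codRestrict _) (F.inj.codRestrict _))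
  have q' : ∀ x y, t * Ψ (x, y) * t⁻¹ = Ψ (y, x) := fun _ _ => q _ _
  refine ⟨Φ.range, Ψ.range, ⟨IsPGroup.of_surjective (fun ⟨x, y⟩ => ?_) _ Ψ.rangeRestrict_surjective, fun _ ⟨_, h⟩ => ⟨_, h⟩,
    fun l hl => ⟨(⟨l, hl⟩, ⟨l, hl⟩), h1 _⟩, fun _ ⟨v, h⟩ => ⟨(v, v), (h1 _).trans h⟩,
    mem_normalizer_of_conj_le (conj_le_iff.2 fun _ ⟨⟨x, y⟩, h⟩ => ⟨_, h ▸ (q x y).symm⟩),
    mem_normalizer_of_conj_le (conj_le_iff.2 fun _ ⟨⟨x, y⟩, h⟩ => ⟨_, h ▸ (q' x y).symm⟩), fun _ ⟨⟨x, y⟩, h⟩ k => ?_,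
    (Z.prod Z).map Ψ, map_le_range _ _, fun _ ⟨⟨x, y⟩, h⟩ => h ▸ mC.2 fun _ ⟨⟨a, b⟩, k, h⟩ =>
      h ▸ Commute.map (Prod.ext (Z_comm k.1 x) (Z_comm k.2 y)) Ψ, ?_⟩, fun N hN hL => ?_, ⟨(MonoidHom.ofInjective j).symm⟩⟩
  · obtain ⟨a, ha⟩ := pgV x
    obtain ⟨b, hb⟩ := pgV y
    exact ⟨a + b, Prod.ext (by simp [pow_add, pow_mul, ha]) (by simp [add_comm a, pow_add, pow_mul, hb])⟩
  · subst h
    nth_rw 2 [← s.ti] at k
    rw [← mul_assoc, q', ← map_mul, map_eq_one_iff _ j', Prod.mk_mul_mk, Prod.mk_eq_one] at k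
    refine ⟨_, ⟨(1, x), rfl⟩, ?_⟩
    nth_rw 1 [← q']
    rw [inv_mul_cancel_right, mul_assoc, ← map_inv, ← map_mul]
    simp [eq_inv_of_mul_eq_one_left k.1]
  · have := Nat.card_le_card_of_injective (fun p : K × K => (⟨Ψ (x4 p.1, x4 p.2), _, ⟨x4_mem _, x4_mem _⟩, rfl⟩ : (Z.prod Z).map Ψ))
      fun a b h => by simpa [x4_inj, Prod.ext_iff] using j' (congrArg Subtype.val h)
    rw [Nat.card_prod] at this
    have := Bg.h (K := K)
    nlinarith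
  · have k : ∀ l, f l ∈ N := fun l => (commutator_le (H₃ := N.comap f)).2 (fun x _ y _ => by
      rw [mem_comap, map_commutatorElement, commutatorElement_def, show f x * f y * (f x)⁻¹ = x * f y * x⁻¹ by
        rw [coe_inv, ← h1, mul_inv_rev, mul_assoc (f x) _ (f y), ← (h2 y x).eq]; group, mul_assoc, mul_assoc]
      exact mul_mem (hL x.2) (by simpa [mul_assoc] using hN.conj_mem _ (hL x⁻¹.2) (f y))) (hm.1.ge (mem_top l))
    rintro _ ⟨⟨x, y⟩, rfl⟩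
    exact mul_mem (k x) (hN.conj_mem _ (k y) t)

end Cfsg.Lib.SF4
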