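import Cfsg.Agent.Lib.SF4.Cor
import Cfsg.Agent.Lib.SF4.Split
import Cfsg.Agent.Lib.SF4.FOut
import Cfsg.Agent.Lib.Schur.Product

/-!
# S3323: passing to `N(O) / O` and back
-/

set_option autoImplicit false

namespace Cfsg.Lib.SF4

open Subgroup Cfsg.Lib.BG Cfsg.Lib.Transfer Cfsg.Lib.GW Cfsg.Lib.RF4 Cfsg.Lib.RF4.V Cfsg.Lie Cfsg.Lib.Chev Cfsg.Lib.Twisted

variable {K : Type*} [Field K] [Tw K] [Bg K] {G : Type*} [Group G] [Finite G] {F : Full K G} {t : G} {O : Subgroup G}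
  {m : ℕ} {S : Twist (CF4 K) symF4} {φ : K →+* K}

/-- `Schur.hasCyclicSchurMultiplier_one_iff`: for a stem extension `π : E → J × J'` the derived groups `A`, `B` of the preimages of
the factors meet `ker π` trivially (`TM.inj`), `⁅A, B⁆ ≤ ker π` is central so `⁅A, B⁆ = 1` (three subgroups), `E = A B ker π`,
`E' = A B`.  (Or `Schur.hasSchurMultiplier_prod`.) -/
theorem TM.prod {J J' : Type*} [Group J] [Group J'] [Finite J] [Finite J'] (h : TM J) (h' : TM J') : TM (J × J') := by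
  refine ⟨by rw [commutator_def, ← top_prod_top, commutator_prod_prod, ← commutator_def, ← commutator_def, h.1, h'.1],
    Schur.hasCyclicSchurMultiplier_one_iff.2 fun E _ _ π hπ => ?_⟩
  obtain ⟨f, hf⟩ := (Schur.hasSchurMultiplier_prod h.2 h'.2).2 E π hπ
  have := Schur.subsingleton_abTensor (Q₁ := J) (Q₂ := J') (by
    rw [show Nat.card (Abelianization J) = 1 from index_eq_one.2 h.1]; exact Nat.coprime_one_left _)
  have := hf.subsingleton
  exact eq_bot_of_subsingleton _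

/-- Transport along a homomorphism that is injective on the Sylow subgroup. -/
def mapF (F : Full K G) {G' : Type*} [Group G'] (φ : G →* G') (hφ : Function.Injective (φ.comp F.e)) : Full K G' where
  e := φ.comp F.e
  h := φ.comp F.h
  r := φ F.r
  s := φ F.s
  f := F.f
  inj := hφ
  he l v := by simpa using congrArg φ (F.he l v)
  rr := by simpa using congrArg φ F.rr
  ss := by simpa using congrArg φ F.ss
  re v h := by simpa using congrArg φ (F.re v h)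
  se v h := by simpa using congrArg φ (F.se v h)
  rh l := by simpa using congrArg φ (F.rh l)
  sh l := by simpa using congrArg φ (F.sh l)
  s3 := by simpa using congrArg φ F.s3
  sz x h h' := ⟨(F.sz x h h').1, by simpa using congrArg φ (F.sz x h h').2⟩
  braid := by simpa using congrArg φ F.braid

omit [Bg K] [Finite G] in
theorem mapF_gen {G' : Type*} [Group G'] (φ : G →* G') (hφ : Function.Injective (φ.comp F.e)) :
    (mapF F φ hφ).gen = F.gen.map φ := by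
  rw [Full.gen, Full.gen, Subgroup.map_sup, Subgroup.map_sup, MonoidHom.map_range, MonoidHom.map_range,
    MonoidHom.map_closure, ← Set.range_comp]
  congr 3
  funext b; cases b <;> rfl

/-- Restriction to a subgroup. -/
def resF (F : Full K G) {H : Subgroup G} (hH : F.gen ≤ H) : Full K H where
  e := F.e.codRestrict H fun v => hH (F.e_mem v)
  h := F.h.codRestrict H fun v => hH (F.h_mem v)
  r := ⟨F.r, hH F.r_mem⟩
  s := ⟨F.s, hH F.s_mem⟩
  f := F.f
  inj _ _ e := F.inj (congrArg Subtype.val e)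
  he l v := Subtype.ext (F.he l v)
  rr := Subtype.ext F.rr
  ss := Subtype.ext F.ss
  re v h := Subtype.ext (F.re v h)
  se v h := Subtype.ext (F.se v h)
  rh l := Subtype.ext (F.rh l)
  sh l := Subtype.ext (F.sh l)
  s3 := Subtype.ext F.s3
  sz x h h' := ⟨(F.sz x h h').1, Subtype.ext (F.sz x h h').2⟩
  braid := Subtype.ext F.braid

omit [Bg K] [Finite G] in
theorem Out.map {G' : Type*} [Group G'] {φ : G →* G'} (hφ : Function.Injective φ) {M U : Subgroup G} (o : Out F t M U) :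
    Out (F.map φ hφ) (φ t) (M.map φ) (U.map φ) where
  pU := o.pU.map φ
  UM := map_mono o.UM
  LM := F.map_gen φ hφ ▸ map_mono o.LM
  SU := F.map_range φ hφ ▸ map_mono o.SU
  tM := le_normalizer_map _ ⟨t, o.tM, rfl⟩
  tU := le_normalizer_map _ ⟨t, o.tU, rfl⟩
  lang := by
    rintro _ ⟨u, hu, rfl⟩ e
    obtain ⟨w, hw, e⟩ := o.lang u hu (hφ (by simpa using e))
    exact ⟨_, ⟨w, hw, rfl⟩, by simpa using congrArg φ e⟩
  Y := let ⟨Y, a, b, c⟩ := o.Y; ⟨_, map_mono a, map_cent φ b, by rwa [card_map_of_injective hφ]⟩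

omit [Bg K] in
theorem S1.comap {G' : Type*} [Group G'] [Finite G'] {φ : G →* G'} (hφ : Function.Injective φ) {O : Subgroup G'}
    (s : S1 (F.map φ hφ) (φ t) O) (hO : 𝐍(O) ≤ φ.range) : S1 F t (O.comap φ) := by
  have c : ∀ {g}, g ∈ 𝐂(F.gen) ↔ φ g ∈ 𝐂((F.map φ hφ).gen) := by
    simp only [F.map_gen, mC]
    exact ⟨fun h _ ⟨l, hl, e⟩ => e ▸ (h l hl).map φ, fun h l hl => (h _ ⟨l, hl, rfl⟩).of_map hφ⟩
  have n : ∀ {g} {X : Subgroup G}, φ g ∈ 𝐍(X.map φ) → g ∈ 𝐍(X) := fun {_ X} h =>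
    comap_map_eq_self_of_injective hφ X ▸ le_normalizer_comap φ h
  refine { t2 := hφ (by simpa using s.t2), t1 := fun e => s.t1 (by simp [e]), tL := mC.1 (c.2 s.tC)
           cn := fun g h => n (F.map_gen φ hφ ▸ s.cn _ (h.map φ))
           kinv := fun g h1 h2 h3 => (s.kinv _ (h1.map φ) (c.1 h2) (by rw [← map_mul, h3, map_one])).imp
             (map_eq_one_iff φ hφ).1 fun e => hφ e
           out := fun g h => ?_
           syl := (Hall.map_iff hφ).1 (F.map_gen φ hφ ▸ F.map_range φ hφ ▸ s.syl)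
           odd := s.odd.of_dvd_nat (card_comap_dvd_of_injective _ _ hφ)
           Ot := fun _ h => mc.2 ((mc.1 (s.Ot h)).of_map hφ), OL := fun _ h => c.2 (s.OL h)
           K0 := fun g h1 h2 => by simpa using s.K0 _ (h1.map φ) (c.1 h2), g0 := ?_ }
  · obtain ⟨k, hk, l, hl, e⟩ := s.out _ (h.map φ)
    obtain ⟨l, hl', rfl⟩ := (F.map_gen φ hφ).le hl
    exact ⟨k, hk, l, hl', c.2 (by simpa using e)⟩
  obtain ⟨g, h1, h2, h3⟩ := s.g0
  obtain ⟨g, rfl⟩ := hO h1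
  exact ⟨g, le_normalizer_comap φ h1, n (F.map_range φ hφ ▸ h2), hφ (by simpa [Full.map] using h3)⟩

omit [Finite G] in
theorem S1.LO (s : S1 F t O) : F.gen ⊓ O = ⊥ := eq_bot_iff.2 fun _ h => F.center h.1 (s.OL h.2)

theorem S1.s0 (s : S1 F t O) {X : Type*} [Group X] {π : G →* X} (hπ : Function.Surjective π) (k : π.ker = O)
    (i : Function.Injective (π.comp F.e)) : S0 (mapF F π i) (π t) := by
  have nO : O.Normal := k ▸ inferInstance
  have k1 : ∀ {g}, Commute (π g) (π t) → Commute g t := fun {g} h => by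
    have o : g * t * g⁻¹ * t⁻¹ ∈ O := k.le (by simpa [mul_inv_eq_one, cjf] using h)
    have := sq_conj s.t2 g
    rw [← inv_mul_cancel_right (g * t * g⁻¹) t, (mc.1 (s.Ot o)).symm.mul_mul_mul_comm, s.t2, mul_one] at this
    exact cjf.1 (mul_inv_eq_one.1 (mem_bot.1 (odd_mem (s.odd.of_dvd_nat (orderOf_dvd_natCard _ o)) this)))
  have k2 : ∀ {g}, Commute g t → π g ∈ 𝐂((mapF F π i).gen) → g ∈ 𝐂(F.gen) := fun {g} h1 h2 => mC.2 fun l hl =>
    cjf.1 (mul_inv_eq_one.1 (mem_bot.1 (s.LO.le ⟨F.gen.mul_mem (conj_mem_of_norm (s.cn g h1) hl) (inv_mem hl), k.le (by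
      simpa [mul_inv_eq_one, cjf] using mC.1 h2 _ (mapF_gen π i ▸ mem_map_of_mem π hl))⟩)))
  have K0 : ∀ g, Commute g (π t) → g ∈ 𝐂((mapF F π i).gen) → g = 1 ∨ g = π t := fun g h1 h2 => by
    obtain ⟨g, rfl⟩ := hπ g
    exact (s.K0 g (k1 h1) (k2 (k1 h1) h2)).imp (fun e => k.ge e) fun e => by
      rw [← s.ti, map_inv]; exact eq_inv_of_mul_eq_one_right ((map_mul _ _ _).symm.trans (k.ge e))
  refine { t2 := by rw [← map_mul, s.t2, map_one], t1 := fun e => ?_, tL := ?_, cn := fun g h => ?_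
           kinv := fun g h1 h2 _ => K0 g h1 h2, out := fun g h => ?_, syl := ?_, K0 := K0, g0 := ?_ }
  · exact inv_not_mem_odd s.odd (orderOf_eq_prime ((sq t).trans s.t2) s.t1) (k.le e)
  · rw [mapF_gen]
    rintro _ ⟨l, hl, rfl⟩
    exact (s.tL l hl).map π
  · obtain ⟨g, rfl⟩ := hπ g
    exact mapF_gen π i ▸ le_normalizer_map _ ⟨g, s.cn g (k1 h), rfl⟩
  · obtain ⟨g, rfl⟩ := hπ g
    obtain ⟨n, hn, l, hl, e⟩ := s.out g (k1 h)
    rw [mapF_gen]
    exact ⟨n, hn, _, ⟨l, hl, rfl⟩, by simpa using map_cent π (zpowers_le.2 e) ⟨_, mem_zpowers _, rfl⟩⟩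
  · rw [mapF_gen]
    exact MonoidHom.map_range π F.e ▸ s.syl.map π
  · obtain ⟨g, -, h1, h2⟩ := s.g0
    exact ⟨π g, MonoidHom.map_range π F.e ▸ le_normalizer_map _ ⟨g, h1, rfl⟩, by simpa [mapF] using congrArg π h2⟩

theorem S0.res (s : S0 F t) (h : Twisted.IsF4 m S φ σ) (hs : IsSimpleGroup F.gen) (hm : TM F.gen) :
    ∃ M U, Out F t M U ∧ (∀ N : Subgroup G, N.Normal → F.gen ≤ N → M ≤ N) ∧ Res K F.gen M := by
  obtain ⟨_ | _, X4, X5, c⟩ := s.core
  · obtain ⟨M, U, h1, h2, h3⟩ := c.split s.toSt hs hm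
    exact ⟨M, U, h1, h2, .inr h3⟩
  · obtain ⟨M, U, h1, h2, h3⟩ := c.f4 h s.toSt hs
    exact ⟨M, U, h1, h2, .inl h3⟩

omit [Tw K] [Bg K] in
theorem Res.congr {L M L' M' : Type*} [Group L] [Group M] [Group L'] [Group M'] (h : Res K L M) (e : L ≃* L') (f : M' ≃* M) :
    Res K L' M' :=
  h.imp (fun ⟨i⟩ => ⟨f.trans i⟩) fun ⟨i⟩ => ⟨(f.trans i).trans (e.prodCongr e)⟩

theorem S1.res' [O.Normal] (s : S1 F t O) (h : Twisted.IsF4 m S φ σ) (hs : IsSimpleGroup F.gen) (hm : TM F.gen)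
    (hF : TM (chevF4.group K)) : ∃ M U, Out F t M U ∧ Res K F.gen M := by
  obtain ⟨π, hπ, k⟩ : ∃ π : G →* G ⧸ O, Function.Surjective π ∧ π.ker = O :=
    ⟨_, QuotientGroup.mk'_surjective O, QuotientGroup.ker_mk' O⟩
  have i : Function.Injective (π.comp F.e) := (injective_iff_map_eq_one _).2 fun v e =>
    (map_eq_one_iff _ F.inj).1 (mem_bot.1 (s.LO.le ⟨F.e_mem v, k.le e⟩))
  have eL : F.gen ≃* (mapF F π i).gen := (mapEquiv π (k.symm ▸ s.LO)).trans (MulEquiv.subgroupCongr (mapF_gen π i).symm)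
  obtain ⟨M', U', o, hN, r⟩ := (s.s0 hπ k i).res h eL.symm.isSimpleGroup (hm.congr eL)
  have hM : TM M' := r.elim (fun ⟨j⟩ => hF.congr j.symm) fun ⟨j⟩ => ((hm.congr eL).prod (hm.congr eL)).congr j.symm
  have LC : F.gen ≤ 𝐂(O) := cent_symm s.OL
  obtain ⟨E, hE⟩ : ∃ E, E = 𝐂(O) ⊓ M'.comap π := ⟨_, rfl⟩
  have EM : E.map π = M' := by
    rw [hE, inf_comm, map_inf_of_ker_le π (ker_le_comap _ _), map_comap_eq_self_of_surjective hπ]
    exact inf_eq_left.2 (hN _ (Normal.map inferInstance π hπ) (mapF_gen π i ▸ map_mono LC))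
  have LE : F.gen ≤ E := hE ▸ le_inf LC (map_le_iff_le_comap.1 (mapF_gen π i ▸ o.LM))
  have tE : t ∈ 𝐍(E) := hE ▸ norm_inf (zpowers_le.2 (le_normalizer_of_normal (mem_top t)))
    (zpowers_le.2 (le_normalizer_comap π o.tM)) (mem_zpowers t)
  have j : ∀ x ∈ ⁅E, E⁆, π x = 1 → x = 1 := fun x hx e => by
    obtain ⟨x, hx', rfl⟩ := (map_subtype_commutator E).ge hx
    exact congrArg _ (hM.inj (π := (π.comp E.subtype).codRestrict M' fun y => EM.le ⟨y, y.2, rfl⟩)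
      (fun y => let ⟨z, hz, e⟩ := EM.ge y.2; ⟨⟨z, hz⟩, Subtype.ext e⟩)
      (fun y hy => mem_center_iff.2 fun z => Subtype.ext (mC.1 (hE.le z.2).1 _ (k.le (congrArg Subtype.val hy)))) hx'
      (Subtype.ext e))
  have MM : ⁅E, E⁆.map π = M' := by rw [map_commutator, EM, ← map_subtype_commutator, hM.1, Core.map_subtype_top]
  have LM : F.gen ≤ ⁅E, E⁆ := by
    rw [← Core.map_subtype_top F.gen, ← hm.1, map_subtype_commutator]; exact commutator_mono LE LE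
  have tM : t ∈ 𝐍(⁅E, E⁆) := norm_comm (zpowers_le.2 tE) (zpowers_le.2 tE) (mem_zpowers t)
  generalize ⁅E, E⁆ = M at j MM LM tM
  have j' : ∀ W, M ⊓ W ⊓ π.ker = ⊥ := fun W => eq_bot_iff.2 fun x hx => j x hx.1.1 hx.2
  have up : ∀ W ≤ M', (M ⊓ W.comap π).map π = W := fun W hW => le_antisymm (map_le_iff_le_comap.2 inf_le_right) fun y hy =>
    let ⟨x, hx, e⟩ := MM.ge (hW hy); ⟨x, ⟨hx, mem_comap.2 (e.symm ▸ hy)⟩, e⟩
  obtain ⟨Y, hY, cY, nY⟩ := o.Y
  refine ⟨M, M ⊓ U'.comap π, ⟨(pgroup_of_le o.pU (up _ o.UM).le).of_equiv (mapEquiv π (j' _)).symm, inf_le_left, LM,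
    le_inf (s.syl.le.trans LM) (map_le_iff_le_comap.1 (MonoidHom.map_range π F.e ▸ o.SU)), tM,
    norm_inf (zpowers_le.2 tM) (zpowers_le.2 (le_normalizer_comap π o.tU)) (mem_zpowers t), fun u hu e => ?_,
    M ⊓ Y.comap π, inf_le_inf_left _ (comap_mono hY), fun u hu => mC.2 fun y hy => cjf.1 (mul_inv_eq_one.1 (j _
      (mul_mem (mul_mem (mul_mem hu.1 hy.1) (inv_mem hu.1)) (inv_mem hy.1)) ?_)), ?_⟩,
    r.congr eL.symm ((mapEquiv π (eq_bot_iff.2 fun x hx => j x hx.1 hx.2)).trans (MulEquiv.subgroupCongr MM))⟩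
  · obtain ⟨w, hw, e⟩ := o.lang _ hu.2 (by simpa using congrArg π e)
    obtain ⟨w, hw', rfl⟩ := (up _ o.UM).ge hw
    have := j _ (mul_mem (mul_mem (conj_mem_of_norm' tM hw'.1) (M.inv_mem hw'.1)) (inv_mem hu.1)) (by
      simp only [map_mul, map_inv, mul_assoc (π t)⁻¹, e]; group)
    exact ⟨w, hw', by rw [← mul_inv_eq_one.1 this]; group⟩
  · simpa [mul_inv_eq_one, cjf] using mC.1 (cY hu.2) _ hy.2
  · rwa [Nat.card_congr (mapEquiv π (j' _)).toEquiv, up _ (hY.trans o.UM)]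

/-- `𝐂[t] ≤ 𝐍(O)` (`O` is the set of elements of odd order of `𝐂[t] ⊓ 𝐂(L)`, see GSt/SL `S1.norm`).  `X = QG O`,
`π = qhom O` (BG/Quo).  `F.pull` (RF4/Cent; or `Full.lift` field by field, which keeps `e`) gives `F₀ : Full K L` with
`F₀.map L.subtype = F`; `F' = F₀.map (π ∘ inclusion)` (injective: `L ⊓ O ≤ Z(L) = 1`, `F.center`).  If `π x` commutes with
`π t` then `x t x⁻¹ = t o` with `o² = 1`, so `x ∈ 𝐂[t]`; if moreover `π x` centralizes `π L` then `⁅x, L⁆ ≤ L ⊓ O = 1`.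
This gives `S0 F' (π t)`; take `M', U'` from `S0.res`; `TM M'` by `TM.congr`, `TM.prod`.  `E = 𝐂(O) ⊓ π⁻¹ M'`; `π (𝐂(O))` is
normal in `X` and contains `π L`, so `π E = M'`, with kernel `≤ Z(E)`.  `M = ⁅E, E⁆`: `π` is injective on `M` (`TM.inj`), onto
`M'` (perfect); `L = ⁅L, L⁆ ≤ M`; `t` normalizes `E`.  `U = M ⊓ π⁻¹ U'`, `Y = M ⊓ π⁻¹ Y'`. -/
theorem S1.res (s : S1 F t O) (h : Twisted.IsF4 m S φ σ) (hs : IsSimpleGroup F.gen) (hm : TM F.gen)
    (hF : TM (chevF4.group K)) : ∃ M U, Out F t M U ∧ Res K F.gen M := by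
  have i := (𝐍(O)).subtype_injective
  obtain ⟨F, rfl⟩ : ∃ F₀ : Full K 𝐍(O), F₀.map _ i = F := ⟨resF F (norm_of_cent (cent_symm s.OL)), rfl⟩
  obtain ⟨t, rfl⟩ : ∃ t₀ : 𝐍(O), (𝐍(O)).subtype t₀ = t := ⟨⟨t, cent_le_norm _ (le_cent1_iff.1 s.Ot)⟩, rfl⟩
  have e : F.gen ≃* (F.map _ i).gen := (F.gen.equivMapOfInjective _ i).trans (MulEquiv.subgroupCongr (F.map_gen _ i).symm)
  have : (O.comap (𝐍(O)).subtype).Normal := normal_in_normalizer
  obtain ⟨M, U, o, r⟩ := (s.comap i (range_subtype _).ge).res' h e.isSimpleGroup (hm.congr e.symm) hF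
  exact ⟨_, _, o.map i, r.congr e (M.equivMapOfInjective _ i).symm⟩

end Cfsg.Lib.SF4
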