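import Cfsg.Agent.Lib.SF4.W

/-!
# S3323: the commutator relations of the big root groups
-/

set_option autoImplicit false

namespace Cfsg.Lib.SF4

open Subgroup Cfsg.Lib.BG Cfsg.Lib.Transfer Cfsg.Lib.GW Cfsg.Lib.RF4 Cfsg.Lib.RF4.V

variable {K : Type*} [Field K] [Tw K] {G : Type*} [Group G] {F : Full K G} {t g : G} {X X5 : K × K → G}
  {p q p' q' a b c a' b' c' : K × K} {β l m : K}

local notation:max "X₆ " p:max => F.cs (X p)
local notation:max "X₂ " p:max => F.cr (F.cs (X p))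
local notation:max "X₈ " p:max => F.cs (F.cr (F.cs (X p)))
local notation "D" => D5 F X X5

/-- The twist on the parameters. -/
def sgp (β : K) (p : K × K) : K × K := (σ p.1 + β * σ p.2, σ p.2)

/-- The product of parameters. -/
def ml (l : K) (p q : K × K) : K × K := (p.1 * q.1 + l * (p.2 * q.2), p.1 * q.2 + p.2 * q.1 + p.2 * q.2)

/-- The twisted product of parameters. -/
def b4 (β l m : K) (p q : K × K) : K × K := ml l p (sgp β q) + (m * (p.2 * σ q.2), 0)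

/-- Identities between pairs. -/
scoped macro "pr2" : tactic => `(tactic| ((try simp only [b4, ml, sgp]); pq))

theorem V28 {v : V K} {n : K} (n0 : n ≠ 0) (n1 : n ≠ 1) (hv : v ∈ R) (h1 : v * x5 1 = x5 1 * v) (h2 : v * y4 1 = y4 1 * v)
    (h3 : v * y4 n = y4 n * v) (h4 : v * y6 1 = y6 1 * v) :
    ∃ a b c, v = x2 v.c2 * x8 v.c8 * (x4 a * x5 b * x6 c) := by
  have := add_σ_ne n0 n1
  have k : v.b2 = 0 ∧ v.b8 = 0 := cent_x5.le (mc.2 h1)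
  have k1 := congrArg V.c4 h2
  have k2 := congrArg V.c4 h3
  have k3 := congrArg V.a5 h2
  have k4 := congrArg V.c6 h2
  have k5 := congrArg V.c4 h4
  refine ⟨v.c4, v.a5, v.c6, ?_⟩
  clear h1 h2 h3 h4
  dst v hv; vs at *; grind

theorem inv_arg {x B w z d e : G} (h : x * B * x⁻¹ = B⁻¹) (hB : B = w * d) (h1 : x * w * x⁻¹ = w * e)
    (h2 : Commute x d) (h3 : Commute w d) (h4 : Commute e d) (h5 : d * d = 1) (h6 : w * w = z) : z * e = 1 := by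
  rw [eq_inv_iff_mul_eq_one, hB, cjm, h1, cjf.2 h2] at h
  rw [← h6, ← mul_eq_one_comm.1 h, (h3.mul_left h4).symm.mul_mul_mul_comm, h5, mul_one, mul_assoc]

theorem cm_il {a : G} (h : a * a = 1) (b : G) : a * cm a b * a⁻¹ = (cm a b)⁻¹ := by
  rw [cm, ← mul_assoc, ← mul_assoc, ← mul_assoc, h, inv_eq_of_mul_eq_one_left h]
  simp [mul_assoc, inv_eq_of_mul_eq_one_left h]

theorem cm_ir (a : G) {b : G} (h : b * b = 1) : b * cm a b * b⁻¹ = (cm a b)⁻¹ := by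
  rw [cm, inv_eq_of_mul_eq_one_left h, mul_assoc, mul_assoc _ b, h]
  simp [mul_assoc, inv_eq_of_mul_eq_one_left h]

theorem cj_eq (x w : G) : x * w * x⁻¹ = cm x w * w := by rw [cm, inv_mul_cancel_right]

namespace WS

variable [Bg K] [Finite G] (s : WS F t X X5)
include s

theorem D_c8 (a b c q : K × K) : Commute (X₈ q) (D a b c) := s.D_s c b a ▸ (s.D_c2 c b a q).map F.cs

theorem D_sq (a b c : K × K) : D a b c * D a b c = 1 := by rw [← s.D_add]; simp [pp, D5, s.zero, s.zero5]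

theorem D_inv (a b c : K × K) : (D a b c)⁻¹ = D a b c := inv_eq_of_mul_eq_one_left (s.D_sq a b c)

theorem D_D (a b c a' b' c' : K × K) : Commute (D a b c) (D a' b' c') := by
  rw [commute_iff_eq, ← s.D_add, ← s.D_add, add_comm a, add_comm b, add_comm c]

theorem d8 (c : K) : X₈ (c, 0) = F.e (x8 c) := by rw [s.d2, F.cs_e (w := x8 c) (by vs) (by vs)]

theorem sq2 (p : K × K) : X₂ p * X₂ p = 1 := by rw [← map_mul, ← map_mul, s.sq, map_one, map_one]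

theorem B_l (h : cm (X₈ p) (X₂ q) = D a b c) (h' : cm (X₈ p') (X₂ q) = D a' b' c') :
    cm (X₈ (p + p')) (X₂ q) = D (a + a') (b + b') (c + c') := by
  rw [s.add, map_mul, map_mul, map_mul, cm_l, h, h', cjf.2 (s.D_c8 _ _ _ _), (s.D_D _ _ _ _ _ _).eq, s.D_add]

theorem B_r (h : cm (X₈ p) (X₂ q) = D a b c) (h' : cm (X₈ p) (X₂ q') = D a' b' c') :
    cm (X₈ p) (X₂ (q + q')) = D (a + a') (b + b') (c + c') := by
  rw [s.add, map_mul, map_mul, cm_r, h, h', cjf.2 (s.D_c2 _ _ _ _), s.D_add]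

theorem B_s (h : cm (X₈ p) (X₂ q) = D a b c) : cm (X₈ q) (X₂ p) = D c b a :=
  cm_symm (by rw [← s.D_s, ← h, map_cm, F.cs_cs]) (s.D_sq _ _ _)

theorem B_t (p q : K × K) : t * cm (X₈ p) (X₂ q) * t⁻¹ = cm (X₈ (τp p)) (X₂ (τp q)) := by
  rw [cj_cm, s.t2X, ← s.t2X p, map_mul, map_mul, map_inv, s.cs_t]

variable (x : ∀ c p, F.e (x8 c) * F.cr (F.cs (X p)) * (F.e (x8 c))⁻¹ =
  F.cr (F.cs (X p)) * D5 F X X5 (c • sgp β p) (c • p) (σ c • p))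
include x

theorem B1 (c : K) (q : K × K) : cm (X₈ (c, 0)) (X₂ q) = D (c • sgp β q) (c • q) (σ c • q) := by
  rw [s.d8, cm, x, cjf.2 (s.D_c2 _ _ _ _)]

theorem B2 (p q : K × K) : ∃ a b c e f, cm (X₈ p) (X₂ q) = F.e (x2 e * x8 f) * D a b c := by
  have c2 := fun a b c => commute_cm (s.D_c8 a b c p).symm (s.D_c2 a b c q).symm
  obtain ⟨a, b, c, e, ha, hb, hc⟩ : ∃ a b c, t * cm (X₈ p) (X₂ q) * t⁻¹ = cm (X₈ p) (X₂ q) * D a b c ∧
      a.2 = 0 ∧ b.2 = 0 ∧ c.2 = 0 := by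
    rw [s.B_t, show τp p = p + (p.2, 0) by pq, s.add, map_mul, map_mul, map_mul, cm_l, s.B1 x, cjf.2 (s.D_c8 _ _ _ _),
      show τp q = q + (q.2, 0) by pq, s.add, map_mul, map_mul, cm_r, s.B_s (s.B1 x _ _), cjf.2 (s.D_c2 _ _ _ _),
      ← mul_assoc, (c2 _ _ _).eq, mul_assoc, ← s.D_add]
    exact ⟨_, _, _, rfl, by simp [sgp, τp]; grind⟩
  have cD : ∀ a' b' c', Commute (cm (X₈ p) (X₂ q) * D (0, a.1) (0, b.1) (0, c.1)) (D a' b' c') := fun _ _ _ =>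
    (c2 _ _ _).symm.mul_left (s.D_D _ _ _ _ _ _)
  have cZ : ∀ a' b' c', Commute (cm (X₈ p) (X₂ q) * D (0, a.1) (0, b.1) (0, c.1)) (F.e (x4 a' * x5 b' * x6 c')) :=
    fun _ _ _ => s.D_e _ _ _ ▸ cD _ _ _
  obtain ⟨v, hv, e⟩ := s.C6 (g := cm (X₈ p) (X₂ q) * D (0, a.1) (0, b.1) (0, c.1)) (cjf.1 (by
      rw [cjm, e, s.D_t, mul_assoc, ← s.D_add]; congr 2 <;> pq)).symm
    (fun a => by simpa [show x5 (0 : K) = 1 from rfl, show x6 (0 : K) = 1 from rfl] using cZ a 0 0)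
    (by simpa [show x5 (0 : K) = 1 from rfl, show x4 (0 : K) = 1 from rfl] using cZ 0 0 1)
  replace e := e.resolve_right fun e => s.nt (by
    rw [← inv_mul_cancel_left (F.e v) t, ← e]
    exact (s.cE _ _).inv_left.mul_left (by simpa [D5, s.zero, s.zero5] using cD (0, 1) 0 0))
  have c2 : ∀ v ∈ Q, v.a7 = 0 → ∀ p, Commute (F.e v) (X₂ p) := fun v hv h p => cjf.1 (by rw [s.Q2 hv, h]; simp [s.zero])
  have k : ∀ w ∈ Q, w ∈ R → ρs w ∈ Q → w.a7 = 0 → w.b2 = 0 → (ρs w).a7 = 0 → v * w = w * v := fun w h1 h2 h3 h4 h5 h6 =>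
    F.ce (e ▸ (commute_cm (F.cs_e' h2 ▸ (c2 _ h3 h6 p).map F.cs) (c2 _ h1 h4 q)).symm.mul_left
      (cjf.1 (by rw [(s.wD _ _ _).cQ w h1, h5, show w.a1 = 0 from h2]; simp [s.zero])).symm)
  obtain ⟨n, n0, n1⟩ := ex_ω (K := K)
  obtain ⟨a', b', c', e'⟩ := V28 n0 n1 hv (F.ce (e ▸ by
      simpa [show x6 (0 : K) = 1 from rfl, show x4 (0 : K) = 1 from rfl] using cZ 0 1 0))
    (k _ (by vs) (by vs) (by vs) rfl rfl (by vs)) (k _ (by vs) (by vs) (by vs) rfl rfl (by vs))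
    (k _ (by vs) (by vs) (by vs) rfl rfl (by vs))
  rw [e', map_mul _ _ (_ * _), ← s.D_e, ← eq_mul_inv_iff_mul_eq, s.D_inv, mul_assoc, ← s.D_add] at e
  exact ⟨_, _, _, _, _, e⟩

theorem B3 {e f : K} (h : cm (X₈ p) (X₂ q) = F.e (x2 e * x8 f) * D a b c) : e * p.2 = 0 ∧ f * q.2 = 0 := by
  have c1 : Commute (F.e (x2 e * x8 f)) (D a b c) := by
    rw [map_mul, ← s.d2, ← s.d8]; exact (s.D_c2 _ _ _ _).mul_left (s.D_c8 _ _ _ _)
  have c2 : F.e (x2 e * x8 f) * F.e (x2 e * x8 f) = D (f * σ e, 0) (f * e, 0) (σ f * e, 0) := by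
    rw [s.D_e, ← map_mul]; congr 1; vq
  have z : D 0 0 0 = 1 := by simp [D5, s.zero, s.zero5]
  have h1 := inv_arg (cm_il (by rw [← map_mul, s.sq2, map_one]) _) h (by
    rw [map_mul, cjm, ← s.d2, ← s.d8, cj_eq, s.B_s (s.B1 x _ _),
      cjf.2 ((((s.comm p _).map F.cs).map F.cr).map F.cs), mul_assoc, ← ((s.D_c2 _ _ _ _).mul_left (s.D_c8 _ _ _ _)).eq])
    (s.D_c8 _ _ _ _) c1 (s.D_D _ _ _ _ _ _) (s.D_sq _ _ _) c2
  have h2 := inv_arg (cm_ir _ (s.sq2 q)) h (by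
    rw [map_mul, cjm, ← s.d2, ← s.d8, cjf.2 (((s.comm q _).map F.cs).map F.cr), cj_eq,
      cm_symm (s.B1 x _ _) (s.D_sq _ _ _), ← (s.D_c8 _ _ _ _).eq, mul_assoc])
    (s.D_c2 _ _ _ _) c1 (s.D_D _ _ _ _ _ _) (s.D_sq _ _ _) c2
  rw [← s.D_add, ← z] at h1 h2
  exact ⟨by simpa using congrArg Prod.snd (s.D_inj h1).2.1, by simpa using congrArg Prod.snd (s.D_inj h2).2.1⟩

theorem B4 : ∃ l m, ∀ p q, cm (X₈ p) (X₂ q) = D (b4 β l m p q) (ml l p q) (b4 β l m q p) := by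
  obtain ⟨u, v, w, e, f, h⟩ := s.B2 x (0, 1) (0, 1)
  obtain ⟨h1, h2⟩ := s.B3 x h
  rw [mul_one] at h1 h2
  rw [h1, h2, show x2 (0 : K) * x8 0 = 1 by vs, map_one, one_mul] at h
  obtain rfl := (s.D_inj (h.symm.trans (s.B_s h))).1
  have h3 := s.B_t (0, 1) (0, 1)
  rw [h, s.D_t, show τp ((0, 1) : K × K) = (1, 0) + (0, 1) by pq,
    s.B_l (s.B1 x _ _) (s.B_r (s.B_s (s.B1 x _ _)) h)] at h3
  obtain ⟨h4, h5, -⟩ := s.D_inj h3
  replace h4 := congrArg Prod.fst h4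
  replace h5 := congrArg Prod.fst h5
  simp [τp, sgp] at h4 h5
  refine ⟨v.1, u.1 + v.1, fun p q => ?_⟩
  have := s.B_l (q := (q.1, 0) + (0, q.2)) (s.B1 x p.1 _) (s.B_r (s.B_s (s.B1 x q.1 (0, p.2))) (q' := (0, q.2)) (a' := (p.2 * σ q.2) • u)
    (b' := (p.2 * q.2) • v) (c' := (σ p.2 * q.2) • u) (by
    rcases eq_or_ne p.2 0 with h | hp
    · simp [h, cm, D5, s.zero, ← Prod.zero_eq_mk, s.zero5]
    rcases eq_or_ne q.2 0 with h | hq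
    · simp [h, cm, D5, s.zero, ← Prod.zero_eq_mk, s.zero5]
    obtain ⟨a, ha⟩ := nm_surj p.2
    obtain ⟨b, hb⟩ := nm_surj q.2
    have a0 : a ≠ 0 := mt nm_zero.2 (ha ▸ hp)
    have b0 : b ≠ 0 := mt nm_zero.2 (hb ▸ hq)
    have h8 := map_cj F.cs (s.h2 (ws (.mk0 b b0 / .mk0 a a0, .mk0 a a0)) (0, 1))
    have h := congrArg (fun x => F.h (.mk0 b b0 / .mk0 a a0, .mk0 a a0) * x * (F.h (.mk0 b b0 / .mk0 a a0, .mk0 a a0))⁻¹) h
    simp only [cj_cm, s.D_h, s.h2, w4_2, F.cs_h, ws_ws] at h h8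
    have a1 := mt σ_eq_zero.1 a0
    rw [h8] at h
    convert h using 3 <;> simp [← ha, ← hb, w4, w5, ws, a0, b0] <;> field_simp))
  convert this using 3
  · simp
  · simp
  all_goals pr2

theorem b83 (h : ∀ p q, cm (X₈ p) (X₂ q) = D (b4 β l m p q) (ml l p q) (b4 β l m q p)) (p q : K × K) :
    cm (X₈ p) (F.cr (X5 q)) = X₆ (ml l p q) := by
  obtain ⟨a, e⟩ := s.y82 q
  have h1 := cj_cm (F.e (y8 1)) (X₈ p) (X₂ q)
  have h2 := map_cj F.cs (s.Q2 (v := y2 1) (by vs) p)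
  have h3 := map_cj F.cs ((s.wD (b4 β l m q p) (ml l p q) (b4 β l m p q)).cQ (y2 1) (by vs))
  rw [F.cs_e (w := y8 1) (by vs) (by vs), map_mul] at h2 h3
  simp only [y2, zero_smul, one_smul, zero_add, add_zero, s.zero, map_one, mul_one, s.D_s] at h2 h3
  rw [e, h2, cm_r, cm_r, cm_one.2 (s.D_c8 _ _ _ _), h, h3, mul_one, mul_inv_cancel, mul_one, mul_right_inj] at h1
  rw [← cj_fix (s.c26 q (ml l p q)), h1, cj_fix']

omit x

theorem sh1 (p : K × K) : F.sh' 1 (X p) = X₆ p := by rw [F.cs_apply, F.s_eq, ← F.cr_apply, s.crX]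

theorem shm (p : K × K) : F.sh' (-1) (X p) = X₂ p := by rw [← s.sh1, F.cr_apply, F.r_sh', ← F.cr_apply, s.crX]

theorem sh2 (p : K × K) : F.sh' 2 (X p) = X₈ p := by
  rw [← s.shm, F.cs_apply, F.s_sh', ← F.cr_apply, s.crX]; rfl

theorem shm5 (p : K × K) : F.sh' (-1) (X5 p) = F.cr (X5 p) := by
  nth_rw 1 [← s.s5]
  rw [F.cs_apply, F.s_eq, F.sh'_add, neg_add_cancel, F.sh'_zero, F.cr_apply]

theorem iso (h : ∀ p q, cm (X₈ p) (X₂ q) = D (b4 β l m p q) (ml l p q) (b4 β l m q p)) {f8 f2 : K × K → K × K}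
    (h8 : ∀ u, g * X₈ u * g⁻¹ = X₈ (f8 u)) (h2 : ∀ u, g * X₂ u * g⁻¹ = X₂ (f2 u))
    (k8 : ∀ (a : K) u, f8 (a • u) = a • f8 u) (k2 : ∀ (a : K) u, f2 (a • u) = a • f2 u) (p q : K × K) :
    g * X (b4 β l m p q) * g⁻¹ = X (b4 β l m (f8 p) (f2 q)) := by
  obtain ⟨n, n0, n1⟩ := ex_ω (K := K)
  have k : ∀ p q, X (b4 β l m (((n + σ n) * (n + n * n)) • p) q) = cm (X₈ ((n * n) • p)) (X₂ q) *
      cm (X₈ (n • p)) (X₂ (n • q)) * cm (X₈ (n • p)) (X₂ (σ n • q)) * cm (X₈ p) (X₂ ((n * σ n) • q)) := fun p q => by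
    rw [h, h, h, h, ← s.D_add, ← s.D_add, ← s.D_add, ← one_mul (X _), ← s.D_X, show (1 : G) = D 0 0 0 by
      simp [D5, s.zero, s.zero5]]
    congr 2 <;> pr2
  have c0 : (n + σ n) * (n + n * n) ≠ 0 := mul_ne_zero (add_σ_ne n0 n1) (by grind)
  rw [← smul_inv_smul₀ c0 p, k8, k, k]
  simp only [cjm, cj_cm, h8, h2, k8, k2]

theorem ex_h (h : ∀ p q, cm (X₈ p) (F.cr (X5 q)) = X₆ (ml l p q)) {p p' : K × K} (e : ∀ q, ml l (ml l q p') p = q)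
    (e' : ∀ q, ml l (ml l q p) p' = q) : ∃ n, F.cs n = n ∧ (∀ q, n * X₈ q * n⁻¹ = F.sh' 3 (X (ml l q p'))) ∧
      ∀ q, n * F.sh' 3 (X q) * n⁻¹ = X₈ (ml l q p) := by
  have c1 : ∀ p q, Commute (X5 p) (X₈ q) := fun p q => s.s5 p ▸ (s.c25 q p).symm.map F.cs
  have c2 : ∀ p q, Commute (F.sh' 4 (X5 p)) (F.sh' 3 (X q)) := fun p q => by
    simpa only [← s.shm, F.sh'_add, Int.reduceNeg, Int.reduceAdd] using (s.c25 q p).symm.map (F.sh' 4)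
  have c3 : ∀ p q, Commute (X₈ p) (F.sh' 3 (X q)) := fun p q => by
    have := (s.c46 p q).map (F.sh' 2)
    rwa [← s.sh1, F.sh'_add, s.sh2] at this
  have q8 : ∀ p, X₈ p * X₈ p = 1 := fun p => by rw [← map_mul, s.sq2, map_one]
  have q3 : ∀ p, F.sh' 3 (X p) * F.sh' 3 (X p) = 1 := fun p => by rw [← map_mul, s.sq, map_one]
  have h1 : ∀ p q, X5 p * F.sh' 3 (X q) * (X5 p)⁻¹ = X₈ (ml l q p) * F.sh' 3 (X q) := fun p q => by
    have := congrArg (F.sh' 1) (h q p)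
    rw [map_cm, ← s.shm5, ← s.sh2, ← s.sh1, F.sh'_add, F.sh'_add, F.sh'_add, add_neg_cancel, F.sh'_zero] at this
    rw [cj_eq, ← s.sh2]
    exact congrArg (· * _) (cm_symm this (by rw [← map_mul, s.sq, map_one]))
  have h2 : ∀ p q, F.sh' 4 (X5 p) * X₈ q * (F.sh' 4 (X5 p))⁻¹ = F.sh' 3 (X (ml l q p)) * X₈ q := fun p q => by
    have := congrArg (fun x => F.sh' 4 (F.cr x)) (h q p)
    simp only [map_cm, F.cr_cr] at this
    rw [← s.sh2, ← s.shm, F.cr_apply (F.sh' _ _), F.r_sh', ← F.cr_apply, s.crX, F.sh'_add, F.sh'_add] at this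
    rw [← s.sh2, cj_eq]
    exact congrArg (· * _) (cm_symm this (q3 _))
  refine ⟨X5 p * F.sh' 4 (X5 p') * X5 p, ?_, fun q => ?_, fun q => ?_⟩
  · rw [map_mul, map_mul, s.s5, F.cs_apply, F.s_sh', ← F.cr_apply, ← s.shm5, F.sh'_add, ← F.sh'_per]; rfl
  · calc _ = X5 p * (F.sh' 4 (X5 p') * (X5 p * X₈ q * (X5 p)⁻¹) * (F.sh' 4 (X5 p'))⁻¹) * (X5 p)⁻¹ := by group
      _ = _ := by rw [cjf.2 (c1 _ _), h2, cjm, h1, cjf.2 (c1 _ _), e, (c3 _ _).eq, mul_assoc, q8, mul_one]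
  · calc _ = X5 p * (F.sh' 4 (X5 p') * (X5 p * F.sh' 3 (X q) * (X5 p)⁻¹) * (F.sh' 4 (X5 p'))⁻¹) * (X5 p)⁻¹ := by group
      _ = _ := by
        rw [h1, cjm (F.sh' 4 _), h2, cjf.2 (c2 _ _), e', ← (c3 _ _).eq, mul_assoc (X₈ _), q3, mul_one, cjf.2 (c1 _ _)]

theorem eqs (x : ∀ c p, F.e (x8 c) * X₂ p * (F.e (x8 c))⁻¹ = X₂ p * D (c • sgp β p) (c • p) (σ c • p))
    (h : ∀ p q, cm (X₈ p) (X₂ q) = D (b4 β l m p q) (ml l p q) (b4 β l m q p)) {k : K} (hk : k ^ 2 + k + l ≠ 0) :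
    l = β + σ β ∧ m * (k + σ k + β) = 0 := by
  obtain ⟨n, hn⟩ := ex_mul hk 1
  obtain ⟨n1, a1, a2, a3⟩ := s.ex_h (s.b83 x h) (p := (k, 1)) (p' := n • (k + 1, 1)) (fun q => by pr2) fun q => by pr2
  obtain ⟨n2, b1, b2, b3⟩ := s.ex_h (s.b83 x h) (p := (1, 0)) (p' := (1, 0)) (fun q => by pr2) fun q => by pr2
  have e1 : ∀ q, ml l q (1, 0) = q := fun q => by pr2
  have cj : ∀ x, n1 * n2 * x * (n1 * n2)⁻¹ = n1 * (n2 * x * n2⁻¹) * n1⁻¹ := fun x => by group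
  have h8 : ∀ q, n1 * n2 * X₈ q * (n1 * n2)⁻¹ = X₈ (ml l q (k, 1)) := fun q => by rw [cj, b2, a3, e1]
  have h10 : ∀ q, n1 * n2 * F.sh' 3 (X q) * (n1 * n2)⁻¹ = F.sh' 3 (X (ml l q (n • (k + 1, 1)))) := fun q => by
    rw [cj, b3, a2, e1]
  have hs : F.cs (n1 * n2) = n1 * n2 := by rw [map_mul, a1, b1]
  generalize n1 * n2 = g at *
  have h2 : ∀ q, g * X₂ q * g⁻¹ = X₂ (ml l q (k, 1)) := fun q => by simpa only [hs, F.cs_cs] using map_cj F.cs (h8 q)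
  have h4 := s.iso h h8 h2 (fun a u => by pr2) fun a u => by pr2
  have e2 : ∀ q, b4 β l m q (1, 0) = q := fun q => by pr2
  have h4' := fun q => e2 q ▸ h4 q (1, 0)
  have h5 := s.inj' ((h4 (1, 0) (0, 1)).symm.trans (h4' _))
  have h6 := s.iso h (g := F.sh' (-1) g) (fun q => by
      simpa only [F.sh'_add, ← s.sh2, Int.reduceNeg, Int.reduceAdd] using map_cj (F.sh' (-1)) (h10 q))
    (fun q => by simpa only [s.shm] using map_cj (F.sh' (-1)) (h4' q)) (fun a u => by pr2) (fun a u => by pr2) (k, 1) (1, 0)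
  have h7 := map_cj (F.sh' (-1)) (map_cj F.cs (h4' (k, 1)))
  rw [hs, ← s.sh1, ← s.sh1, F.sh'_add, F.sh'_add, neg_add_cancel, F.sh'_zero, F.sh'_zero, ← e2 (k, 1), h6, e2,
    show ml l (k, 1) (n • (k + 1, 1)) = (1, 0) by pr2] at h7
  have h8 := congrArg Prod.snd (s.inj' h7)
  have h9 := congrArg Prod.fst h5
  simp [b4, ml, sgp] at h8 h9
  have h10 : l = β + σ β := by grind
  have := congrArg σ h10
  simp only [map_add, σσ] at this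
  exact ⟨h10, by grind⟩

end WS

end Cfsg.Lib.SF4
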