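import Cfsg.Agent.Lib.SF4.StB

/-!
# S3323: step 0 (`t ~ t z`) and the structure of `C(L ⟨t⟩)`

Notation: `L = F.gen`, `S = F.e.range`, `z = F.e (x4 1)`, `x = F.e (x5 1)`; API in SF4/Bas, Def, StB, RF4/V (tactics `vs`, `vp`,
`dst`).  Template: GSt/SL (`long`, `short`, `step0`, `s1`).
-/

set_option autoImplicit false

namespace Cfsg.Lib.SF4

open Subgroup Cfsg.Lib.BG Cfsg.Lib.Transfer Cfsg.Lib.GW Cfsg.Lib.RF4 Cfsg.Lib.RF4.V

variable {K : Type*} [Field K] [Tw K] [Bg K] {G : Type*} [Group G] [Finite G] {F : Full K G} {t g : G}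

theorem norm_of_syl {P N : Subgroup G} (h : Syl 2 (g ⋆ P) N) (hP : IsPGroup 2 P) (hN : P ≤ N) :
    ∃ k ∈ N, k * g ∈ 𝐍(P) := by
  obtain ⟨k, hk, e⟩ := h.exists_le_conj hP hN
  rw [conj_conj] at e
  exact ⟨k, hk, norm_of_conj_eq (eq_of_le_of_card_ge e (card_conj _ _).le).symm⟩

omit [Finite G] in
theorem St.rm {F' : Full K G} (S : St F' t) {x : K → V K} (hx : ∀ a, Commute (F.e (x a)) t)
    (sq : ∀ a, F.e (x a * x a) ∈ F'.gen) (add : ∀ a b, F.e ((x (a + b))⁻¹ * (x a * x b)) ∈ F'.gen)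
    (tr : ∀ ν : Kˣ, ∃ l, Commute (F.h l) t ∧ tor l (x 1) = x ν) (a : K) : F.e (x a) ∈ F'.gen :=
  root_mem (M := 𝐂[t]) (x := fun a => F.e (x a)) (fun g hg => S.cn g (mc.1 hg))
    (fun _ hu _ hv => S.two (mc.1 hu) (mc.1 hv)) (fun a => mc.2 (hx a)) (by simpa using sq)
    (by simpa using add) (fun ν h => let ⟨l, h1, h2⟩ := tr (.mk0 ν h); ⟨_, mc.2 h1, by rw [F.he, h2]; rfl⟩) a

omit [Finite G] in
theorem St.rm' {F' : Full K G} (S : St F' t) {x : K → V K} (hx : ∀ a, Commute (F.e (x a)) t)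
    (add : ∀ a b, x a * x b = x (a + b)) (z : x 0 = 1)
    (tr : ∀ ν : Kˣ, ∃ l, Commute (F.h l) t ∧ tor l (x 1) = x ν) (a : K) : F.e (x a) ∈ F'.gen :=
  S.rm hx (fun a => by rw [add, CharTwo.add_self_eq_zero, z, map_one]; exact one_mem _)
    (fun a b => by rw [add, inv_mul_cancel, map_one]; exact one_mem _) tr a

theorem u_σ (ν : Kˣ) : ∃ μ : Kˣ, σ (μ : K) = ν :=
  let ⟨a, e⟩ := σ_surj (ν : K); ⟨.mk0 a (by rintro rfl; exact ν.ne_zero (by simpa using e.symm)), e⟩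

theorem u_nm (ν : Kˣ) : ∃ μ : Kˣ, μ * σ (μ : K) = ν :=
  let ⟨a, e⟩ := nm_surj (ν : K); ⟨.mk0 a (by rintro rfl; exact ν.ne_zero (by simpa using e.symm)), e⟩

namespace St

variable (s : St F t)
include s

/-- `s' = g t g⁻¹`, `L' = g ⋆ L` (`s.conj g`), `M = 𝐂[s'] ≤ 𝐍(L')` contains `F.C` (`C_Z`).  `root_mem` (with `St.two` of
`s.conj g`, transitivity from `T4_ex_fst`, `T4_ex_snd`, `l4`, `nm_surj`, `σ_surj`) for `x1`, `x8`, then `y8`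
(`y8 a * y8 b = y8 (a + b) * x8 (a σ b)`); `gen18` applied to `L'.comap F.e` gives `S ≤ L'`.  So `s' ≠ z` (`not_mem`), and `S`,
`g ⋆ S` are Sylow in `L'`: `k ∈ L'` with `k g ∈ 𝐍(S)`; `k` centralizes `s'`. -/
theorem long (h : g * t * g⁻¹ = F.e (x4 1) ∨ g * t * g⁻¹ = t * F.e (x4 1)) :
    ∃ g ∈ 𝐍(F.e.range), g * t * g⁻¹ = t * F.e (x4 1) := by
  have S := s.conj g
  have c : ∀ y ∈ F.C, Commute y (g * t * g⁻¹) := fun y hy => by
    rcases h with h | h <;> rw [h]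
    exacts [F.C_Z hy 1, (s.tL y hy.1).symm.mul_right (F.C_Z hy 1)]
  have ce := fun v => c _ (F.eC v)
  have h8 := S.rm' (x := x8) (fun _ => ce _) (fun _ _ => by vp) rfl fun ν => by
    obtain ⟨μ, e⟩ := u_nm ν
    obtain ⟨l, hl, rfl⟩ := T4_ex_snd μ
    exact ⟨l, c _ (F.hC ⟨l, hl⟩), by vs; exact e⟩
  have hS : F.e.range ≤ (cjF F g).gen := by
    have := gen18 (N := (cjF F g).gen.comap F.e) (S.rm' (x := x1) (fun _ => ce _) (fun _ _ => by vp) rfl fun ν => by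
      obtain ⟨l, hl, rfl⟩ := T4_ex_fst ν
      exact ⟨l, c _ (F.hC ⟨l, hl⟩), by vs⟩) (S.rm (x := y8) (fun _ => ce _)
      (fun a => (show x8 (a * σ a) = y8 a * y8 a by vp) ▸ h8 _)
      (fun a b => (show x8 (a * σ b) = (y8 (a + b))⁻¹ * (y8 a * y8 b) by vp) ▸ h8 _) fun ν => by
      obtain ⟨l, hl, rfl⟩ := T4_ex_snd ν
      exact ⟨l, c _ (F.hC ⟨l, hl⟩), by vs⟩)
    rintro _ ⟨v, rfl⟩
    exact this.ge (mem_top v)
  obtain ⟨k, hk, e⟩ := norm_of_syl (cjF_range F g ▸ S.syl) F.pS hS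
  refine ⟨_, e, .trans ?_ (h.resolve_left fun e => S.not_mem (e ▸ hS ⟨_, rfl⟩))⟩
  rw [← cjf.2 (S.tL k hk).symm]; group

/-- `M = 𝐂[s'] ≤ 𝐍(L')` contains `X1.map F.e` (`cent_x5`), `F.h (l5 μ)` and `F.s`.  Weights of `l5 μ`: `x1 : μ⁻²`,
`x2 : (μ σ μ)⁻¹`, `x3 : σ μ⁻¹`, `y4 : μ / σ μ` (solve with `μ = (ν σ ν)⁻¹`), `x4 : μ⁻¹`; all are onto.  `root_mem` for
`x1, x2, x3, x4`, then `y4`; conjugating by `F.s` gives `x8, x7, x6, y6`; `x5 = cm y6 y4`; so `X1.map F.e ≤ L'` and `s' = t x`.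
`t = s' x`, `cls` in `L'`: `k x k⁻¹ = g z g⁻¹` gives `t ~ t z`.  Otherwise `g₁ = k⁻¹ g` swaps `t` and `t x` and fixes `x`;
`syl5` for `F` and `cjF F g₁` gives `k' ∈ L' ⊓ 𝐂[x]` with `g₂ = k' g₁ ∈ 𝐍(X1.map F.e)`; `N5`: `g₂ z g₂⁻¹ = x4 c`;
`t x z = y2 1 (t x) (y2 1)⁻¹` and `g₂ (t x z) g₂⁻¹ = t x4 c ~ t z` (`w4_surj`). -/
theorem short (h : g * t * g⁻¹ = F.e (x5 1) ∨ g * t * g⁻¹ = t * F.e (x5 1)) : ∃ g, g * t * g⁻¹ = t * F.e (x4 1) := by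
  have S := s.conj g
  have c : ∀ y ∈ F.gen, Commute y (F.e (x5 1)) → Commute y (g * t * g⁻¹) := fun y hy k => by
    rcases h with h | h <;> rw [h]
    exacts [k, (s.tL y hy).symm.mul_right k]
  have c5 : ∀ v ∈ X1, Commute (F.e v) (F.e (x5 1)) := fun v hv => F.ec (mem_cent1.1 (cent_x5.ge hv))
  have ce := fun v hv => c _ (F.e_mem v) (c5 v hv)
  have ch : ∀ μ, Commute (F.h (l5 μ)) (g * t * g⁻¹) := fun μ => c _ (F.h_mem _) (cjf.1 (by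
    have := μ.ne_zero
    have := mt σ_eq_zero.1 this
    rw [F.he]; congr 1; vs; simp [l5]; field_simp))
  have cs : F.s ∈ 𝐍((cjF F g).gen) := S.cn _ (c _ F.s_mem (cjf.1 (by rw [F.se _ (by vs)]; congr 1; vs)))
  have h1 := S.rm' (x := x1) (fun _ => ce _ (by vs)) (fun _ _ => by vp) rfl fun ν => by
    obtain ⟨μ, e⟩ := u_σ ν⁻¹
    obtain ⟨μ', e'⟩ := u_σ μ
    exact ⟨_, ch μ', by vs; rw [← e', σσ] at e; simp [l5, e]⟩
  have h2 := S.rm' (x := x2) (fun _ => ce _ (by vs)) (fun _ _ => by vp) rfl fun ν => by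
    obtain ⟨μ, e⟩ := u_nm ν⁻¹
    have := μ.ne_zero
    have := mt σ_eq_zero.1 this
    refine ⟨_, ch μ, by vs; rw [← inv_inv (ν : K), ← Units.val_inv_eq_inv_val, ← e]; simp [l5]; field_simp⟩
  have h3 := S.rm' (x := x3) (fun _ => ce _ (by vs)) (fun _ _ => by vp) rfl fun ν => by
    obtain ⟨μ, e⟩ := u_σ ν⁻¹
    have := μ.ne_zero
    have := mt σ_eq_zero.1 this
    refine ⟨_, ch μ, by vs; rw [← inv_inv (ν : K), ← Units.val_inv_eq_inv_val, ← e]; simp [l5]; field_simp⟩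
  have h4 := S.rm' (x := x4) (fun _ => ce _ (by vs)) (fun _ _ => by vp) rfl fun ν => by
    have := ν.ne_zero
    have := mt σ_eq_zero.1 this
    refine ⟨_, ch ν⁻¹, by vs; simp [l5]; field_simp⟩
  have h4' := S.rm (x := y4) (fun _ => ce _ (by vs))
    (fun a => (show x4 (a * σ a) = y4 a * y4 a by vp) ▸ h4 _)
    (fun a b => (show x4 (a * σ b) = (y4 (a + b))⁻¹ * (y4 a * y4 b) by vp) ▸ h4 _) fun ν => by
    have := ν.ne_zero
    have := mt σ_eq_zero.1 this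
    refine ⟨_, ch (ν * σu ν)⁻¹, by vs; simp [l5]; field_simp⟩
  have k : ∀ {v w : V K}, v ∈ R → ρs v = w → F.e v ∈ (cjF F g).gen → F.e w ∈ (cjF F g).gen := fun hv e h =>
    e ▸ F.se _ hv ▸ conj_mem_of_norm cs h
  have h6' : ∀ a, F.e (y6 a) ∈ _ := fun a => k (by vs) (by vs) (h4' a)
  have hX : X1.map F.e ≤ (cjF F g).gen := by
    rintro _ ⟨v, hv : v ∈ X1, rfl⟩
    have h5 : F.e (x5 v.a5) ∈ (cjF F g).gen := by
      rw [show x5 v.a5 = cm (y6 v.a5) (y4 1) by vp, map_cm]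
      exact mul_mem (mul_mem (mul_mem (h6' _) (h4' _)) (inv_mem (h6' _))) (inv_mem (h4' _))
    rw [show v = x1 v.a1 * x2 v.c2 * x3 v.a3 * y4 v.b4 * x4 v.c4 * x5 v.a5 * y6 v.b6 * x6 v.c6 * x7 v.a7 * x8 v.c8 by
      clear * - hv; dst v hv; vs]
    simp only [map_mul]
    exact mul_mem (mul_mem (mul_mem (mul_mem (mul_mem (mul_mem (mul_mem (mul_mem (mul_mem (h1 _) (h2 _)) (h3 _))
      (h4' _)) (h4 _)) h5) (h6' _)) (k (by vs) (by vs) (h4 v.c6))) (k (by vs) (by vs) (h3 v.a7)))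
      (k (by vs) (by vs) (h2 v.c8))
  have hx : F.e (x5 1) ∈ (cjF F g).gen := hX ⟨_, show _ ∈ X1 by vs, rfl⟩
  have x2 : F.e (x5 1) * F.e (x5 1) = 1 := by rw [← map_mul, show x5 (1 : K) * x5 1 = 1 by vp, map_one]
  replace h := h.resolve_left fun e => S.not_mem (e ▸ hx)
  obtain ⟨k, hk, e⟩ := (cjF F g).cls S.syl hx x2 (mt (map_eq_one_iff _ F.inj).1 (by vs; simp))
  have hk' : k * t * k⁻¹ = g * t * g⁻¹ * (k * F.e (x5 1) * k⁻¹) := by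
    rw [← cjf.2 (S.tL k hk).symm, conj_mul, h, mul_assoc t, x2, mul_one]
  rcases e with e | e <;> rw [cjF_e] at e
  · exact ⟨g⁻¹ * k, by rw [show g⁻¹ * k * t * (g⁻¹ * k)⁻¹ = g⁻¹ * (k * t * k⁻¹) * g by group, hk', e]; group⟩
  have f1 : k⁻¹ * g * F.e (x5 1) * (k⁻¹ * g)⁻¹ = F.e (x5 1) := by
    rw [show k⁻¹ * g * F.e (x5 1) * (k⁻¹ * g)⁻¹ = k⁻¹ * (g * F.e (x5 1) * g⁻¹) * k by group, ← e]; group
  have sy := (F.syl5 s.syl).conj (k⁻¹ * g)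
  rw [conj_inf, conj_cent1, f1, ← conj_conj k⁻¹ g F.gen, ← cjF_gen,
    conj_eq_of_norm (le_norm _ (inv_mem hk))] at sy
  obtain ⟨k', hk', n⟩ := norm_of_syl sy (pgroup_of_le F.pS (map_le_range _ _))
    (le_inf hX ((F.syl5 s.syl).le.trans inf_le_right))
  obtain ⟨a, e4⟩ := F.N5 n
  have e5 : k' * (k⁻¹ * g) * F.e (x5 1) * (k' * (k⁻¹ * g))⁻¹ = F.e (x5 1) := by
    rw [show k' * (k⁻¹ * g) * F.e (x5 1) * (k' * (k⁻¹ * g))⁻¹ = k' * (k⁻¹ * g * F.e (x5 1) * (k⁻¹ * g)⁻¹) * k'⁻¹ by group, f1,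
      cjf.2 (mc.1 hk'.2)]
  have et : k' * (k⁻¹ * g) * t * (k' * (k⁻¹ * g))⁻¹ = t * F.e (x5 1) := by
    rw [← h, ← cjf.2 (S.tL _ (mul_mem hk'.1 (inv_mem hk))).symm]; group
  generalize k' * (k⁻¹ * g) = n at e4 e5 et
  have a0 : a ≠ 0 := by
    rintro rfl
    rw [show x4 (0 : K) = 1 from rfl, map_one, conj_eq_one_iff, map_eq_one_iff _ F.inj] at e4
    exact one_ne_zero (x4_inj.1 e4)
  obtain ⟨l, hl⟩ := w4_surj (inv_ne_zero a0)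
  have ey : F.e (y2 1) * (t * F.e (x5 1)) * (F.e (y2 1))⁻¹ = t * F.e (x5 1) * F.e (x4 1) := by
    rw [← conj_mul, cjf.2 (s.te _).symm, F.ej, mul_assoc t, ← map_mul]; congr 2; vp
  refine ⟨F.h l * n * F.e (y2 1) * n, ?_⟩
  rw [show F.h l * n * F.e (y2 1) * n * t * (F.h l * n * F.e (y2 1) * n)⁻¹ =
    F.h l * (n * (F.e (y2 1) * (n * t * n⁻¹) * (F.e (y2 1))⁻¹) * n⁻¹) * (F.h l)⁻¹ by group, et, ey, ← conj_mul (b := n),
    ← conj_mul (b := n), et, e5, e4, mul_assoc t, x2, mul_one, ← conj_mul, cjf.2 (s.th l).symm, F.he, tor_w4, hl,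
    inv_mul_cancel₀ a0]

/-- `inner`, `cls`, `long`, `short`. -/
theorem step0 (h1 : g * t * g⁻¹ ≠ t) (h2 : Commute (g * t * g⁻¹) t) :
    ∃ g ∈ 𝐍(F.e.range), g * t * g⁻¹ = t * F.e (x4 1) := by
  have u2 := sq_conj s.t2 g
  have key : ∀ l ∈ F.gen, l * l = 1 → l ≠ 1 → g * t * g⁻¹ = l ∨ g * t * g⁻¹ = t * l →
      ∃ g ∈ 𝐍(F.e.range), g * t * g⁻¹ = t * F.e (x4 1) := fun l hl l2 l1 e => by
    obtain ⟨k, hk, f⟩ := F.cls s.syl hl l2 l1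
    have e' : k * g * t * (k * g)⁻¹ = k * l * k⁻¹ ∨ k * g * t * (k * g)⁻¹ = t * (k * l * k⁻¹) := by
      rw [show k * g * t * (k * g)⁻¹ = k * (g * t * g⁻¹) * k⁻¹ by group]
      exact e.imp (fun e => by rw [e]) fun e => by rw [e, ← conj_mul, cjf.2 (s.tL k hk).symm]
    rcases f with f | f <;> rw [f] at e'
    · exact s.long e'
    · exact let ⟨_, e⟩ := s.short e'; s.long (.inr e)
  rcases s.inner h2 (u2 ▸ one_mem _) with h | h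
  · exact key _ h u2 (s.conj g).t1 (.inl rfl)
  · exact key _ h (by rw [h2.symm.mul_mul_mul_comm, u2, s.t2, mul_one])
      (fun e => h1 ((eq_inv_of_mul_eq_one_left e).trans s.ti))
      (.inr (by rw [h2.eq, ← mul_assoc t, s.t2, one_mul]))

/-- As GSt/SL `s1`: `g` from `step0`, `O = 𝐂[t] ⊓ 𝐂(L) ⊓ (𝐂[t z] ⊓ 𝐂(g ⋆ L))` has no involution (`kinv` twice).
`k ∈ 𝐂[t] ⊓ 𝐂(L)` centralizes `t z` and `S = g ⋆ S`, so `k² ∈ O` by `CS` for `cjF F g`. -/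
theorem s1 (h1 : g * t * g⁻¹ ≠ t) (h2 : Commute (g * t * g⁻¹) t) : ∃ O, S1 F t O := by
  obtain ⟨g, hg, h⟩ := s.step0 h1 h2
  have S := s.conj g
  let O := 𝐂[t] ⊓ 𝐂(F.gen) ⊓ (𝐂[g * t * g⁻¹] ⊓ 𝐂((cjF F g).gen))
  have o : Odd (Nat.card O) := Nat.not_even_iff_odd.1 fun e => by
    obtain ⟨k, p⟩ := exists_prime_orderOf_dvd_card' 2 e.two_dvd
    have k2 : k.1 * k = 1 := by rw [← sq, ← coe_pow, ← p, pow_orderOf_eq_one, coe_one]
    have k1 : k.1 ≠ 1 := fun z => by simp [show k = 1 from Subtype.ext z] at p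
    exact one_ne_zero (x4_inj.1 (F.inj ((mul_eq_left.1 (h.symm.trans
      (((S.kinv _ (mc.1 k.2.2.1) k.2.2.2 k2).resolve_left k1).symm.trans
      ((s.kinv _ (mc.1 k.2.1.1) k.2.1.2 k2).resolve_left k1)))).trans (map_one _).symm)))
  obtain ⟨n, hn⟩ : ∃ r, ∀ o ∈ O, o ^ (2 * r + 1) = 1 :=
    let ⟨r, e⟩ := o; ⟨r, fun o p => e ▸ congrArg Subtype.val (pow_card_eq_one' (x := (⟨o, p⟩ : O)))⟩
  have sq : ∀ k, Commute k t → k ∈ 𝐂(F.gen) → k * k ∈ O := fun k p q => by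
    have c : Commute k (g * t * g⁻¹) := h ▸ p.mul_right (mC.1 q _ (F.e_mem _))
    refine ⟨⟨mc.2 (p.mul_left p), mul_mem q q⟩, mc.2 (c.mul_left c), (cjF F g).CS (S.cn k c) fun v => ?_⟩
    obtain ⟨w, e⟩ := conj_mem_of_norm hg ⟨v, rfl⟩
    exact cjF_e F g v ▸ e ▸ mC.1 q _ (F.e_mem w)
  have pw : ∀ k : G, k ^ (2 * n + 1) * k = (k * k) ^ (n + 1) := fun k => by
    rw [← pow_succ, ← pow_two, ← pow_mul]; rfl
  refine ⟨O, { s with
    odd := o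
    Ot := fun _ p => p.1.1
    OL := fun _ p => p.1.2
    K0 := fun k p q => ?_
    g0 := ⟨g, inv_mem_iff.1 (mem_normalizer_fintype fun k p => ?_), hg, h⟩ }⟩
  · have := pow_mem (sq k p q) (n + 1)
    rcases s.kinv (k ^ (2 * n + 1)) (p.pow_left _) (pow_mem q _)
      (by rw [← (Commute.refl k).mul_pow, hn _ (sq k p q)]) with z | z <;> rw [← pw, z] at this
    exacts [.inl (one_mul k ▸ this), .inr this]
  have q := p.2.2
  rw [cjF_gen, ← conj_centralizer] at q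
  have := pow_mem (sq (g⁻¹ * k * g⁻¹⁻¹) (by simpa [mul_assoc] using cjc (mc.1 p.2.1) g⁻¹)
    (by simpa using mem_conj.1 q)) (n + 1)
  rwa [← pw, conj_pow, hn k p, mul_one, mul_inv_cancel, one_mul] at this

end St

end Cfsg.Lib.SF4
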