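import Cfsg.Agent.Lib.SF4.Def

/-!
# S3323: basic facts on the standard configuration
-/

set_option autoImplicit false

namespace Cfsg.Lib.SF4

open Subgroup Cfsg.Lib.BG Cfsg.Lib.Transfer Cfsg.Lib.GW Cfsg.Lib.RF4 Cfsg.Lib.RF4.V

variable {K : Type*} [Field K] [Tw K] {G : Type*} [Group G] {F : Full K G} {t g u : G} {O : Subgroup G}

theorem mC {H : Subgroup G} : g ∈ 𝐂(H) ↔ ∀ l ∈ H, Commute g l :=
  ⟨fun h l hl => (mem_cent.1 h l hl).symm, fun h => mem_cent.2 fun l hl => (h l hl).symm⟩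

/-- The conjugate datum. -/
abbrev cjF (F : Full K G) (g : G) : Full K G := F.map (MulAut.conj g).toMonoidHom (MulAut.conj g).injective

theorem cjF_gen (F : Full K G) (g : G) : (cjF F g).gen = g ⋆ F.gen := F.map_gen _ _

theorem cjF_range (F : Full K G) (g : G) : (cjF F g).e.range = g ⋆ F.e.range := F.map_range _ _

theorem cjF_e (F : Full K G) (g : G) (v : V K) : (cjF F g).e v = g * F.e v * g⁻¹ := rfl

theorem cjF_C (F : Full K G) (g : G) : (cjF F g).C = g ⋆ F.C := by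
  rw [Full.C, Full.C, cjF_gen, cjF_e, conj_inf, conj_cent1]

theorem odd_pow_mem {N : Subgroup G} {n : ℕ} (hn : Odd n) (h : u * u ∈ N) : u⁻¹ * u ^ n ∈ N := by
  obtain ⟨k, rfl⟩ := hn
  rw [pow_succ', inv_mul_cancel_left, pow_mul, sq]
  exact pow_mem h k

theorem ksq {l : G} {n : ℕ} (h : Commute (l⁻¹ * u ^ n) l⁻¹) :
    l⁻¹ * u ^ n * (l⁻¹ * u ^ n) = l⁻¹ * (l⁻¹ * (u * u) ^ n) := by
  rw [← mul_assoc, h.eq, (Commute.refl u).mul_pow]; group

namespace St

variable (s : St F t)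
include s

theorem ti : t⁻¹ = t := inv_eq_of_mul_eq_one_left s.t2

theorem tC : t ∈ 𝐂(F.gen) := mC.2 s.tL

theorem not_mem : t ∉ F.gen := fun h => s.t1 (F.center h s.tC)

theorem te (v : V K) : Commute t (F.e v) := s.tL _ (F.e_mem v)

theorem th (l : Kˣ × Kˣ) : Commute t (F.h l) := s.tL _ (F.h_mem l)

theorem conj (g : G) : St (cjF F g) (g * t * g⁻¹) where
  t2 := sq_conj s.t2 g
  t1 := mt conj_eq_one_iff.1 s.t1
  tL l hl := by
    rw [cjF_gen] at hl
    obtain ⟨l, hl, rfl⟩ := hl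
    exact cjc (s.tL l hl) g
  cn x hx := by
    rw [cjF_gen, ← conj_normalizer, mem_conj]
    exact s.cn _ (by simpa [mul_assoc] using cjc hx g⁻¹)
  kinv x h1 h2 h3 := by
    rw [cjF_gen, ← conj_centralizer, mem_conj] at h2
    refine (s.kinv _ (by simpa [mul_assoc] using cjc h1 g⁻¹) h2 (by simpa using sq_conj h3 g⁻¹)).imp (fun e => ?_) fun e => ?_
    · simpa [mul_assoc, inv_mul_eq_one] using e
    · simp [← e, mul_assoc]
  out x hx := by
    obtain ⟨n, hn, l, hl, e⟩ := s.out (g⁻¹ * x * g⁻¹⁻¹) (by simpa [mul_assoc] using cjc hx g⁻¹)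
    refine ⟨n, hn, g * l * g⁻¹, cjF_gen F g ▸ conj_mem_conj.2 hl, ?_⟩
    rw [cjF_gen, ← conj_centralizer, mem_conj]
    rw [conj_pow] at e
    simpa [mul_assoc] using e
  syl := by rw [cjF_gen, cjF_range]; exact s.syl.conj g

/-- An element of `C(t)` with square in `L` lies in `L ⟨t⟩`. -/
theorem inner (hu : Commute u t) (h : u * u ∈ F.gen) : u ∈ F.gen ∨ u * t ∈ F.gen := by
  obtain ⟨n, hn, l, hl, e⟩ := s.out u hu
  have h1 := odd_pow_mem hn h
  have h2 : l⁻¹ * u ^ n * (l⁻¹ * u ^ n) = 1 := F.center (by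
    rw [ksq (mC.1 e _ (inv_mem hl))]
    exact mul_mem (inv_mem hl) (mul_mem (inv_mem hl) (pow_mem h n))) (mul_mem e e)
  rcases s.kinv _ ((s.tL _ (inv_mem hl)).symm.mul_left (hu.pow_left n)) e h2 with e | e
  · exact .inl ((mul_mem_cancel_right h1).1 (by rwa [mul_inv_cancel_left, ← inv_mul_eq_one.1 e]))
  · refine .inr ((mul_mem_cancel_right h1).1 ?_)
    rwa [mul_assoc, (s.tL _ h1).eq, ← mul_assoc, mul_inv_cancel_left, inv_mul_eq_iff_eq_mul.1 e, mul_assoc, s.t2, mul_one]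

theorem two {v : G} (hu : Commute u t) (hv : Commute v t) (h1 : u * u ∈ F.gen) (h2 : v * v ∈ F.gen) (h3 : u ∉ F.gen)
    (h4 : v ∉ F.gen) : u * v ∈ F.gen := by
  have := mul_mem ((s.inner hu h1).resolve_left h3) ((s.inner hv h2).resolve_left h4)
  rwa [mul_assoc, hv.eq, ← mul_assoc t, s.t2, one_mul] at this

end St

theorem S0.s1 (s : S0 F t) : S1 F t ⊥ :=
  { s.toSt with
    odd := by simp
    Ot := bot_le
    OL := bot_le
    K0 := fun g h1 h2 => (s.K0 g h1 h2).imp id fun e : g = t => mem_bot.2 (e ▸ s.t2)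
    g0 := let ⟨g, h⟩ := s.g0; ⟨g, le_normalizer_of_normal (mem_top g), h⟩ }

/-- A `2`-element of `C(t)` lies in `L ⟨t⟩`. -/
theorem S1.two_el (s : S1 F t O) (hu : Commute u t) {k : ℕ} (h : u ^ 2 ^ k = 1) : u ∈ F.gen ∨ u * t ∈ F.gen := by
  induction k generalizing u with
  | zero => exact .inl (by rw [← pow_one u]; exact h ▸ one_mem _)
  | succ k ih =>
    refine s.inner hu ((ih (hu.mul_left hu) (by rwa [← sq, ← pow_mul, ← pow_succ'])).resolve_right fun h1 => ?_)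
    obtain ⟨n, hn, l, hl, e⟩ := s.out u hu
    have c := (s.tL _ (inv_mem hl)).symm.mul_left (hu.pow_left n)
    have h2 : l⁻¹ * u ^ n * (l⁻¹ * u ^ n) * t = 1 := F.center (by
      rw [ksq (mC.1 e _ (inv_mem hl)), mul_assoc, mul_assoc]
      have := pow_mem h1 n
      rw [(hu.mul_left hu).mul_pow, ← mul_inv_cancel_left t (t ^ n), mem_bot.1 (odd_pow_mem (N := ⊥) hn s.t2), mul_one] at this
      exact mul_mem (inv_mem hl) (mul_mem (inv_mem hl) this)) (mul_mem (mul_mem e e) s.tC)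
    refine inv_not_mem_odd s.odd (orderOf_eq_prime ((sq t).trans s.t2) s.t1) ?_
    rw [← s.ti, ← eq_inv_of_mul_eq_one_left h2]
    rcases s.K0 _ c e with o | o
    · exact mul_mem o o
    · have := mul_mem o o
      rwa [c.mul_mul_mul_comm, s.t2, one_mul] at this

end Cfsg.Lib.SF4
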