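import Cfsg.Agent.Lib.SF4.StB
import Cfsg.Agent.Lib.Transfer.Extremal
import Cfsg.Prelude.Def_Quasithin

/-!
# S3323: the index is odd
-/

set_option autoImplicit false

namespace Cfsg.Lib.SF4

open Subgroup Cfsg.Lib.BG Cfsg.Lib.Transfer Cfsg.Lib.GW Cfsg.Lib.RF4 Cfsg.Lib.RF4.V

variable {K : Type*} [Field K] [Tw K] [Bg K] {G : Type*} [Group G] [Finite G] {F : Full K G} {t : G} {O M U : Subgroup G}

theorem zp_sup {G : Type*} [Group G] {X : Subgroup G} {u x : G} (h : u * u = 1) (h1 : u ∈ 𝐍(X)) :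
    x ∈ X ⊔ zpowers u ↔ x ∈ X ∨ x * u ∈ X := by
  refine ⟨fun e => ?_, fun e => e.elim mem_sup_left fun e => (mul_mem_cancel_right
    (mem_sup_right (mem_zpowers u))).1 (mem_sup_left e)⟩
  obtain ⟨a, ha, _, ⟨k, rfl⟩, rfl⟩ := (mem_sup_left_norm (zpowers_le.2 h1)).1 e
  rcases Int.even_or_odd' k with ⟨j, rfl | rfl⟩
  · exact .inl (by simpa [zpow_mul, sq, h] using ha)
  · exact .inr (by simpa [zpow_add, zpow_mul, sq, h, mul_assoc] using ha)

theorem perf_le {G : Type*} [Group G] [Finite G] {M : Subgroup G} (h : commutator M = ⊤) : M ≤ pResidual 2 G := by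
  have : pResidual 2 M = ⊤ := Transfer.pResidual_two_eq_top_iff.2 fun H e => by
    have := normal_of_index_eq_two e
    have : Fact (Nat.card (M ⧸ H)).Prime := ⟨(show H.index.Prime from e ▸ Nat.prime_two)⟩
    have c := isCyclic_of_prime_card (α := M ⧸ H) rfl
    have := Subgroup.Normal.quotient_commutative_iff_commutator_le.1 c.isMulCommutative
    rw [h, top_le_iff] at this
    simp [this] at e
  simpa [this, ← MonoidHom.range_eq_map] using map_pResidual_le (p := 2) M.subtype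

omit [Finite G] in
/-- `𝐂[v]` has index at most two: it contains all squares and commutators, so `Ph` (`Ph_le`), hence `v ∈ Z2` (commute with
`y2 1, y4 1, y6 1, x8 1, x2 1, x7 1, ...`), and one of `x1 1`, `x1 ω`, `x1 (1 + ω)`. -/
theorem Z_of_two {v : V K} (h : ∀ a b : V K, ¬ Commute a v → ¬ Commute b v → Commute (a * b) v) : v ∈ Z := by
  obtain ⟨w, w0, w1⟩ := ex_ω (K := K)
  have sq : ∀ a : V K, a * a ∈ 𝐂[v] := fun a => mc.2 (by
    by_cases e : Commute a v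
    exacts [e.mul_left e, h a a e e])
  have hP : ∀ a ∈ Ph, a * v = v * a := fun a ha => mc.1 (Ph_le sq (fun a b => by
    rw [show cm a b = a * a * (a⁻¹ * b * (a⁻¹ * b)) * (b⁻¹ * b⁻¹) by simp only [cm]; group]
    exact mul_mem (mul_mem (sq _) (sq _)) (sq _)) w0 w1 ha)
  obtain ⟨a, a0, ha⟩ : ∃ a ≠ 0, x1 a * v = v * x1 a := by
    by_contra! c
    exact c (1 + w) (by grind) ((show x1 1 * x1 w = x1 (1 + w) by vp) ▸ h _ _ (c 1 one_ne_zero) (c w w0))
  have h1 := hP (y2 1) (by vs)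
  have h2 := hP (y4 1) (by vs)
  have h3 := hP (y6 1) (by vs)
  have h4 := hP (x8 1) (by vs)
  have h5 := hP (x2 1) (by vs)
  have h6 := hP (x7 1) (by vs)
  have h7 := hP (x3 1) (by vs)
  have h8 := hP (x5 1) (by vs)
  have h9 := hP (x6 1) (by vs)
  clear h sq hP
  have e1 : v.a1 = 0 := by clear * - h9; vs at h9; grind
  have e2 : v.b8 = 0 := by clear * - h8; vs at h8; grind
  obtain ⟨_, _, _, _, _, _, _, _, _, _, _, _⟩ := v
  subst e1 e2
  vs at *
  grind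

/-- `two_el`; a `2`-subgroup `P ≥ S ⟨t⟩` of `𝐂[t]` has `P ⊓ L = S`. -/
theorem S1.sylC (s : S1 F t O) : Syl 2 (F.e.range ⊔ zpowers t) 𝐂[t] := by
  have c : F.e.range ≤ 𝐂[t] := by rintro _ ⟨v, rfl⟩; exact mc.2 (s.te v).symm
  refine Syl.of_max (sup_le c (zpowers_le.2 (mc.2 rfl))) (pgroup_sup F.pS (Inv.isPGroup_zpowers_of_mul_self s.t2)
    (zpowers_le.2 (cent_le_norm _ (le_cent1_iff.1 c)))) fun P hP h1 h2 p hp => ?_
  have e := s.syl.eq_of_le_pgroup (Q := P ⊓ F.gen) (le_inf (le_sup_left.trans h1) s.syl.le) inf_le_right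
    (pgroup_of_le hP inf_le_left)
  obtain ⟨k, hk⟩ := hP ⟨p, hp⟩
  exact (zp_sup s.t2 (cent_le_norm _ (le_cent1_iff.1 c))).2 ((s.two_el (mc.1 (h2 hp)) (congrArg Subtype.val hk)).imp
    (fun h => e.ge ⟨hp, h⟩) fun h => e.ge ⟨mul_mem hp (h1 (mem_sup_right (mem_zpowers t))), h⟩)

theorem S1.nconj (s : S1 F t O) (o : Out F t M U) {g : G} (h2 : g ⋆ (F.e.range ⊔ zpowers t) ≤ U ⊔ zpowers t) :
    g * t * g⁻¹ ∉ U := fun h1 => by
  obtain ⟨Y, hY, hc, hn⟩ := o.Y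
  have pT := pgroup_sup o.pU (Inv.isPGroup_zpowers_of_mul_self s.t2) (zpowers_le.2 o.tU)
  have sy := s.sylC.conj g
  rw [conj_cent1] at sy
  have e := Syl.eq_of_le_pgroup sy (le_inf h2 sy.le) inf_le_right (pgroup_of_le pT inf_le_left)
  have nS : t ∈ 𝐍(F.e.range) := cent_le_norm _ (mC.2 (by rintro _ ⟨v, rfl⟩; exact s.te v))
  let f : Bool × K → G := fun p => g * (F.e (x4 p.2) * cond p.1 t 1) * g⁻¹
  refine hn.not_ge ((Nat.card_mono (Set.toFinite _) (show (Y : Set G) ⊆ Set.range f from fun y hy => ?_)).trans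
    ((Finite.card_range_le f).trans (by simp)))
  obtain ⟨d, hd, rfl⟩ := e.ge ⟨mem_sup_left (hY hy), mc.2 (mC.1 (hc h1) y hy).symm⟩
  obtain ⟨b, v, rfl⟩ : ∃ b v, d = F.e v * cond b t 1 := by
    rcases (zp_sup s.t2 nS).1 hd with ⟨v, e⟩ | ⟨v, e⟩
    exacts [⟨false, v, by simp [e]⟩, ⟨true, v, by simp [e, mul_assoc, s.t2]⟩]
  have k : ∀ a, g * F.e a * g⁻¹ ∈ U → Commute a v := fun a ha => F.ce (by
    have := (cjc (mC.1 (hc ha) _ hy) g⁻¹).mul_right (show Commute _ (cond b t 1)⁻¹ from .inv_right (by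
      cases b
      exacts [.one_right _, by simpa [mul_assoc] using (s.te a).symm]))
    simpa [mul_assoc] using this)
  have k2 : ∀ a, ¬ Commute a v → g * F.e a * g⁻¹ * t ∈ U := fun a ha =>
    ((zp_sup s.t2 o.tU).1 (conj_le_iff.1 h2 _ (mem_sup_left ⟨a, rfl⟩))).resolve_left (mt (k a) ha)
  refine ⟨(b, v.c4), ?_⟩
  rw [eq_x4 (Z_of_two (v := v) fun a b ha hb => k _ ?_)]
  · rfl
  have := mul_mem (k2 a ha) (conj_mem_of_norm o.tU (k2 b hb))
  simpa [mul_assoc, ← mul_assoc t t, s.t2] using this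

/-- `T = U ⊔ zpowers t`, `D = S ⟨t⟩ ≤ T`.  (1) If `g t g⁻¹ ∈ U` and `g ⋆ D ≤ T` then `g ⋆ D` is Sylow in `𝐂[g t g⁻¹]`, so it
contains `Y`; each `y ∈ Y` centralizes `U ⊓ g ⋆ D`, of index at most two, so `g⁻¹ y g ∈ Z ⟨t⟩` (`Z_of_two`), `|Y| ≤ 2 q`,
contradiction.  In particular `t ∉ U`.  (2) `T` is Sylow in `G` (`Syl.of_norm`, `of_max`): for `p` in a `2`-group
`P ≥ T` normalizing `T`, `p t p⁻¹ ∈ t U` by (1), `lang` gives `w⁻¹ p ∈ P ⊓ 𝐂[t] ≤ D` by `sylC`.  (3) `t ∉ O²(G)` by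
`Transfer.exists_conj_mem_and_conj_le` with `C = D` and (1) (`oddGenerated ⊤ = pResidual 2`, cf. `QT.odd_eq`, copy it if the
closure is large).  (4) `M` perfect lies in `O²(G)`; `T ⊓ O²(G) = U` is Sylow in `O²(G)` (`Hall.inf_nml`). -/
theorem S1.fin (s : S1 F t O) (o : Out F t M U) (hM : commutator M = ⊤) :
    M ≤ oddGenerated ⊤ ∧ Odd (M.relIndex (oddGenerated ⊤)) := by
  rw [show oddGenerated ⊤ = pResidual 2 G from le_antisymm ((closure_le _).2 fun _ hx =>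
    mem_pResidual_of_coprime (Nat.coprime_two_right.2 hx.2))
    (pResidual_le_iff.2 fun _ h => subset_closure ⟨trivial, Nat.coprime_two_right.1 h⟩)]
  have pT := pgroup_sup o.pU (Inv.isPGroup_zpowers_of_mul_self s.t2) (zpowers_le.2 o.tU)
  have DT : F.e.range ⊔ zpowers t ≤ U ⊔ zpowers t := sup_le_sup_right o.SU _
  have tT : t ∈ U ⊔ zpowers t := mem_sup_right (mem_zpowers t)
  have sy : Syl 2 (U ⊔ zpowers t) ⊤ := by
    refine Syl.of_norm (Syl.of_max (le_inf le_top (le_norm _)) pT fun P hP h1 h2 p hp => ?_)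
    have n := (h2 hp).2
    have := conj_mem_of_norm o.tU (((zp_sup s.t2 o.tU).1 (conj_mem_of_norm n tT)).resolve_left
      (s.nconj o ((conj_mono p DT).trans (conj_eq_of_norm n).le)))
    rw [← mul_assoc t, mul_inv_cancel_right] at this
    obtain ⟨w, hw, e⟩ := o.lang _ this (by rw [← mul_assoc t t, s.t2, one_mul, sq_conj s.t2])
    rw [← mul_assoc t t, s.t2, one_mul] at e
    exact (Subgroup.mul_mem_cancel_left _ (inv_mem (mem_sup_left hw))).1 (DT ((s.sylC.eq_of_le_pgroup (Q := P ⊓ 𝐂[t])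
      (le_inf (DT.trans h1) s.sylC.le) inf_le_right (pgroup_of_le hP inf_le_left)).ge
      ⟨P.mul_mem (P.inv_mem (h1 (mem_sup_left hw))) hp, mc.2 (cjf.1 (by
        rw [show w⁻¹ * p * t * (w⁻¹ * p)⁻¹ = w⁻¹ * (p * t * p⁻¹) * w by group, ← e]; group))⟩))
  have nt : t ∉ pResidual 2 G := fun h => by
    obtain ⟨S, hS⟩ := Syl.top_iff_sylow.1 sy
    have : (U.subgroupOf (S : Subgroup G)).Normal := (normal_subgroupOf_iff_le_normalizer (hS ▸ le_sup_left)).2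
      (hS ▸ sup_le (le_norm _) (zpowers_le.2 o.tU))
    obtain ⟨g, h1, -, h2⟩ := exists_conj_mem_and_conj_le S (T := U) ⟨⟨QuotientGroup.mk ⟨t, hS ▸ tT⟩, fun x => by
      obtain ⟨x, rfl⟩ := QuotientGroup.mk_surjective x
      rcases (zp_sup s.t2 o.tU).1 (hS.le x.2) with e | e
      · exact ⟨0, (zpow_zero _).trans ((QuotientGroup.eq_one_iff (N := U.subgroupOf S) x).2 e).symm⟩
      · exact ⟨-1, (zpow_neg_one _).trans (eq_inv_of_mul_eq_one_left
          ((QuotientGroup.eq_one_iff (x * ⟨t, hS ▸ tT⟩)).2 e)).symm⟩⟩⟩ s.t2 (mem_sup_left h) s.sylC.pgroup s.sylC.le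
    exact s.nconj o (hS ▸ h2) h1
  have hl := perf_le hM
  have h2 := sy.inf_nml (Nml.top_iff.2 (inferInstance : (pResidual 2 G).Normal))
  rw [show (U ⊔ zpowers t) ⊓ pResidual 2 G = U from le_antisymm (fun x hx => ((zp_sup s.t2 o.tU).1 hx.1).resolve_right
    fun e => nt ((mul_mem_cancel_left hx.2).1 (hl (o.UM e)))) (le_inf le_sup_left (o.UM.trans hl))] at h2
  exact ⟨hl, Nat.not_even_iff_odd.1 fun e => Syl.not_dvd' h2 (e.two_dvd.trans (relIndex_dvd_of_le_left _ o.UM))⟩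

end Cfsg.Lib.SF4
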