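import Cfsg.Agent.Lib.SF4.StB
import Cfsg.Agent.Lib.RF4.Red
import Cfsg.Agent.Lib.Twisted.OutInst

/-!
# S3323: from the statement to the standard configuration
-/

set_option autoImplicit false

namespace Cfsg.Lib.SF4

open Subgroup Cfsg.Lib.BG Cfsg.Lib.Transfer Cfsg.Lib.GW Cfsg.Lib.RF4 Cfsg.Lib.RF4.V Cfsg.Lie Cfsg.Lib.Chev Cfsg.Lib.Twisted

theorem nml_bot {G : Type*} [Group G] [Finite G] (hF : IsSimpleGroup (generalizedFittingSubgroup G))
    (hF' : ¬ IsMulCommutative (generalizedFittingSubgroup G)) {N : Subgroup G} [n : N.Normal] (s : Group.IsSolvable N) :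
    N = ⊥ := by
  have q := Comp.isQuasisimple_of_isSimpleGroup hF'
  refine (((n.subgroupOf (generalizedFittingSubgroup G)).eq_bot_or_eq_top).imp (fun p => eq_bot_iff.2 fun x hx => ?_)
    subgroupOf_eq_top.1).resolve_right (Comp.qs_not_le_of_isSolvable q s)
  have c : x ∈ centralizer (generalizedFittingSubgroup G : Set G) := fun y hy =>
    mul_inv_eq_iff_eq_mul.1 (mul_inv_eq_one.1 (congrArg Subtype.val (mem_bot.1 (p.le (show (⟨y * x * y⁻¹ * x⁻¹, by
        simpa [mul_assoc] using mul_mem hy (Normal.conj_mem inferInstance _ (inv_mem hy) x)⟩ : generalizedFittingSubgroup G) ∈ _ from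
        mul_mem (n.conj_mem _ hx y) (inv_mem hx))))))
  exact congrArg Subtype.val (mem_bot.1 (p.le (show (⟨x, Comp.centralizer_genFitting_le c⟩ : generalizedFittingSubgroup G) ∈ _ from hx)))

theorem out_pow {G : Type*} [Group G] {L : Subgroup G} {g : G} (hg : g ∈ 𝐍(L)) :
    ∃ l ∈ L, l⁻¹ * g ^ Nat.card (Cfsg.Out L) ∈ 𝐂(L) := by
  obtain ⟨l, e⟩ := (QuotientGroup.eq_one_iff (N := Inn L) (L.normalizerMonoidHom ⟨g, hg⟩ ^ Nat.card (Cfsg.Out L))).1
    (by rw [QuotientGroup.mk_pow]; exact pow_card_eq_one')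
  refine ⟨l, l.2, mC.2 fun x hx => cjf.1 ?_⟩
  have := congrArg Subtype.val (DFunLike.congr_fun (e.trans (map_pow _ _ _).symm) ⟨x, hx⟩)
  change l.1 * x * l.1⁻¹ = g ^ _ * x * (g ^ _)⁻¹ at this
  rw [mul_inv_rev, mul_assoc l.1⁻¹, ← mul_assoc, mul_assoc l.1⁻¹, ← this]; group

theorem exists_full' {K : Type*} [Field K] [Fintype K] {m : ℕ} (hm : 1 ≤ m) (hK : Fintype.card K = 2 ^ (2 * m + 1)) :
    ∃ (_ : Tw K) (S : Twist (CF4 K) symF4) (φ : K →+* K) (F : Full K (twistedF4 K (2 ^ m))), Twisted.IsF4 m S φ σ ∧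
      F.gen = ⊤ ∧ Odd F.e.range.index ∧ IsSimpleGroup (twistedF4 K (2 ^ m)) := by
  obtain ⟨S, φ, ψ, h⟩ := exists_isF4 hK
  letI : Tw K := ⟨ψ, h.two, fun t => by rw [h.ψ_eq (ψ t), h.φψ]⟩
  have hle : twistedF4 K (2 ^ m) ≤ chevF4.group K := map_KF4 (K := K) ▸ map_subtype_le _
  have hr : KF4 K (2 ^ m) = (inclusion hle).range := by
    rw [inclusion_range, ← map_KF4, subgroupOf, comap_map_eq_self_of_injective (subtype_injective _)]
  obtain ⟨F, hF⟩ := (fullF h).pull (inclusion_injective hle) ((gen_fullF h).trans hr)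
  have e := (MulEquiv.subgroupCongr hr).trans (MonoidHom.ofInjective (inclusion_injective hle)).symm
  have := h.finite
  refine ⟨inferInstance, S, φ, F, h, hF, ?_, have := (h.simple hm).1; e.symm.isSimpleGroup⟩
  have h1 := F.e.range.card_mul_index
  rw [← Nat.card_congr (MonoidHom.ofInjective F.inj).toEquiv, card_V, h.card, ← Nat.card_congr e.toEquiv, h.cardK,
    mul_assoc, mul_assoc, mul_assoc, Nat.mul_right_inj (by positivity)] at h1
  have h2 : ∀ k, Even ((2 ^ (2 * m + 1)) ^ (k + 1)) := fun k => by simp [Nat.even_pow]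
  rw [h1]
  refine (Nat.Even.sub_odd Nat.one_le_two_pow (by simpa using h2 0) odd_one).mul ((h2 2).add_one.mul
    ((Nat.Even.sub_odd (Nat.one_le_pow _ _ (by positivity)) (h2 3) odd_one).mul (h2 5).add_one))

/-- `exists_isF4`, `Tw K := ⟨ψ, _, _⟩` and `F₀ : Full K (twistedF4 K (2 ^ m))` exactly as in RF4/Red `exists_full` (copy the proof,
the twist must stay visible); `F = F₀.map (L.subtype ∘ e.symm)`.  `t`: an involution of `𝐂(L)` (`hL.2.1.1`).  `cn`: SzQ/P `std_CN`,
`kinv`: SzQ/P `cyc_le`, `uq'` (copy these few lines, do NOT import SzQ.P); `out`: `St.card_out_F4`, `Nat.card (K ≃+* K)` is odd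
(it divides / equals `2 m + 1`).  `O(G) = 1` and `Z(G) = 1` since `F*(G)` is simple nonabelian; `SzQ.zstar'` gives a conjugate
`≠ t` in a Sylow subgroup `P ∋ t`; then some conjugate in `P` other than `t` commutes with `t` (`t` acts on the set of
`G`-conjugates of `t` in `P`; or: `⟨t, t'⟩` is a dihedral `2`-group) -- look for an existing form of Z*. -/
theorem exists_st {G : Type*} [Group G] [Finite G] (hFs : IsSimpleGroup (generalizedFittingSubgroup G))
    (hFna : ¬ IsMulCommutative (generalizedFittingSubgroup G)) {L : Subgroup G} (hL : IsStandardSubgroup L)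
    {K : Type*} [Field K] [Fintype K] {m : ℕ} (hm : 1 ≤ m) (hK : Fintype.card K = 2 ^ (2 * m + 1))
    (e : L ≃* twistedF4 K (2 ^ m)) (hcyc : ∀ R : Sylow 2 (centralizer (L : Set G)), IsCyclic R) :
    ∃ (_ : Tw K) (S : Twist (CF4 K) symF4) (φ : K →+* K) (F : Full K G) (t g : G), Twisted.IsF4 m S φ σ ∧ F.gen = L ∧
      IsSimpleGroup F.gen ∧ St F t ∧ g * t * g⁻¹ ≠ t ∧ Commute (g * t * g⁻¹) t := by
  obtain ⟨_, S, φ, F₀, h, hF, ho, hs⟩ := exists_full' hm hK
  obtain ⟨t, tK, ht⟩ := Inv.exists_involution_mem_of_even hL.2.1.1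
  have t2 : t * t = 1 := by rw [← sq, ← ht, pow_orderOf_eq_one]
  have t1 : t ≠ 1 := by rintro rfl; simp at ht
  have inj : Function.Injective (L.subtype.comp e.symm.toMonoidHom) := L.subtype_injective.comp e.symm.injective
  have top : (⊤ : Subgroup _).map (L.subtype.comp e.symm.toMonoidHom) = L := by
    rw [← map_map, map_top_of_surjective _ e.symm.surjective, ← MonoidHom.range_eq_map, range_subtype]
  have hg : (F₀.map _ inj).gen = L := by rw [Full.map_gen, hF, top]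
  have cn : ∀ g, Commute g t → g ∈ 𝐍(L) := fun g c => by
    rw [hL.2.2.2]
    by_contra n
    exact (hL.2.1.2 g n).not_two_dvd_nat (ht ▸ orderOf_dvd_natCard _ (mem_inf.2 ⟨tK, t, tK, cjf.2 c⟩))
  obtain ⟨g, h1, h2⟩ : ∃ g, Commute t (g * t * g⁻¹) ∧ g * t * g⁻¹ ≠ t := by
    by_contra! c
    have z : t ∈ center G := mem_center_iff.2 fun g => by
      have := ZStar.zstar ⟨ht, c⟩ g
      rw [nml_bot hFs hFna (PF.isSolvable_of_odd _ (Core.odd_card_oddCore G)), mem_bot, mul_inv_eq_one,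
        mul_inv_eq_iff_eq_mul] at this
      exact this.symm
    exact t1 (mem_bot.1 ((nml_bot hFs hFna (N := center G) (Group.isSolvable_of_comm mul_comm')).le z))
  refine ⟨_, S, φ, F₀.map _ inj, t, g, h, hg, by rw [hg]; exact e.isSimpleGroup,
    ⟨t2, t1, by rw [hg]; exact mC.1 tK, by rwa [hg], ?_, ?_, ?_⟩, h2, h1.symm⟩
  · rw [hg]
    refine fun r c m r2 => or_iff_not_imp_left.2 fun n => ?_
    have le : zpowers t ⊔ zpowers r ≤ 𝐂(L) := sup_le (zpowers_le.2 tK) (zpowers_le.2 m)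
    obtain ⟨R, e⟩ := ((pgroup_sup (Inv.isPGroup_zpowers_of_mul_self t2) (Inv.isPGroup_zpowers_of_mul_self r2)
      (zpowers_le.2 (cent_le_norm _ (le_cent1_iff.1 (zpowers_le.2 (mc.2 c.symm)))))).of_equiv
      (subgroupOfEquivOfLe le).symm).exists_le_sylow
    exact congrArg Subtype.val (Inv.eq_of_isCyclic_of_orderOf_two (hcyc R) (x := ⟨r, m⟩) (y := ⟨t, tK⟩)
      (e (mem_sup_right (mem_zpowers r))) (e (mem_sup_left (mem_zpowers t)))
      ((orderOf_mk _ _).trans (orderOf_eq_prime ((sq r).trans r2) n)) ((orderOf_mk _ _).trans ht))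
  · rw [hg]
    exact fun g c => ⟨_, by rw [St.card_out_congr e, St.card_out_F4 hm hK, Linear.card_ringAut hK]; simp,
      out_pow (cn g c)⟩
  · rw [Full.map_gen, Full.map_range]
    exact Hall.map (Syl.mk' (hF ▸ le_top) F₀.pS (by rw [hF, relIndex_top_right]; exact ho.not_two_dvd_nat)) _

end Cfsg.Lib.SF4
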