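import Cfsg.Agent.Lib.SF4.StB

/-!
# S3323: the big root groups with a uniform index
-/

set_option autoImplicit false

namespace Cfsg.Lib.SF4

open Subgroup Cfsg.Lib.BG Cfsg.Lib.Transfer Cfsg.Lib.GW Cfsg.Lib.RF4 Cfsg.Lib.RF4.V

variable {K : Type*} [Field K] [Tw K] {G : Type*} [Group G] {F : Full K G} {t : G} {sw : Bool} {X4 X5 : K × K → G}

theorem cm_one {a b : G} : cm a b = 1 ↔ Commute a b := commutatorElement_eq_one_iff_commute

theorem cm_symm {a b z : G} (h : cm a b = z) (hz : z * z = 1) : cm b a = z := by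
  rw [← inv_eq_of_mul_eq_one_right hz, ← h, cm, cm]; group

theorem cj_cm (g a b : G) : g * cm a b * g⁻¹ = cm (g * a * g⁻¹) (g * b * g⁻¹) := map_cm (MulAut.conj g) a b

theorem commute_cm {a b c : G} (h : Commute c a) (h' : Commute c b) : Commute c (cm a b) :=
  ((h.mul_right h').mul_right h.inv_right).mul_right h'.inv_right

theorem cm_in {N : Subgroup G} {a b : G} (h : a ∈ N) (h' : b ∈ N) : cm a b ∈ N :=
  mul_mem (mul_mem (mul_mem h h') (inv_mem h)) (inv_mem h')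

variable (F X4 X5) in
/-- The big root group with index `i mod 16`. -/
def Y (i : ℤ) (p : K × K) : G := F.sh' (i / 2 - 2) (if i % 2 = 0 then X4 p else X5 p)

theorem Y4 (p : K × K) : Y F X4 X5 4 p = X4 p := F.sh'_zero _

theorem Y5 (p : K × K) : Y F X4 X5 5 p = X5 p := F.sh'_zero _

theorem sh_Y (k i : ℤ) (p : K × K) : F.sh' k (Y F X4 X5 i p) = Y F X4 X5 (i + 2 * k) p := by
  rw [Y, Y, F.sh'_add, show (i + 2 * k) % 2 = i % 2 by omega]; congr 2; omega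

theorem Y_mod (i : ℤ) (p : K × K) : Y F X4 X5 (i % 16) p = Y F X4 X5 i p := by
  have := Function.Periodic.int_mul (f := (F.sh' · (Y F X4 X5 (i % 16) p))) (fun k => F.sh'_per k _) (i / 16) 0
  simp only [F.sh'_zero, sh_Y] at this
  rw [← this]; congr 1; push_cast; omega

theorem Y_congr {i j : ℤ} (h : i % 16 = j % 16) (p : K × K) : Y F X4 X5 i p = Y F X4 X5 j p := by rw [← Y_mod, h, Y_mod]

namespace Core

variable (c : Core F t sw X4 X5)
include c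

theorem add (i : ℤ) (p q : K × K) : Y F X4 X5 i (p + q) = Y F X4 X5 i p * Y F X4 X5 i q := by
  unfold Y; split_ifs <;> simp [c.add4, c.add5]

theorem zero (i : ℤ) : Y F X4 X5 i 0 = 1 := by simpa using c.add i 0 0

theorem sq (i : ℤ) (p : K × K) : Y F X4 X5 i p * Y F X4 X5 i p = 1 := by
  rw [← c.add, show p + p = 0 from Prod.ext (CharTwo.add_self_eq_zero _) (CharTwo.add_self_eq_zero _), c.zero]

theorem inv (i : ℤ) (p : K × K) : (Y F X4 X5 i p)⁻¹ = Y F X4 X5 i p := inv_eq_of_mul_eq_one_right (c.sq i p)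

theorem split' (i : ℤ) (p : K × K) : Y F X4 X5 i p = Y F X4 X5 i (p.1, 0) * Y F X4 X5 i (0, p.2) := by simp [← c.add]

theorem r_Y (i : ℤ) (p : K × K) : F.r * Y F X4 X5 i p * F.r⁻¹ = Y F X4 X5 (8 - i) p := by
  rw [Y, Y, F.r_sh', show (8 - i) % 2 = i % 2 by omega]
  split_ifs with h
  · rw [cjf.2 (c.c4 _ F.rC p)]; congr 2; omega
  · have := congrArg (F.sh' (-1)) (F.s_eq (X5 p))
    rw [cjf.2 (c.s5 p), F.sh'_add, neg_add_cancel, F.sh'_zero] at this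
    rw [← this, F.sh'_add]; congr 2; omega

theorem s_Y (i : ℤ) (p : K × K) : F.s * Y F X4 X5 i p * F.s⁻¹ = Y F X4 X5 (10 - i) p := by
  rw [F.s_eq, c.r_Y, sh_Y]; congr 1; omega

theorem t_Y (h : ∀ l ∈ F.gen, Commute t l) (i : ℤ) (p : K × K) : t * Y F X4 X5 i p * t⁻¹ = Y F X4 X5 i p.swap := by
  rw [Y, Y, ← F.sh'_fix h (i / 2 - 2), ← map_inv, ← map_mul, ← map_mul]
  split_ifs <;> simp only [c.t4, c.t5]

theorem h_Y (l : Kˣ × Kˣ) (i : ℤ) : ∃ w : Kˣ, ∀ p, F.h l * Y F X4 X5 i p * (F.h l)⁻¹ = Y F X4 X5 i ((w : K) • p) := by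
  obtain ⟨l', e⟩ := F.sh'_h (-(i / 2 - 2)) l
  have e := congrArg (F.sh' (i / 2 - 2)) e
  rw [F.sh'_add, add_neg_cancel, F.sh'_zero] at e
  refine ⟨if i % 2 = 0 then w4 l' else w5 l', fun p => ?_⟩
  rw [e, Y, Y, ← map_inv, ← map_mul, ← map_mul]
  split_ifs <;> simp only [c.h4, c.h5]

/-- The dihedral symmetry. -/
theorem sym {a e : ℤ} (ha : a % 2 = 0) (he : e = 1 ∨ e = -1) :
    ∃ g ∈ F.gen, ∀ i p, g * Y F X4 X5 i p * g⁻¹ = Y F X4 X5 (a + e * i) p := by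
  rcases he with rfl | rfl
  · exact ⟨_, F.sr_mem (a / 2), fun i p => (sh_Y _ i p).trans (by congr 1; omega)⟩
  · refine ⟨_, mul_mem (F.sr_mem (a / 2 - 4)) F.r_mem, fun i p => ?_⟩
    rw [mul_inv_rev, mul_assoc _ F.r, mul_assoc, mul_assoc, ← mul_assoc (Y _ _ _ _ _), ← mul_assoc F.r, ← mul_assoc F.r, c.r_Y,
      ← mul_assoc, ← F.sh'_apply, sh_Y]
    congr 1; omega

theorem sym_c {i j a e : ℤ} (ha : a % 2 = 0) (he : e = 1 ∨ e = -1) {p q : K × K} (h : Commute (Y F X4 X5 i p) (Y F X4 X5 j q)) :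
    Commute (Y F X4 X5 (a + e * i) p) (Y F X4 X5 (a + e * j) q) := by
  obtain ⟨g, -, k⟩ := c.sym ha he
  exact k i p ▸ k j q ▸ h.conj g

theorem c0 (i : ℤ) (p q : K × K) : Commute (Y F X4 X5 i p) (Y F X4 X5 i q) := by
  rw [Commute, SemiconjBy, ← c.add, ← c.add, add_comm]

theorem y46 (p q : K × K) : Commute (Y F X4 X5 4 p) (Y F X4 X5 6 q) := Y4 (F := F) (X5 := X5) p ▸ c.c46 p q

theorem y48 (p q : K × K) : Commute (Y F X4 X5 4 p) (Y F X4 X5 8 q) := Y4 (F := F) (X5 := X5) p ▸ c.c48 p q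

theorem y45 (p q : K × K) : Commute (Y F X4 X5 4 p) (Y F X4 X5 5 q) := by rw [Y4, Y5]; exact c.c45 p q

theorem y25 (p q : K × K) : Commute (Y F X4 X5 2 p) (Y F X4 X5 5 q) := Y5 (F := F) (X4 := X4) q ▸ c.c25 p q

theorem y82 (p q : K × K) : cm (Y F X4 X5 8 p) (Y F X4 X5 2 q) =
    Y F X4 X5 4 (p * sg2 sw q) * Y F X4 X5 5 (p * q) * Y F X4 X5 6 (sg2 sw p * q) := by rw [Y4, Y5]; exact c.b82 p q

theorem y83 (p q : K × K) : cm (Y F X4 X5 8 p) (Y F X4 X5 3 q) = Y F X4 X5 6 (p * q) := c.b83 p q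

variable {a e : ℤ} (ha : a % 2 = 0) (he : e = 1 ∨ e = -1) (p q : K × K)
include ha he

theorem m6 : cm (Y F X4 X5 a p) (Y F X4 X5 (a + e * 6) q) =
    Y F X4 X5 (a + e * 4) (p * sg2 sw q) * Y F X4 X5 (a + e * 3) (p * q) * Y F X4 X5 (a + e * 2) (sg2 sw p * q) := by
  obtain ⟨g, -, k⟩ := c.sym (a := a + e * 8) (e := -e) (by omega) (by omega)
  have := congrArg (g * · * g⁻¹) (c.y82 p q)
  simp only [cj_cm, ← conj_mul, k] at this
  convert this using 3 <;> ring_nf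

theorem m5 : cm (Y F X4 X5 a p) (Y F X4 X5 (a + e * 5) q) = Y F X4 X5 (a + e * 2) (p * q) := by
  obtain ⟨g, -, k⟩ := c.sym (a := a + e * 8) (e := -e) (by omega) (by omega)
  have := congrArg (g * · * g⁻¹) (c.y83 p q)
  simp only [cj_cm, k] at this
  convert this using 2 <;> ring_nf

end Core

end Cfsg.Lib.SF4
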