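import Cfsg.Agent.Lib.SF4.YS
import Cfsg.Agent.Lib.SF4.Y

/-!
# S3323: the group `W = Y₂ X₃ Y₄ X₅ Y₆`
-/

set_option autoImplicit false

namespace Cfsg.Lib.SF4

open Subgroup Cfsg.Lib.BG Cfsg.Lib.Transfer Cfsg.Lib.GW Cfsg.Lib.RF4 Cfsg.Lib.RF4.V

variable {K : Type*} [Field K] [Tw K] {G : Type*} [Group G] {F : Full K G} {t g g' : G} {X X5 : K × K → G}
  {p q p2 p3 p5 p6 q2 q3 q5 q6 : K × K}

local notation:max "X₆ " p:max => F.cs (X p)
local notation:max "X₂ " p:max => F.cr (F.cs (X p))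

/-- The action of `t` on the parameters. -/
def τp (p : K × K) : K × K := (p.1 + p.2, p.2)

theorem pp (p : K × K) : p + p = 0 := Prod.ext (CharTwo.add_self_eq_zero _) (CharTwo.add_self_eq_zero _)

/-- Identities between pairs. -/
scoped macro "pq" : tactic => `(tactic| (ext <;> simp only [τp, Prod.fst_add, Prod.snd_add, Prod.smul_fst, Prod.smul_snd,
  Prod.fst_zero, Prod.snd_zero, smul_eq_mul, map_add, map_mul, map_pow, map_zero, map_one, σσ] <;> grind))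

theorem cm_r (b a c : G) : cm b (a * c) = cm b a * (a * cm b c * a⁻¹) := by rw [cm, cm, cm]; group

theorem cm_l (a c b : G) : cm (a * c) b = a * cm c b * a⁻¹ * cm a b := by rw [cm, cm, cm]; group

theorem ρr_ρr {v : V K} (hv : v ∈ Q) : ρr (ρr v) = v := by dst v hv; vq

theorem A_Q {v : V K} (hv : v ∈ A) : v ∈ Q := ⟨hv.2.2.2.2.2.1, hv.2.2.2.2.2.2⟩

namespace YS

variable (s : YS F t X)
include s

theorem zero : X 0 = 1 := by simpa using s.add 0 0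

theorem sq (p : K × K) : X p * X p = 1 := by rw [← s.add, pp, s.zero]

theorem inv' (p : K × K) : (X p)⁻¹ = X p := inv_eq_of_mul_eq_one_left (s.sq p)

theorem comm (p q : K × K) : Commute (X p) (X q) := (s.add p q).symm.trans (add_comm p q ▸ s.add q p)

theorem c0 (h : Commute (X p) t) : X p = F.e (x4 p.1) := by
  have := s.ct p
  rw [cjf.2 h, left_eq_mul, ← map_one F.e, F.inj.eq_iff] at this
  rw [← s.d, ← show p.2 = 0 from x4_inj.1 this]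

theorem inj (h : X p = 1) : p = 0 := by
  have h1 := s.ct p
  have h2 := s.c0 (p := p) (h ▸ .one_left t)
  rw [h, one_mul, inv_one, mul_one, left_eq_mul, ← map_one F.e, F.inj.eq_iff] at h1
  rw [h, ← map_one F.e, F.inj.eq_iff] at h2
  exact Prod.ext (x4_inj.1 h2.symm) (x4_inj.1 h1)

theorem inj' (h : X p = X q) : p = q := by
  rw [← add_zero p, ← pp q, ← add_assoc, s.inj (p := p + q) (by rw [s.add, h, s.sq]), zero_add]

theorem nt : ¬ Commute t (X (0, 1)) := fun h => by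
  have := s.c0 h.symm
  rw [← s.d] at this
  simpa using s.inj' this

theorem cE (v : V K) (p : K × K) : Commute (F.e v) (X p) := s.cC _ (F.eC v) p

theorem tX (p : K × K) : t * X p * t⁻¹ = X (τp p) := by
  rw [show τp p = (p.2, 0) + p by pq, s.add, s.d, ← mul_inv_eq_iff_eq_mul, ← inv_mul_cancel_left t (F.e _),
    ← s.ct p, s.ti, s.inv', mul_assoc t, mul_assoc t]

theorem crX (p : K × K) : F.cr (X p) = X p := cjf.2 (s.cC _ F.rC p)

theorem R6 {v : V K} (hv : v ∈ R) (p : K × K) : Commute (F.e v) (X₆ p) := F.cs_e' hv ▸ (s.cE _ p).map F.cs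

theorem Q6 (v : V K) (p : K × K) : F.e v * X₆ p * (F.e v)⁻¹ = X₆ p * X (v.a1 • p) := by
  have := s.x16 v.a1 p
  rw [cm, mul_inv_eq_iff_eq_mul, (s.c46 _ _).eq] at this
  rw [show F.e v = F.e (v * (x1 v.a1)⁻¹) * F.e (x1 v.a1) by simp, mul_inv_rev, ← mul_assoc, mul_assoc _ (F.e (x1 _)),
    mul_assoc _ _ (F.e (x1 _))⁻¹, this, cjf.2 ((s.R6 (dec_R v) p).mul_right (s.cE _ _))]

theorem Q2 {v : V K} (hv : v ∈ Q) (p : K × K) : F.e v * X₂ p * (F.e v)⁻¹ = X₂ p * X (v.a7 • p) := by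
  have := map_cj F.cr (s.Q6 (ρr v) p)
  rwa [map_mul, s.crX, F.cr_e (ρr_Q v) (ρr_ρr hv)] at this

theorem t6 (p : K × K) : X₆ p * t * (X₆ p)⁻¹ = t * F.e (x6 p.2) := by
  simpa only [map_mul, s.cs_t, F.s4] using map_cj F.cs (s.ct p)

theorem t2' (p : K × K) : X₂ p * t * (X₂ p)⁻¹ = t * F.e (x2 p.2) := by
  simpa only [map_mul, s.cr_t, F.cr_e (v := x6 p.2) (w := x2 p.2) (by vs) (by vs)] using map_cj F.cr (s.t6 p)

theorem h6 (l : Kˣ × Kˣ) (p : K × K) : F.h l * X₆ p * (F.h l)⁻¹ = X₆ ((w4 (ws l) : K) • p) := by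
  simpa only [F.cs_h, ws_ws] using map_cj F.cs (s.h4 (ws l) p)

theorem h2 (l : Kˣ × Kˣ) (p : K × K) : F.h l * X₂ p * (F.h l)⁻¹ = X₂ ((w4 (ws (wr l)) : K) • p) := by
  have := map_cj F.cr (s.h6 (wr l) p)
  rwa [F.cr_apply (F.h _), F.rh, wr_wr] at this

theorem d6 (c : K) : X₆ (c, 0) = F.e (x6 c) := by rw [s.d, F.s4]

theorem d2 (c : K) : X₂ (c, 0) = F.e (x2 c) := by rw [s.d6, F.cr_e (w := x2 c) (by vs) (by vs)]

theorem t2X (p : K × K) : t * X₂ p * t⁻¹ = X₂ (τp p) := by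
  simpa only [s.cs_t, s.cr_t] using map_cj F.cr (map_cj F.cs (s.tX p))

theorem c42 (p q : K × K) : Commute (X p) (X₂ q) := s.crX p ▸ (s.c46 p q).map F.cr

end YS

/-- Elements of `W`. -/
structure Wm (F : Full K G) (t : G) (X : K × K → G) (g : G) (p2 p3 p5 p6 : K × K) : Prop where
  c4 : ∀ q, Commute g (X q)
  ct : ∃ a ∈ A, g * t * g⁻¹ = t * F.e a
  cQ : ∀ v ∈ Q, F.e v * g * (F.e v)⁻¹ = g * X (v.a7 • p2 + v.b6 • p3 + v.b2 • p5 + v.a1 • p6)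

namespace Wm

variable (s : YS F t X) (h : Wm F t X g p2 p3 p5 p6) (h' : Wm F t X g' q2 q3 q5 q6)
include s h

theorem cA {a : V K} (ha : a ∈ A) : Commute g (F.e a) := (cjf.1 (by
  rw [h.cQ a (A_Q ha), ha.1, ha.2.1, ha.2.2.2.1, ha.2.2.2.2.1]; simp [s.zero])).symm

include h' in
theorem mul : Wm F t X (g * g') (p2 + q2) (p3 + q3) (p5 + q5) (p6 + q6) where
  c4 q := (h.c4 q).mul_left (h'.c4 q)
  ct := by
    obtain ⟨a, ha, e⟩ := h.ct
    obtain ⟨b, hb, e'⟩ := h'.ct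
    exact ⟨_, mul_mem ha hb, by rw [map_mul, ← mul_assoc, ← e, ← cjf.2 (h.cA s hb), ← cjm, ← e']; group⟩
  cQ v hv := by
    rw [cjm, h.cQ v hv, h'.cQ v hv, (h'.c4 _).symm.mul_mul_mul_comm, ← s.add]
    congr 2; module

theorem inv : Wm F t X g⁻¹ p2 p3 p5 p6 where
  c4 q := (h.c4 q).inv_left
  ct := let ⟨a, ha, e⟩ := h.ct; ⟨_, inv_mem ha, by rw [inv_inv, cj_inv e (h.cA s ha), map_inv]⟩
  cQ v hv := by rw [← conj_inv, h.cQ v hv, mul_inv_rev, s.inv', (h.c4 _).inv_left.eq]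

include h' in
theorem uniq (e : g = g') : p2 = q2 ∧ p3 = q3 ∧ p5 = q5 ∧ p6 = q6 := by
  subst e
  have k := fun v hv => s.inj' (mul_left_cancel ((h.cQ v hv).symm.trans (h'.cQ v hv)))
  exact ⟨by simpa [x7] using k (x7 1) (by vs), by simpa [y6] using k (y6 1) (by vs), by simpa [y2] using k (y2 1) (by vs),
    by simpa [x1] using k (x1 1) (by vs)⟩

theorem conj {k : G} (kt : Commute k t) {f : K × K → K × K} (hf : Function.Surjective f)
    (kX : ∀ q, k * X q * k⁻¹ = X (f q)) (kA : ∀ a ∈ A, ∃ b ∈ A, k * F.e a * k⁻¹ = F.e b)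
    (kQ : ∀ v ∈ Q, ∃ w ∈ Q, k * F.e w * k⁻¹ = F.e v ∧ f (w.a7 • p2 + w.b6 • p3 + w.b2 • p5 + w.a1 • p6) =
      v.a7 • q2 + v.b6 • q3 + v.b2 • q5 + v.a1 • q6) : Wm F t X (k * g * k⁻¹) q2 q3 q5 q6 where
  c4 q := by obtain ⟨q, rfl⟩ := hf q; exact kX q ▸ cjc (h.c4 q) k
  ct := by
    obtain ⟨a, ha, e⟩ := h.ct
    obtain ⟨b, hb, e'⟩ := kA a ha
    exact ⟨b, hb, by rw [← e', ← cjf.2 kt, conj_conj_conj, e, cjm]⟩
  cQ v hv := by
    obtain ⟨w, hw, e, e'⟩ := kQ v hv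
    rw [← e, conj_conj_conj, h.cQ w hw, cjm, kX, e']

theorem cS (u : V K) (e : ∀ v ∈ Q, (u⁻¹ * v * u).a7 • p2 + (u⁻¹ * v * u).b6 • p3 + (u⁻¹ * v * u).b2 • p5 +
    (u⁻¹ * v * u).a1 • p6 = v.a7 • q2 + v.b6 • q3 + v.b2 • q5 + v.a1 • q6) :
    Wm F t X (F.e u * g * (F.e u)⁻¹) q2 q3 q5 q6 :=
  h.conj s (s.te u).symm Function.surjective_id (fun q => cjf.2 (s.cE u q)) (fun a ha => ⟨_, A_norm u ha, F.ej u a⟩)
    fun v hv => ⟨_, by simpa using Q_norm u⁻¹ hv, by rw [F.ej]; congr 1; group, e v hv⟩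

theorem c8 (c : K) : Wm F t X (F.e (x8 c) * g * (F.e (x8 c))⁻¹) p2 p3 (p5 + c • p2) (p6 + c • p3 + σ c • p2) :=
  h.cS s _ fun v hv => by dst v hv; vs; pq

theorem cy8 (b : K) : Wm F t X (F.e (y8 b) * g * (F.e (y8 b))⁻¹) p2 (p3 + b • p2) (p5 + σ b • p3 + (b * σ b) • p2)
    (p6 + b • p5 + (b ^ 2 * σ b) • p2) :=
  h.cS s _ fun v hv => by dst v hv; vs; pq

theorem cr : Wm F t X (F.cr g) p6 p5 p3 p2 :=
  h.conj s (s.tL _ F.r_mem).symm Function.surjective_id s.crX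
    (fun a ha => ⟨ρr a, by dst a ha; vs, F.re a (A_Q ha)⟩)
    fun v hv => ⟨_, ρr_Q v, F.cr_e (ρr_Q v) (ρr_ρr hv), by vs; simp only [id]; abel⟩

theorem ct' : Wm F t X (t * g * t⁻¹) (τp p2) (τp p3) (τp p5) (τp p6) :=
  h.conj s (.refl t) (fun q => ⟨τp q, by pq⟩) s.tX (fun a ha => ⟨a, ha, cjf.2 (s.te a)⟩)
    fun v hv => ⟨v, hv, cjf.2 (s.te v), by pq⟩

end Wm

theorem Wm.h5 (s : YS F t X) (h : Wm F t X g 0 0 p 0) (l : Kˣ × Kˣ) :
    Wm F t X (F.h l * g * (F.h l)⁻¹) 0 0 ((w5 l : K) • p) 0 :=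
  h.conj s (s.th l).symm (fun q => ⟨((w4 l)⁻¹ : Kˣ) • q, by simp [Units.smul_def]⟩) (s.h4 l)
    (fun a ha => ⟨tor l a, by dst a ha; vs, F.he l a⟩) fun v hv => ⟨tor l⁻¹ v, tor_Q _ hv, by rw [F.he]; simp, by
      have h1 := l.1.ne_zero
      have h2 := l.2.ne_zero
      simp [-map_inv, tor_apply, dg, w4, w5, smul_smul]
      congr 1; field_simp⟩

namespace YS

variable (s : YS F t X)
include s

theorem w4' (q : K × K) : Wm F t X (X q) 0 0 0 0 :=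
  ⟨s.comm q, ⟨_, by vs, s.ct q⟩, fun v _ => by simp [s.zero, cjf.2 (s.cE v q)]⟩

theorem w6 (q : K × K) : Wm F t X (X₆ q) 0 0 0 q :=
  ⟨fun p => (s.c46 p q).symm, ⟨_, by vs, s.t6 q⟩, fun v _ => by simp [s.Q6]⟩

theorem w2 (q : K × K) : Wm F t X (X₂ q) q 0 0 0 := (s.w6 q).cr s

theorem wA {a : V K} (ha : a ∈ A) : Wm F t X (F.e a) (a.c2, 0) (a.a3, 0) (a.a5, 0) (a.c6, 0) :=
  ⟨s.cE a, ⟨1, one_mem _, by rw [cjf.2 (s.te a).symm, map_one, mul_one]⟩, fun v hv => by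
    rw [F.ej, Q_A hv ha, map_mul, ← s.d]; congr 2; simp [pr]⟩

variable [Bg K] [Finite G]

theorem w0 (h : Wm F t X g 0 0 0 0) : ∃ q, g = X q := by
  obtain ⟨a, ha, e⟩ := h.ct
  have k : ∀ v ∈ Q, Commute g (F.e v) := fun v hv => (cjf.1 (by simpa [s.zero] using h.cQ v hv)).symm
  have aZ := (RF4.CQ (v := a) (l := 1) fun w hw => by
    have := cjc (s.te w) g
    rw [e, cjf.2 (k w hw)] at this
    simpa using cjf.2 (F.ce (v := a) (w := w) (by simpa using (s.te w).inv_left.mul_left this))).1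
  obtain ⟨b, e'⟩ := s.CQ (g := (X (0, a.c4))⁻¹ * g) (cjf.1 (by
    rw [mul_inv_rev, ← mul_assoc, mul_assoc _ g, mul_assoc _ _ g⁻¹, e, congrArg F.e (eq_x4 aZ), ← s.ct (0, a.c4)]; group))
    fun v hv => (s.cE v _).symm.inv_left.mul_left (k v hv)
  simp only [inv_mul_eq_iff_eq_mul, ← s.d, ← mul_assoc, ← s.add] at e'
  refine e'.elim (fun e => ⟨_, e⟩) fun e => ?_
  exact absurd (by rw [← inv_mul_cancel_left (X _) t, ← e]; exact (s.comm _ _).inv_left.mul_left (h.c4 _)) s.nt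

theorem weq (h : Wm F t X g p2 p3 p5 p6) (h' : Wm F t X g' p2 p3 p5 p6) : ∃ q, g = g' * X q :=
  (s.w0 (by simpa only [pp] using (h'.inv s).mul s h)).imp fun _ => inv_mul_eq_iff_eq_mul.1

theorem cmZ (h : Wm F t X g p2 p3 p5 p6) (h' : Wm F t X g' q2 q3 q5 q6) : ∃ a, cm g g' = F.e (x4 a) := by
  obtain ⟨q, e⟩ := s.weq (h.mul s h') (by simpa only [add_comm] using h'.mul s h)
  obtain ⟨a, ha, e1⟩ := h.ct
  obtain ⟨b, hb, e2⟩ := h'.ct
  have := cm_cent e1 e2 (h.cA s hb) (h'.cA s ha) (F.ec (A_comm ha hb))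
  rw [e, inv_mul_cancel_left] at this
  exact ⟨_, by rw [← s.c0 this, ← cjf.2 ((h'.c4 q).mul_left (h.c4 q)), ← e, cm]; group⟩

end YS

theorem w4_l5 (n : Kˣ) : w4 (l5 n) = n⁻¹ := by
  have h := n.ne_zero
  have h' := mt σ_eq_zero.1 h
  ext; simp [w4, l5]; field_simp

theorem w5_l5 (n : Kˣ) : w5 (l5 n) = 1 := by
  have h := n.ne_zero
  have h' := mt σ_eq_zero.1 h
  ext; simp [w5, l5]

/-- The parametrized groups `Y₄` and `X₅`. -/
structure WS (F : Full K G) (t : G) (X X5 : K × K → G) : Prop extends YS F t X where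
  wm : ∀ p, Wm F t X (X5 p) 0 0 p 0
  add5 : ∀ p q, X5 (p + q) = X5 p * X5 q
  h5 : ∀ l p, F.h l * X5 p * (F.h l)⁻¹ = X5 ((w5 l : K) • p)
  t5 : ∀ p, t * X5 p * t⁻¹ = X5 (τp p)
  d5 : ∀ c, X5 (c, 0) = F.e (x5 c)

theorem YS.ex_WS [Bg K] [Finite G] (s : YS F t X) : ∃ X5, WS F t X X5 := by
  obtain ⟨n, n0, n1⟩ := ex_ω (K := K)
  have n2 : n⁻¹ + 1 ≠ 0 := fun e => n1 (inv_eq_one.1 (CharTwo.add_eq_zero.1 e))
  have k4 := s.h4 (l5 (.mk0 n n0))
  have k5 := fun {g p} (h : Wm F t X g 0 0 p 0) => h.h5 s (l5 (.mk0 n n0))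
  simp only [w4_l5, w5_l5, Units.val_one, one_smul, Units.val_inv_eq_inv_val, Units.val_mk0] at k4 k5
  have kh := fun l => F.hh (l5 (.mk0 n n0)) l
  have kt := (s.th (l5 (.mk0 n n0))).symm
  have k1 : ∀ c, Commute (F.h (l5 (.mk0 n n0))) (F.e (x5 c)) := fun c => cjf.1 (by
    rw [F.he, tor_w5, w5_l5, Units.val_one, one_mul])
  generalize F.h (l5 (.mk0 n n0)) = h0 at *
  have ex : ∀ p, ∃ g, Wm F t X g 0 0 p 0 ∧ Commute h0 g := fun p => by
    have h := (((s.w2 p).c8 s 1).mul s (s.w2 p)).mul s (s.w6 p)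
    simp only [pp, add_zero, zero_add, smul_zero, one_smul, map_one] at h
    obtain ⟨q, e⟩ := s.weq (k5 h) h
    refine ⟨_, by simpa using h.mul s (s.w4' ((n⁻¹ + 1)⁻¹ • q)), cjf.1 ?_⟩
    rw [cjm, e, k4, mul_assoc, ← s.add]
    congr 2
    nth_rw 1 [← one_smul K q, ← mul_inv_cancel₀ n2]
    pq
  choose X5 h1 h2 using ex
  have u : ∀ {g p}, Wm F t X g 0 0 p 0 → Commute h0 g → g = X5 p := fun {g p} h c => by
    obtain ⟨q, rfl⟩ := s.weq h (h1 p)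
    have := cjf.2 c
    rw [cjm, cjf.2 (h2 p), k4, mul_right_inj] at this
    rw [(smul_eq_zero.1 (show (n⁻¹ + 1) • q = 0 by rw [add_smul, s.inj' this, one_smul, pp])).resolve_left n2, s.zero,
      mul_one]
  exact ⟨X5, s, h1, fun p q => (u (by simpa using (h1 p).mul s (h1 q)) ((h2 p).mul_right (h2 q))).symm,
    fun l p => u ((h1 p).h5 s l) (cjf.2 (kh l).symm ▸ cjc (h2 p) _),
    fun p => u (by simpa only [show τp (0 : K × K) = 0 by pq] using (h1 p).ct' s) (cjf.2 kt.symm ▸ cjc (h2 p) _),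
    fun c => (u (s.wA (a := x5 c) (by vs)) (k1 c)).symm⟩

theorem w4_2 (l : Kˣ × Kˣ) : (w4 (ws (wr l)) : K) = l.1 * l.2 * σ (l.1 * l.2 : K) := by
  have h1 := l.1.ne_zero
  have h2 := l.2.ne_zero
  have h3 := mt σ_eq_zero.1 h1
  have h4 := mt σ_eq_zero.1 h2
  simp [w4, ws, wr]; field_simp

theorem fix5 {n : Kˣ} (n1 : (n : K) ≠ 1) {v : V K} (h : tor (l5 n) v = v) : v = x5 v.a5 := by
  have h1 := n.mul_inv
  have h2 := congrArg σ h1
  have h3 := add_σ_ne n.ne_zero n1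
  obtain ⟨h4, h5, -⟩ := wts n1
  simp only [l5, ← inv_pow] at h
  revert h; vs
  simp only [Units.val_pow_eq_pow_val, map_mul, map_one, map_pow] at *
  generalize (n⁻¹ : Kˣ).1 = m at *
  intro h; casesm* _ ∧ _; constructorm* _ ∧ _ <;> grind

/-- The group `Y₄ X₅ Y₆`. -/
def D5 (F : Full K G) (X X5 : K × K → G) (a b c : K × K) : G := X a * X5 b * F.cs (X c)

namespace WS

variable [Bg K] [Finite G] (s : WS F t X X5)
include s

theorem zero5 : X5 0 = 1 := by simpa using s.add5 0 0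

theorem sq5 (p : K × K) : X5 p * X5 p = 1 := by rw [← s.add5, pp, s.zero5]

theorem ct5 (p : K × K) : X5 p * t * (X5 p)⁻¹ = t * F.e (x5 p.2) := by
  rw [← s.d5, ← mul_inv_cancel_right (X5 (p.2, 0)) (X5 p), ← s.add5, show (p.2, 0) + p = τp p by pq, ← s.t5,
    inv_eq_of_mul_eq_one_left (s.sq5 p), s.ti, ← mul_assoc, ← mul_assoc, ← mul_assoc, s.t2, one_mul]

theorem c25 (p q : K × K) : Commute (X₂ p) (X5 q) := by
  choose f hf using fun b => s.cmZ (s.w2 (0, b)) (s.wm q)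
  have add : ∀ a b, f (a + b) = f a + f b := fun a b => x4_inj.1 (F.inj (by
    rw [add_comm (f a), x4_add, map_mul, ← cjf.2 ((s.w2 (0, a)).cA s.toYS (a := x4 (f b)) (by vs)), ← hf, ← hf, ← hf,
      show ((0, a + b) : K × K) = (0, a) + (0, b) by simp, s.add, map_mul, map_mul, cm, cm, cm]; group))
  have sc : ∀ n, f (n * σ n) = n * f 1 := fun n => by
    rcases eq_or_ne n 0 with rfl | hn
    · simpa using add 0 0
    have := congrArg (fun x => F.h (l5 (.mk0 n hn)⁻¹) * x * (F.h (l5 (.mk0 n hn)⁻¹))⁻¹) (hf 1)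
    simp only [cm, cjm, ← conj_inv, s.h2, s.h5, F.he, tor_w4, w4_l5, w5_l5, w4_2] at this
    simp [l5, pow_two, hn] at this
    exact x4_inj.1 (F.inj ((hf _).symm.trans this))
  obtain ⟨n, n0, n1⟩ := ex_ω (K := K)
  obtain ⟨m, hm⟩ := nm_surj (1 + n * σ n)
  have f1 : f 1 = 0 := by
    have h1 := add 1 (n * σ n)
    rw [← hm, sc, sc] at h1
    by_contra h
    obtain rfl : m = 1 + n := by grind
    have := add_σ_ne n0 n1
    simp only [map_add, map_one] at hm; grind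
  obtain ⟨k, hk⟩ := nm_surj p.2
  have := hf p.2
  rw [← hk, sc, f1, mul_zero, hk, show x4 (0 : K) = 1 from rfl, map_one, cm, mul_inv_eq_one] at this
  rw [show p = (p.1, 0) + (0, p.2) by simp, s.add, map_mul, map_mul, s.d2]
  exact ((s.wm q).cA s.toYS (by vs)).symm.mul_left (cjf.1 this)

theorem ex82 (c : K) (p : K × K) : ∃ u, F.e (x8 c) * X₂ p * (F.e (x8 c))⁻¹ = X₂ p * X5 (c • p) * X₆ (σ c • p) * X u :=
  s.weq ((s.w2 p).c8 s.toYS c) (by simpa using ((s.w2 p).mul s.toYS (s.wm (c • p))).mul s.toYS (s.w6 (σ c • p)))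

theorem c56 (p q : K × K) : Commute (X5 p) (X₆ q) := by
  obtain ⟨u, e⟩ := s.ex82 1 p
  obtain ⟨a, e1⟩ := s.cmZ (s.w6 q) (s.w2 p)
  have e2 := cj_cm (F.e (x8 1)) (X₆ q) (X₂ p)
  rw [e, cjf.2 (s.R6 (v := x8 1) rfl q), cm_r, cm_r, cm_r, cm_one.2 (s.c46 u q).symm, cm_one.2 ((s.comm q _).map F.cs), e1,
    cjf.2 (F.C_Z (F.eC _) _), one_smul] at e2
  exact (cm_one.1 (by simpa using e2)).symm

theorem c26 (p q : K × K) : Commute (X₂ p) (X₆ q) := by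
  have k : ∀ c, Commute (X₂ p) (X₆ (σ c • p)) := fun c => by
    obtain ⟨u, e⟩ := s.ex82 c p
    have := sq_conj (v := X₂ p) (by rw [← map_mul, ← map_mul, s.sq, map_one, map_one]) (F.e (x8 c))
    rw [e, (((s.c42 u p).mul_right ((s.wm _).c4 u).symm).mul_right (s.c46 u _)).mul_mul_mul_comm, s.sq, mul_one,
      (s.c25 _ _).eq, mul_assoc (X5 _), ((s.c25 _ _).mul_left (s.c56 _ _).symm).mul_mul_mul_comm, s.sq5, one_mul] at this
    rw [← cm_one, cm, ← map_inv, ← map_inv, ← map_inv, s.inv', s.inv', mul_assoc _ (X₂ p), this]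
  rcases eq_or_ne p.2 0 with h | h
  · rw [show p = (p.1, 0) by rw [← h], s.d2]
    exact ((s.w6 q).cA s.toYS (by vs)).symm
  obtain ⟨c, hc⟩ := ex_σ h q.2
  rw [show q = σ c • p + (q.1 + σ c * p.1, 0) by rw [mul_comm] at hc; pq, s.add, map_mul, s.d6]
  exact (k c).mul_right ((s.w2 p).cA s.toYS (by vs))

theorem s5 (p : K × K) : F.cs (X5 p) = X5 p := by
  have cA := fun a ha => (s.wm p).cA s.toYS (a := a) ha
  have s5 : ∀ c, F.cs (F.e (x5 c)) = F.e (x5 c) := fun c => F.cs_e (by vs) (by vs)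
  obtain ⟨v, hv, e⟩ := s.C6 (g := (X5 p)⁻¹ * F.cs (X5 p)) (cjf.1 (by
      have := map_cj F.cs (s.ct5 p)
      rw [map_mul, s.cs_t, s5, ← s.ct5] at this
      rw [mul_inv_rev, ← mul_assoc, mul_assoc _ (F.cs _), mul_assoc _ _ (F.cs _)⁻¹, this]; group))
    (fun a => (cA _ (by vs)).inv_left.mul_left (F.s6 a ▸ (cA _ (by vs)).map F.cs))
    ((cA _ (by vs)).inv_left.mul_left (F.s4 (1 : K) ▸ (cA _ (by vs)).map F.cs))
  replace e := e.resolve_right fun e => s.nt (by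
    rw [← inv_mul_cancel_left (F.e v) t, ← e]
    exact (s.cE _ _).inv_left.mul_left (((s.wm p).c4 _).inv_left.mul_left (F.cs_cs (X _) ▸ (s.c56 p _).map F.cs)))
  obtain ⟨n, n0, n1⟩ := ex_ω (K := K)
  have h1 := s.h5 (l5 (.mk0 n n0)) p
  have h2 := map_cj F.cs (s.h5 (l5 (.mk0 n n0)⁻¹) p)
  rw [F.cs_h, show ws (l5 (.mk0 n n0)⁻¹) = l5 (.mk0 n n0) by simp [ws, l5, sq]] at h2
  rw [w5_l5, Units.val_one, one_smul] at h1 h2
  rw [fix5 (n := .mk0 n n0) n1 (v := v) (F.inj (by rw [← F.he, ← e, cjm, ← conj_inv, h1, h2])), ← s.d5,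
    inv_mul_eq_iff_eq_mul, ← s.add5] at e
  have h3 := map_cj F.cs ((s.wm p).cQ (y2 1) (by vs))
  rw [F.cs_e (w := y8 1) (by vs) (by vs), map_mul, e] at h3
  have := (((s.wm _).cy8 s.toYS 1).uniq s.toYS ((s.wm _).mul s.toYS (s.w6 _)) h3).2.2.2
  rw [e]; congr 1; simpa [y2] using this

theorem D_c4 (a b c q : K × K) : Commute (X q) (D5 F X X5 a b c) :=
  ((s.comm q a).mul_right ((s.wm b).c4 q).symm).mul_right (s.c46 q c)

theorem D_c2 (a b c q : K × K) : Commute (X₂ q) (D5 F X X5 a b c) :=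
  ((s.c42 a q).symm.mul_right (s.c25 q b)).mul_right (s.c26 q c)

theorem D_add (a b c a' b' c' : K × K) :
    D5 F X X5 (a + a') (b + b') (c + c') = D5 F X X5 a b c * D5 F X X5 a' b' c' := by
  rw [D5, D5, D5, ((s.c46 a' c).mul_left (s.c56 b' c)).symm.mul_mul_mul_comm, ((s.wm b).c4 a').mul_mul_mul_comm,
    s.add, s.add, s.add5, map_mul]

theorem wD (a b c : K × K) : Wm F t X (D5 F X X5 a b c) 0 0 b c := by
  simpa [D5] using ((s.w4' a).mul s.toYS (s.wm b)).mul s.toYS (s.w6 c)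

theorem D_inj {a b c a' b' c' : K × K} (h : D5 F X X5 a b c = D5 F X X5 a' b' c') : a = a' ∧ b = b' ∧ c = c' := by
  obtain ⟨-, -, rfl, rfl⟩ := (s.wD a b c).uniq s.toYS (s.wD a' b' c') h
  exact ⟨s.inj' (mul_right_cancel (mul_right_cancel h)), rfl, rfl⟩

theorem D_s (a b c : K × K) : F.cs (D5 F X X5 a b c) = D5 F X X5 c b a := by
  rw [D5, D5, map_mul, map_mul, F.cs_cs, s.s5, ← (s.c56 b a).eq, mul_assoc, ← (s.c46 c a).eq, ← mul_assoc, ((s.wm b).c4 c).eq]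

theorem D_t (a b c : K × K) : t * D5 F X X5 a b c * t⁻¹ = D5 F X X5 (τp a) (τp b) (τp c) := by
  rw [D5, D5, cjm, cjm, s.tX, s.t5, ← s.tX c, map_mul, map_mul, map_inv, s.cs_t]

theorem D_h (l : Kˣ × Kˣ) (a b c : K × K) : F.h l * D5 F X X5 a b c * (F.h l)⁻¹ =
    D5 F X X5 ((w4 l : K) • a) ((w5 l : K) • b) ((w4 (ws l) : K) • c) := by
  rw [D5, D5, cjm, cjm, s.h4, s.h5, s.h6]

theorem D_e (a b c : K) : D5 F X X5 (a, 0) (b, 0) (c, 0) = F.e (x4 a * x5 b * x6 c) := by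
  rw [D5, s.d6, s.d, s.d5, map_mul, map_mul]

theorem D_X (a b c : K × K) : D5 F X X5 0 b c * X a = D5 F X X5 a b c := by
  rw [← (s.D_c4 _ _ _ _).eq, D5, D5, s.zero, one_mul, ← mul_assoc]

theorem y82 (q : K × K) : ∃ a, F.e (y8 1) * X₂ q * (F.e (y8 1))⁻¹ = X₂ q * F.cr (X5 q) * D5 F X X5 a q q := by
  obtain ⟨a, e⟩ := s.weq ((s.w2 q).cy8 s.toYS 1)
    (by simpa using ((s.w2 q).mul s.toYS ((s.wm q).cr s.toYS)).mul s.toYS (s.wD 0 q q))
  exact ⟨a, by rw [e, mul_assoc, s.D_X]⟩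

theorem x82 : ∃ β0, ∀ c p, F.e (x8 c) * X₂ p * (F.e (x8 c))⁻¹ =
    X₂ p * D5 F X X5 (c • (σ p.1 + β0 * σ p.2, σ p.2)) (c • p) (σ c • p) := by
  obtain ⟨u, e⟩ := s.weq ((s.w2 (0, 1)).c8 s.toYS 1) (by simpa using (s.w2 (0, 1)).mul s.toYS (s.wD 0 (0, 1) (0, 1)))
  rw [mul_assoc (X₂ _), s.D_X] at e
  have k : ∀ c a, F.e (x8 c) * X₂ (a, 0) * (F.e (x8 c))⁻¹ = X₂ (a, 0) * D5 F X X5 (c * σ a, 0) (c * a, 0) (σ c * a, 0) :=
    fun c a => by rw [s.D_e, s.d2, F.ej, ← map_mul]; congr 1; vq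
  have m : ∀ c p q {a b d a' b' d'}, F.e (x8 c) * X₂ p * (F.e (x8 c))⁻¹ = X₂ p * D5 F X X5 a b d →
      F.e (x8 c) * X₂ q * (F.e (x8 c))⁻¹ = X₂ q * D5 F X X5 a' b' d' → F.e (x8 c) * X₂ (p + q) * (F.e (x8 c))⁻¹ =
      X₂ (p + q) * D5 F X X5 (a + a') (b + b') (d + d') := fun c p q a b d a' b' d' h h' => by
    rw [s.add, map_mul, map_mul, cjm, h, h', (s.D_c2 _ _ _ _).symm.mul_mul_mul_comm, s.D_add]
  have u1 : u.2 = 1 := by
    have h := congrArg (fun x => t * x * t⁻¹) e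
    simp only [cjm, ← conj_inv, cjf.2 (s.te _), s.D_t, s.t2X] at h
    rw [show τp ((0, 1) : K × K) = (1, 0) + (0, 1) by pq, m _ _ _ (k 1 1) e, mul_right_inj] at h
    simpa [τp, add_comm] using (congrArg Prod.fst (s.D_inj h).1).symm
  refine ⟨u.1, fun c p => ?_⟩
  have := m c _ (0, p.2) (k c p.1) (a' := (c * σ p.2) • u) (b' := (0, c * p.2)) (d' := (0, σ c * p.2)) (by
    rcases eq_or_ne c 0 with rfl | hc
    · simp [show x8 (0 : K) = 1 from rfl, D5, s.zero, ← Prod.zero_eq_mk, s.zero5]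
    rcases eq_or_ne p.2 0 with h | h
    · simp [h, D5, s.zero, ← Prod.zero_eq_mk, s.zero5]
    obtain ⟨a, rfl⟩ := nm_surj c
    obtain ⟨b, hb⟩ := nm_surj p.2
    have a0 : a ≠ 0 := mt nm_zero.2 hc
    have b0 : b ≠ 0 := mt nm_zero.2 (hb ▸ h)
    have h := congrArg (fun x => F.h (.mk0 b b0 / .mk0 a a0, .mk0 a a0) * x * (F.h (.mk0 b b0 / .mk0 a a0, .mk0 a a0))⁻¹) e
    simp only [cjm, ← conj_inv, F.he, s.D_h, s.h2, w4_2] at h
    have a1 := mt σ_eq_zero.1 a0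
    convert h using 3 <;> simp [← hb, tor_apply, dg, x8, w4, w5, ws, a0] <;> field_simp)
  convert this using 3 <;> simp [Prod.ext_iff, u1] <;> ring

end WS

end Cfsg.Lib.SF4
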