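import Cfsg.Agent.Lib.SF4.Om

/-!
# S3323: the group `Y₄` centralizes `C`
-/

set_option autoImplicit false

namespace Cfsg.Lib.RF4.Full

open Subgroup Cfsg.Lib.RF4.V Cfsg.Lib.SF4

variable {K : Type*} [Field K] [Tw K] {G : Type*} [Group G] (F : Full K G)

/-- Conjugation by `s`. -/
def cs : MulAut G := MulAut.conj F.s

/-- Conjugation by `r`. -/
def cr : MulAut G := MulAut.conj F.r

theorem cs_apply (x : G) : F.cs x = F.s * x * F.s⁻¹ := rfl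

theorem cr_apply (x : G) : F.cr x = F.r * x * F.r⁻¹ := rfl

theorem cs_cs (x : G) : F.cs (F.cs x) = x := by
  rw [cs_apply, cs_apply, F.s_inv, ← mul_assoc, ← mul_assoc, F.ss, one_mul, mul_assoc, F.ss, mul_one]

theorem cr_cr (x : G) : F.cr (F.cr x) = x := by
  rw [cr_apply, cr_apply, F.r_inv, ← mul_assoc, ← mul_assoc, F.rr, one_mul, mul_assoc, F.rr, mul_one]

theorem cs_e {v w : V K} (hv : v ∈ R) (h : ρs v = w) : F.cs (F.e v) = F.e w := h ▸ F.se v hv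

theorem cr_e {v w : V K} (hv : v ∈ Q) (h : ρr v = w) : F.cr (F.e v) = F.e w := h ▸ F.re v hv

theorem cs_h (l : Kˣ × Kˣ) : F.cs (F.h l) = F.h (ws l) := F.sh l

theorem cs_e' {v : V K} (hv : v ∈ R) : F.cs (F.e (ρs v)) = F.e v := by rw [← F.cs_e hv rfl, cs_cs]

theorem s4 (a : K) : F.cs (F.e (x4 a)) = F.e (x6 a) := F.cs_e (by vs) (by vs)

theorem s6 (a : K) : F.cs (F.e (x6 a)) = F.e (x4 a) := F.cs_e (by vs) (by vs)

theorem r4 (a : K) : F.cr (F.e (x4 a)) = F.e (x4 a) := F.cr_e (by vs) (by vs)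

theorem x4_inv (a : K) : (F.e (x4 a))⁻¹ = F.e (x4 a) := by rw [← map_inv, inv_eq_of_mul_eq_one_left (x4_sq a)]

end Cfsg.Lib.RF4.Full

namespace Cfsg.Lib.SF4

open Subgroup Cfsg.Lib.BG Cfsg.Lib.Transfer Cfsg.Lib.GW Cfsg.Lib.RF4 Cfsg.Lib.RF4.V

variable {K : Type*} [Field K] [Tw K] {G : Type*} [Group G] {F : Full K G} {t g w y y' y0 : G} {c c' κ κ' κ0 s0 : K}
  {Y : Subgroup G}

theorem map_cj (α : MulAut G) {a x z : G} (h : a * x * a⁻¹ = z) : α a * α x * (α a)⁻¹ = α z := by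
  rw [← h, map_mul, map_mul, map_inv]

theorem cm_cent {a b x z z' : G} (h1 : a * x * a⁻¹ = x * z) (h2 : b * x * b⁻¹ = x * z') (h3 : Commute a z')
    (h4 : Commute b z) (h5 : Commute z z') : Commute ((b * a)⁻¹ * (a * b)) x := cjf.1 (by
  calc _ = a⁻¹ * (b⁻¹ * (a * (b * x * b⁻¹) * a⁻¹) * b) * a := by group
    _ = a⁻¹ * (b⁻¹ * (b * (a * x * a⁻¹) * b⁻¹) * b) * a := by
      rw [h1, h2, ← conj_mul, ← conj_mul, h1, h2, cjf.2 h3, cjf.2 h4, mul_assoc x, mul_assoc x, h5.eq]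
    _ = _ := by group)

theorem cjm (g a b : G) : g * (a * b) * g⁻¹ = g * a * g⁻¹ * (g * b * g⁻¹) := conj_mul.symm

theorem cj_fix {a x : G} (h : Commute a x) : a⁻¹ * x * a = x := by rw [mul_assoc, ← h.eq, inv_mul_cancel_left]

theorem cj_inv {a x z : G} (h : a * x * a⁻¹ = x * z) (hz : Commute a z) : a⁻¹ * x * a = x * z⁻¹ := by
  calc _ = a⁻¹ * (x * z) * a * (a⁻¹ * z * a)⁻¹ := by group
    _ = _ := by rw [← h, cj_fix hz]; group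

theorem cj_fix' (a x : G) : a⁻¹ * (a * x * a⁻¹) * a = x := by group

theorem St.cs_t (s : St F t) : F.cs t = t := cjf.2 (s.tL _ F.s_mem).symm

theorem St.cr_t (s : St F t) : F.cr t = t := cjf.2 (s.tL _ F.r_mem).symm

theorem NW.uniq (h : NW F t w c κ) (h' : NW F t w c' κ') : c = c' :=
  x4_inj.1 (F.inj (mul_left_cancel (h.ct.symm.trans h'.ct)))

theorem NW.ct6 (s : St F t) (h : NW F t w c κ) : F.cs w * t * (F.cs w)⁻¹ = t * F.e (x6 c) := by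
  simpa only [map_mul, s.cs_t, F.s4] using map_cj F.cs h.ct

theorem NW.actR [Finite K] (h : NW F t w c κ) {v : V K} (hv : v ∈ R) :
    ∃ z ∈ Z3, w * F.e v * w⁻¹ = F.e v * F.e z :=
  let ⟨_, h1, h2⟩ := h.act; ⟨_, h1.Z3_R hv, by rw [h2, ← map_mul, mul_inv_cancel_left]⟩

theorem Z3_R {z : V K} (hz : z ∈ Z3) : z ∈ R ∧ ρs z ∈ Z3 := by dst z hz; vs

theorem NW.cZ3 (h : NW F t w c κ) {z : V K} (hz : z ∈ Z3) : Commute (F.cs w) (F.e z) :=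
  F.cs_e' (Z3_R hz).1 ▸ (h.cA (Z3_A (Z3_R hz).2)).map F.cs

theorem NW.actR6 [Finite K] (h : NW F t w c κ) {v : V K} (hv : v ∈ R) :
    ∃ z ∈ Z3, F.cs w * F.e v * (F.cs w)⁻¹ = F.e v * F.e z := by
  obtain ⟨z, hz, e⟩ := h.actR (v := ρs v) rfl
  exact ⟨_, (Z3_R hz).2, by simpa only [map_mul, F.cs_e' hv, F.cs_e (Z3_R hz).1 rfl] using map_cj F.cs e⟩

theorem w4_ws (n : Kˣ) : (w4 (ws (l4 n).1) : K) = n * σ (n : K) := by
  have h := n.ne_zero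
  have h' := mt σ_eq_zero.1 h
  simp [w4, ws, l4]
  field_simp

namespace Y0

variable [Bg K] [Finite G] (s : Y0 F t Y y0 κ0)
include s

theorem zero (hy : y ∈ Y) (h : NW F t y 0 κ) : ∃ a, y = F.e (x4 a) :=
  (s.toS0.zero h).imp fun a e => e.resolve_right fun e => s.tn (by simpa [e] using mul_mem (inv_mem (s.Z a)) hy)

theorem eqZ (hy : y ∈ Y) (hy' : y' ∈ Y) (h : NW F t y c κ) (h' : NW F t y' c κ') : ∃ a, y = F.e (x4 a) * y' :=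
  (s.zero (mul_mem hy (inv_mem hy')) (CharTwo.add_self_eq_zero c ▸ h.mul (s.inv h'))).imp fun _ =>
    mul_inv_eq_iff_eq_mul.1

theorem ex (h0 : y0 * y0 = F.e (x4 s0)) (u : K) : ∃ y ∈ Y, NW F t y (σ u) (u * κ0) ∧ y * y = F.e (x4 (σ u * s0)) := by
  rcases eq_or_ne u 0 with rfl | hu
  · exact ⟨_, s.Z 0, by simpa using NW.x4 s.toSt 0, by rw [← map_mul, x4_sq, map_zero, zero_mul]; rfl⟩
  obtain ⟨l, hl⟩ := w4_surj (mt σ_eq_zero.1 hu)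
  exact ⟨_, s.H l _ s.m0, by simpa using s.n0.conj s.toSt l hl.symm, by rw [conj_mul, h0, F.he, tor_w4, hl]⟩

theorem par (h0 : y0 * y0 = F.e (x4 s0)) (hy : y ∈ Y) :
    ∃ u, NW F t y (σ u) (u * κ0) ∧ y * y = F.e (x4 (σ u * s0)) := by
  obtain ⟨c, κ, h⟩ := s.nw y hy
  obtain ⟨u, rfl⟩ := σ_surj c
  obtain ⟨y', h1, h2, h3⟩ := s.ex h0 u
  obtain ⟨a, rfl⟩ := s.eqZ hy h1 h h2
  exact ⟨u, by simpa using (NW.x4 s.toSt a).mul h2, by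
    rw [(h2.c4 a).mul_mul_mul_comm, h3, ← map_mul, x4_sq, map_one, one_mul]⟩

theorem exc (c : K) : ∃ y ∈ Y, ∃ κ, NW F t y c κ := by
  obtain ⟨a, e⟩ := s.sqZ s.n0
  obtain ⟨u, rfl⟩ := σ_surj c
  obtain ⟨y, h1, h2, -⟩ := s.ex e u
  exact ⟨y, h1, _, h2⟩

theorem comm (hy : y ∈ Y) (hy' : y' ∈ Y) : Commute y y' := by
  obtain ⟨a, e⟩ := s.sqZ s.n0
  obtain ⟨u, h1, h2⟩ := s.par e hy
  obtain ⟨u', h3, h4⟩ := s.par e hy'
  obtain ⟨u'', h5, h6⟩ := s.par e (mul_mem hy hy')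
  rw [h5.uniq (h1.mul h3), add_mul, x4_add, map_mul, ← h2, ← h4, mul_assoc, mul_assoc, mul_right_inj, ← mul_assoc,
    ← mul_assoc, mul_left_inj] at h6
  exact h6.symm

theorem gen (l : Kˣ × Kˣ) (hl : (w4 l : K) ≠ 1) (hy : y ∈ Y) :
    ∃ y1 ∈ Y, ∃ a, y = F.e (x4 a) * (F.h l * y1 * (F.h l)⁻¹ * y1) := by
  obtain ⟨c, κ, h⟩ := s.nw y hy
  obtain ⟨c, rfl⟩ := ex_mul (show (w4 l : K) + 1 ≠ 0 by grind) c
  obtain ⟨y1, h1, κ1, h2⟩ := s.exc c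
  obtain ⟨u, hu⟩ := σ_surj (w4 l : K)
  exact ⟨y1, h1, s.eqZ hy (mul_mem (s.H l _ h1) h1) h (by
    simpa only [hu, add_one_mul] using (h2.conj s.toSt l hu).mul h2)⟩

theorem k46 (hy : y ∈ Y) (hy' : y' ∈ Y) : ∃ v ∈ Z2, y * F.cs y' = F.cs y' * y * F.e v := by
  obtain ⟨c, κ, h⟩ := s.nw y hy
  obtain ⟨c', κ', h'⟩ := s.nw y' hy'
  obtain ⟨v, hv, e⟩ := s.CR (cm_cent h.ct (h'.ct6 s.toSt) (h.cA (by vs)) (h'.cZ3 (by vs)) (F.ec (by vq))) fun v hv => by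
    obtain ⟨z, hz, e⟩ := h.actR hv
    obtain ⟨z', hz', e'⟩ := h'.actR6 hv
    exact cm_cent e e' (h.cA (Z3_A hz')) (h'.cZ3 hz) (F.ec (A_comm (Z3_A hz) (Z3_A hz')))
  refine ⟨v, hv, inv_mul_eq_iff_eq_mul.1 (e.resolve_right fun e => ?_)⟩
  obtain ⟨a, e1⟩ := s.sqZ h'
  have c1 : Commute y (F.cs y' * F.cs y') := by rw [← map_mul, e1, F.s4]; exact h.cA (by vs)
  have c2 : Commute (F.cs y') (F.e v) := h'.cZ3 (by clear * - hv; dst v hv; vs)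
  have c3 : F.e v * t * (F.e v * t) = 1 := by
    rw [(s.te v).mul_mul_mul_comm, s.t2, mul_one, ← map_mul, show v * v = 1 by clear * - hv; dst v hv; vq, map_one]
  have c4 : Commute (F.cs y') t := by
    have : F.cs y' * (F.e v * t)⁻¹ * (F.cs y')⁻¹ = F.e v * t := by
      rw [← e]
      calc _ = (F.cs y' * y)⁻¹ * (F.cs y' * F.cs y' * y * (F.cs y' * F.cs y')⁻¹ * F.cs y') := by group
        _ = _ := by rw [cjf.2 c1.symm]
    rw [inv_eq_of_mul_eq_one_left c3] at this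
    simpa using c2.inv_right.mul_right (cjf.1 this)
  obtain rfl := h'.c0 (by simpa only [F.cs_cs, s.cs_t] using c4.map F.cs)
  obtain ⟨b, rfl⟩ := s.zero hy' h'
  rw [F.s4, (h.cA (v := x6 b) (by vs)).eq, inv_mul_cancel, eq_comm, mul_eq_one_iff_inv_eq] at e
  exact s.not_mem (e ▸ inv_mem (F.e_mem v))

theorem k46' (hy : y ∈ Y) (hy' : y' ∈ Y) {v : V K} (e : y * F.cs y' = F.cs y' * y * F.e v) : v.c4 = 0 := by
  obtain ⟨n, n0, n1⟩ := ex_ω (K := K)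
  obtain ⟨y1, h1, a, rfl⟩ := s.gen (ws (l4 (.mk0 n n0)).1) (by rw [w4_ws]; exact (wts n1).2.1) hy'
  obtain ⟨v1, hv1, e1⟩ := s.k46 hy h1
  obtain ⟨c, κ, h⟩ := s.nw y hy
  obtain ⟨c1, κ1, h1⟩ := s.nw y1 h1
  have e2 := congrArg (fun x => F.h (l4 (.mk0 n n0)) * x * (F.h (l4 (.mk0 n n0)))⁻¹) e1
  simp only [← conj_mul, cjf.2 (h.cT _).symm, F.he] at e2
  simp only [map_mul, map_inv, F.cs_h, ws_ws, F.s4] at e
  rw [← mul_assoc, (h.cA (v := x6 a) (by vs)).eq, mul_assoc, ← mul_assoc y, e2, mul_assoc _ _ (F.cs y1),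
    (h1.cZ3 (by clear * - hv1; dst v1 hv1; vs)).symm.eq, ← mul_assoc, ← mul_assoc, mul_assoc _ y, mul_assoc _ _ (F.cs y1),
    mul_assoc _ _ (F.cs y1), e1] at e
  simp only [mul_assoc, mul_right_inj, ← map_mul, F.inj.eq_iff, tor_l4, d4] at e
  rw [← e]; clear * - hv1; dst v1 hv1; vq

theorem c46 (hy : y ∈ Y) (hy' : y' ∈ Y) : Commute y (F.cs y') := by
  obtain ⟨v, hv, e⟩ := s.k46 hy hy'
  have h1 := s.k46' hy hy' e
  have h2 := s.k46' hy' hy (v := (ρs v)⁻¹) (by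
    have := congrArg F.cs e
    simp only [map_mul, F.cs_cs, F.cs_e (show v ∈ R from hv.1) rfl] at this
    rw [this, map_inv, mul_inv_cancel_right])
  rw [show v = 1 by clear * - hv h1 h2; dst v hv; vs at *; simp_all, map_one, mul_one] at e
  exact e

theorem cr_mem (hy : y ∈ Y) : F.cr y ∈ Y := by
  obtain ⟨c, κ, h⟩ := s.nw y hy
  obtain ⟨z, e⟩ := h.cr
  rw [show F.cr y = (F.e (x4 z))⁻¹ * (F.e (x4 z) * F.r) * y * F.r⁻¹ by rw [F.cr_apply]; group, ← e]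
  simpa [mul_assoc] using mul_mem (inv_mem (s.Z z)) hy

theorem mact {k u q : K} (hy : y ∈ Y) (h : NW F t y c (u * σ k)) : ∃ m, (∀ z ∈ Z3, Commute m (F.e z)) ∧
    (∃ z ∈ Z3, z.a5 = q ^ 2 * c ∧ m * t * m⁻¹ = t * F.e z) ∧
    ∀ w ∈ Y, ∀ c d, NW F t w c (σ d * σ k) → w * m * w⁻¹ = m * F.e (x4 (u * σ k * (d * k * q))) := by
  obtain ⟨φ, h1, h2⟩ := h.act
  have k6 : ∀ b, F.cr (F.cs y) * F.e (x6 (σ b)) * (F.cr (F.cs y))⁻¹ = F.e (x6 (σ b)) * F.e (x4 (u * σ k * b)) := fun b => by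
    have := map_cj F.cr (map_cj F.cs ((h2 _).trans (congrArg _ (h1.f8 b))))
    rwa [map_mul, map_mul, map_mul, F.s6, F.cs_e (w := x2 (σ b)) (by vs) (by vs), F.cr_e (w := x6 (σ b)) (by vs) (by vs),
      F.r4] at this
  have k4 : ∀ b, Commute (F.cr (F.cs y)) (F.e (x4 b)) := fun b =>
    F.r4 b ▸ (h.cZ3 (by vs)).map F.cr
  have k5 : ∀ b, Commute (F.cr (F.cs y)) (F.e (x5 b)) := fun b => by
    have := ((cjf.1 ((h2 _).trans (congrArg _ (h1.f7 b)))).map F.cs).map F.cr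
    rwa [F.cs_e (w := x3 b) (by vs) (by vs), F.cr_e (w := x5 b) (by vs) (by vs)] at this
  have kt : F.cr (F.cs y) * t * (F.cr (F.cs y))⁻¹ = t * F.e (x2 c) := by
    simpa only [map_mul, s.cr_t, F.cr_e (v := x6 c) (w := x2 c) (by vs) (by vs)] using map_cj F.cr (h.ct6 s.toSt)
  have kw : ∀ w ∈ Y, Commute w (F.cr (F.cs y)) := fun w hw => F.cr_cr w ▸ (s.c46 (s.cr_mem hw) hy).map F.cr
  generalize F.cr (F.cs y) = a at *
  have kZ : ∀ z ∈ Z3, ∃ b, a * F.e z * a⁻¹ = F.e z * F.e (x4 b) := fun z hz => by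
    obtain ⟨b, hb⟩ := σ_surj z.c6
    rw [show z = x4 z.c4 * x5 z.a5 * x6 (σ b) by rw [hb]; clear * - hz; dst z hz; vs, map_mul, map_mul]
    exact ⟨_, by rw [← conj_mul, ← conj_mul, k6, cjf.2 (k4 _), cjf.2 (k5 _), mul_assoc _ (F.e (x6 _))]⟩
  have k8 : ∀ z ∈ Z3, Commute (F.e (x8 (q ^ 2))) (F.e z) := fun z hz => F.ec (by clear * - hz; dst z hz; vq)
  have kc : ∀ z ∈ Z3, Commute ((a * F.e (x8 (q ^ 2)))⁻¹ * (F.e (x8 (q ^ 2)) * a)) (F.e z) := fun z hz =>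
    let ⟨_, e⟩ := kZ z hz
    cm_cent ((cjf.2 (k8 z hz)).trans (mul_one _).symm) e (F.C_Z (F.eC _) _) (.one_right _) (.one_left _)
  refine ⟨_, kc, ?_, fun w hw c d hd => ?_⟩
  · have hz : (x2 c)⁻¹ * (x8 (q ^ 2) * x2 c * (x8 (q ^ 2))⁻¹) ∈ Z3 := by vq
    obtain ⟨b, e⟩ := kZ _ hz
    refine ⟨_, mul_mem hz (inv_mem (show x4 b ∈ Z3 by vs)), by vq, ?_⟩
    calc _ = (a * F.e (x8 (q ^ 2)))⁻¹ * (F.e (x8 (q ^ 2)) * (a * t * a⁻¹) * (F.e (x8 (q ^ 2)))⁻¹) *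
          (a * F.e (x8 (q ^ 2))) := by group
      _ = (F.e (x8 (q ^ 2)))⁻¹ * (a⁻¹ * (a * t * a⁻¹) * a) * F.e (x8 (q ^ 2)) * ((F.e (x8 (q ^ 2)))⁻¹ * (a⁻¹ *
          F.e ((x2 c)⁻¹ * (x8 (q ^ 2) * x2 c * (x8 (q ^ 2))⁻¹)) * a) * F.e (x8 (q ^ 2))) := by
        rw [kt, ← conj_mul, cjf.2 (s.te _).symm, F.ej, map_mul _ (x2 c)⁻¹, map_inv]; group
      _ = _ := by
        rw [cj_inv e (k4 b), ← map_inv _ (x4 b), ← map_mul, cj_fix (k8 _ (mul_mem hz (inv_mem (show x4 b ∈ Z3 by vs)))),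
          cj_fix' a, cj_fix (s.te _).symm]
  obtain ⟨ψ, h3, h4⟩ := hd.act
  have e := (h4 _).trans (congrArg _ (h3.f8 (σ q)))
  rw [σσ, ← map_mul, ← map_mul, map_mul F.e] at e
  calc _ = ((w * a * w⁻¹) * (w * F.e (x8 (q ^ 2)) * w⁻¹))⁻¹ * ((w * F.e (x8 (q ^ 2)) * w⁻¹) * (w * a * w⁻¹)) := by group
    _ = (F.e (x6 (σ (d * k * q))))⁻¹ * ((a * F.e (x8 (q ^ 2)))⁻¹ * (F.e (x8 (q ^ 2)) * a)) *
        (a⁻¹ * F.e (x6 (σ (d * k * q))) * a) := by rw [e, cjf.2 (kw w hw)]; group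
    _ = _ := by
      rw [cj_inv (k6 _) (k4 _), ← mul_assoc, cj_fix (kc _ (by vs)).symm, F.x4_inv]

theorem k0 : κ0 = 0 := by
  obtain ⟨k, rfl⟩ := σ_surj κ0
  obtain ⟨n, n0, n1⟩ := ex_ω (K := K)
  obtain ⟨s0, h0⟩ := s.sqZ s.n0
  obtain ⟨y2, m2, h2, -⟩ := s.ex h0 (σ n)
  obtain ⟨m1, a1, ⟨z1, b1, c1, d1⟩, e1⟩ := s.mact (u := 1) (q := n) s.m0 (by simpa using s.n0)
  obtain ⟨m2, a2, ⟨z2, b2, c2, d2⟩, e2⟩ := s.mact (q := 1) m2 h2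
  obtain ⟨y4, m4, _, h4⟩ := s.exc (z1 * z2).c4
  obtain ⟨y6, m6, _, h6⟩ := s.exc (z1 * z2).c6
  have gZ : ∀ z ∈ Z3, Commute (m1 * m2 * y4 * F.cs y6) (F.e z) := fun z hz =>
    (((a1 z hz).mul_left (a2 z hz)).mul_left (h4.cA (Z3_A hz))).mul_left (h6.cZ3 hz)
  have gt : Commute (m1 * m2 * y4 * F.cs y6) t := cjf.1 (by
    calc _ = m1 * (m2 * (y4 * (F.cs y6 * t * (F.cs y6)⁻¹) * y4⁻¹) * m2⁻¹) * m1⁻¹ := by group
      _ = _ := by
        rw [h6.ct6 s.toSt, cjm y4, h4.ct, cjf.2 (h4.cA (by vs)), mul_assoc t, ← map_mul, cjm m2, d2,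
          cjf.2 (a2 _ (by vq)), mul_assoc t, ← map_mul, cjm m1, d1, cjf.2 (a1 _ (mul_mem b2 (by vq))), mul_assoc t,
          ← map_mul, mul_eq_left, ← map_one F.e]
        congr 1
        rw [σσ] at c2
        clear * - b1 b2 c1 c2; dst z1 b1; dst z2 b2; vs at *; grind)
  obtain ⟨v, hv, e⟩ := s.C6 gt (fun _ => gZ _ (by vs)) (gZ _ (by vs))
  have hv8 : v ∈ Q8 := (cent_x5.le (mc.2 (F.ce (e.elim (fun e => e ▸ gZ _ (by vs)) fun e => by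
    simpa only [e, mul_inv_cancel_right] using (gZ (x5 1) (by vs)).mul_left (s.te _).inv_left)))).2
  obtain ⟨b, hb⟩ := σ_surj v.b4
  have key : ∀ d, ∃ w c, w * F.e v * w⁻¹ = F.e v * F.e (x4 (σ d * σ k * b) * x6 c) ∧ w * t * w⁻¹ = t * F.e (x4 (d ^ 2)) ∧
      w * (m1 * m2 * y4 * F.cs y6) * w⁻¹ = m1 * m2 * y4 * F.cs y6 * F.e (x4 (k * σ k * (n + σ n) * d)) := fun d => by
    obtain ⟨w, mw, hw, -⟩ := s.ex h0 (σ d)
    obtain ⟨φ, h1, h2⟩ := hw.act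
    obtain ⟨b', c, h3, -, h5⟩ := h1.app hv8
    obtain rfl := σ_inj.1 (h3.trans hb.symm)
    refine ⟨w, σ d * σ k * c, by rw [h2, h5, show v.a1 = 0 from hv, show x1 (0 : K) = 1 from rfl, ← map_mul]; simp [mul_assoc],
      σσ d ▸ hw.ct, ?_⟩
    rw [← conj_mul, ← conj_mul, ← conj_mul, e1 w mw _ _ hw, e2 w mw _ _ hw, cjf.2 (s.comm mw m4), cjf.2 (s.c46 mw m6),
      mul_assoc m1, ← mul_assoc _ m2, ← (a2 _ (by vs)).eq, mul_assoc m2, ← map_mul, ← x4_add, ← mul_assoc,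
      mul_assoc _ _ y4, ← (h4.c4 _).eq, ← mul_assoc, mul_assoc _ _ (F.cs y6), ← (h6.cZ3 (by vs)).eq, ← mul_assoc]
    congr 3; ring
  obtain ⟨ε, hε⟩ : ∃ ε : K, ∀ d, k * σ k * (n + σ n) * d = σ d * σ k * b + ε * d ^ 2 := by
    generalize m1 * m2 * y4 * F.cs y6 = g at key e
    rcases e with e | e
    · refine ⟨0, fun d => ?_⟩
      obtain ⟨w, c, h1, -, h3⟩ := key d
      rw [e, h1, mul_right_inj, F.inj.eq_iff] at h3
      revert h3; vs; grind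
    · refine ⟨1, fun d => ?_⟩
      obtain ⟨w, c, h1, h2, h3⟩ := key d
      rw [e, ← conj_mul, h1, h2, mul_assoc, mul_assoc, mul_assoc, mul_right_inj, ← mul_assoc, ← (s.te _).eq, mul_assoc,
        mul_right_inj, ← map_mul, F.inj.eq_iff] at h3
      revert h3; vs; grind
  have h1 := hε 1
  have h2 := hε n
  have h3 := hε (n ^ 2)
  have h4 := add_σ_ne n0 n1
  have h5 := mt (σ_eq_zero (a := n + σ n)).1 h4
  simp only [map_add, map_pow, map_one, σσ] at h1 h3 h5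
  rw [σ_eq_zero, ← nm_zero]
  clear * - h1 h2 h3 h4 h5 n0 n1
  grind

theorem cC (hy : y ∈ Y) (hg : g ∈ F.C) : Commute g y := by
  obtain rfl := s.k0
  obtain ⟨s0, h0⟩ := s.sqZ s.n0
  obtain ⟨u, h, -⟩ := s.par h0 hy
  obtain ⟨φ, h1, h2⟩ := h.act
  obtain ⟨n, n0, n1⟩ := ex_ω (K := K)
  have k : ∀ v ∈ Q8, φ v = v := fun v hv => by
    obtain ⟨b, c, -, -, e⟩ := h1.app hv
    simpa [show x4 (0 : K) = 1 from rfl, show x6 (0 : K) = 1 from rfl] using e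
  have k8 : ∀ b, φ (y8 b) = y8 b := zfix (F.actT h2 h.cT (l4 (.mk0 n n0))) (wts n1).1
    (fun a b => ⟨x8 (a * σ b), k _ rfl, by vs, by vs⟩) (fun a => by simp [tor_l4, d4, y8]) fun a =>
      (RF4.CQ (l := 1) fun w hw => by
        have := k _ (Q_norm (y8 a) hw).1
        rw [map_mul, map_mul, k w hw.1, map_inv] at this
        calc _ = (y8 a)⁻¹ * (φ (y8 a) * w * (φ (y8 a))⁻¹) * y8 a := by simp [mul_assoc]
          _ = _ := by rw [this]; group).1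
  have cS : ∀ v, Commute y (F.e v) := fun v => cjf.1 ((h2 v).trans (congrArg _
    ((gen18 (N := φ.toMonoidHom.eqLocus (.id _)) (fun a => k _ rfl) k8).ge (mem_top v))))
  obtain ⟨z, hz⟩ := h.cr
  have c := F.C_Z F.rC z
  have := congrArg (fun x => y * x * y⁻¹) (F.sz (x8 1) (by vs) (by vs; simp)).2
  simp only [cjm, cjf.2 (cS _), cjf.2 (h.cT _), hz] at this
  rw [← mul_assoc (F.e _ * F.h _), ((F.C_Z (F.eC _) z).mul_left (F.C_Z (F.hC _) z)).eq, mul_assoc (F.e (x4 z)),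
    mul_assoc (F.e (x4 z)), mul_assoc (F.e (x4 z)), mul_assoc (F.e (x4 z)), ← (F.sz (x8 1) (by vs) (by vs; simp)).2,
    mul_right_inj, ← c.eq, ← mul_assoc, mul_eq_left] at this
  rw [this, one_mul] at hz
  exact mc.1 (F.C_le (fun v => mc.2 (cS v).symm) (fun l => mc.2 (h.cT l).symm) (mc.2 (cjf.1 hz).symm) hg)

end Y0

end Cfsg.Lib.SF4
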