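import Cfsg.Agent.Lib.SF4.YA

/-!
# S3323: the group `Y₄` as a vector space
-/

set_option autoImplicit false

namespace Cfsg.Lib.SF4

open Subgroup Cfsg.Lib.BG Cfsg.Lib.Transfer Cfsg.Lib.GW Cfsg.Lib.RF4 Cfsg.Lib.RF4.V

variable {K : Type*} [Field K] [Tw K] {G : Type*} [Group G] {F : Full K G} {t g w y y' y0 : G} {c c' κ κ' κ0 s0 : K}
  {Y : Subgroup G}

theorem w4_mul (l l' : Kˣ × Kˣ) : w4 (l * l') = w4 l * w4 l' := by
  simp only [w4, Prod.fst_mul, Prod.snd_mul, map_mul, mul_pow]; ac_rfl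

theorem w4_T4 {l : Kˣ × Kˣ} : l ∈ T4 K ↔ w4 l = 1 := by
  rw [← T4_x4 one_ne_zero, tor_w4, x4_inj, mul_one, Units.val_eq_one]

theorem w4_ws' (l : Kˣ × Kˣ) : w4 (ws l) * l.1 = w4 l := by
  have h := l.1.ne_zero
  have h' := mt σ_eq_zero.1 h
  ext
  simp [w4, ws]
  field_simp

/-- The scalar multiplication on `Y₄`. -/
def dl (F : Full K G) (a : K) (y : G) : G := cm (F.e (x1 a)) (F.cs y)

namespace Y0

variable [Bg K] [Finite G] (s : Y0 F t Y y0 κ0)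
include s

theorem cR (hy : y ∈ Y) {v : V K} (hv : v ∈ R) : Commute (F.cs y) (F.e v) :=
  F.cs_e' hv ▸ (s.cC hy (F.eC _)).symm.map F.cs

theorem d_t (hy : y ∈ Y) (h : NW F t y c κ) (a : K) : dl F a y * t * (dl F a y)⁻¹ = t * F.e (x4 (a * c)) := by
  calc _ = F.e (x1 a) * (F.cs y * ((F.e (x1 a))⁻¹ * ((F.cs y)⁻¹ * t * F.cs y) * (F.e (x1 a))⁻¹⁻¹) * (F.cs y)⁻¹) *
        (F.e (x1 a))⁻¹ := by rw [dl, cm]; group
    _ = _ := by
      rw [cj_inv (h.ct6 s.toSt) (s.cR hy rfl), cjm (F.e _)⁻¹, cjf.2 (s.te _).symm.inv_left, ← map_inv _ (x6 c), ← map_inv _ (x1 a),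
        F.ej, map_inv _ (x1 a), cjm (F.cs y), h.ct6 s.toSt, cjf.2 (s.cR hy (by vq)), mul_assoc t, ← map_mul, cjm,
        cjf.2 (s.te _).symm, F.ej]
      congr 2; vq

theorem d1 (h0 : y0 * y0 = F.e (x4 s0)) (hy : y ∈ Y) (h : NW F t y c κ) (a : K) :
    ∃ y1 ∈ Y, ∃ v ∈ Z2, dl F a y = y1 * F.e v ∧ a * v.c6 = a * (c * s0) := by
  obtain ⟨y1, m1, κ1, h1⟩ := s.exc (a * c)
  obtain ⟨u, h2, h3⟩ := s.par h0 hy
  obtain rfl := h.uniq h2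
  have c1 : ∀ v, Commute y1 (F.e v) := fun v => (s.cC m1 (F.eC v)).symm
  obtain ⟨v, hv, e⟩ := s.CR (g := y1⁻¹ * dl F a y) (cjf.1 (by
    rw [mul_inv_rev, ← mul_assoc, mul_assoc y1⁻¹, mul_assoc y1⁻¹, s.d_t hy h, ← h1.ct]; group)) fun v hv =>
      (c1 v).inv_left.mul_left (.mul_left (by
        simpa [mul_assoc] using cjc (s.cR hy (v := (x1 a)⁻¹ * v * x1 a) (by revert hv; vq)) (F.e (x1 a))) (s.cR hy hv).inv_left)
  have k : dl F a y * (F.cs y * dl F a y * (F.cs y)⁻¹) = F.e (x4 (a * (σ u * s0))) := by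
    rw [show x4 (a * (σ u * s0)) = cm (x1 a) (x6 (σ u * s0)) by vq, map_cm, ← F.s4, ← h3, map_mul, dl, cm, cm]; group
  have c2 := cjf.2 (s.c46 m1 hy).symm
  have c3 := cjf.2 (s.cR hy (v := v) hv.1)
  have v2 : F.e v * F.e v = 1 := by rw [← map_mul, show v * v = 1 by clear * - hv; dst v hv; vq, map_one]
  simp only [inv_mul_eq_iff_eq_mul] at e
  rcases e with e | e
  · refine ⟨y1, m1, v, hv, e, x4_inj.1 (F.inj ?_)⟩
    have : F.e (x1 a) * dl F a y * (F.e (x1 a))⁻¹ = (dl F a y)⁻¹ := by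
      rw [dl, cm, ← map_inv, show (x1 a)⁻¹ = x1 a by vq, ← mul_assoc, ← mul_assoc, ← mul_assoc, ← map_mul,
        show x1 a * x1 a = 1 by vq]
      simp [← map_inv, show (x1 a)⁻¹ = x1 a by vq, mul_assoc]
    rw [e, cjm, cjf.2 (c1 _).symm, F.ej, show x1 a * v * (x1 a)⁻¹ = v * x4 (a * v.c6) by clear * - hv; dst v hv; vq,
      map_mul, ← mul_assoc, eq_inv_iff_mul_eq_one, ← eq_inv_iff_mul_eq_one, ← eq_inv_mul_iff_mul_eq, ← mul_inv_rev] at this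
    rw [e, cjm, c2, c3] at k
    rw [this, k, F.x4_inv]
  have : Commute (F.e (x1 1)) (y1 * (F.e v * t) * (y1 * (F.e v * t))) := by
    rw [← mul_assoc y1, (c1 v).eq, mul_assoc (F.e v), ((c1 v).mul_left (s.te v)).mul_mul_mul_comm, v2, one_mul]
    exact ((c1 _).symm.mul_right (s.te _).symm).mul_right ((c1 _).symm.mul_right (s.te _).symm)
  rw [e, cjm, cjm, c2, c3, h.ct6 s.toSt, ← mul_assoc (F.e v), ← mul_assoc y1 _ (F.e _), ← mul_assoc,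
    ← eq_mul_inv_iff_mul_eq] at k
  rw [k, ← map_inv, ← map_mul] at this
  have u0 : σ u = 0 := by have := congrArg V.c4 (F.ce this); revert this; vq
  rw [u0] at h
  rw [u0, mul_zero] at h1
  obtain ⟨b, rfl⟩ := s.zero hy h
  obtain ⟨b', rfl⟩ := s.zero m1 h1
  rw [dl, F.s4, ← mul_assoc, ← inv_mul_eq_iff_eq_mul] at e
  exact absurd (e ▸ mul_mem (inv_mem (mul_mem (F.e_mem _) (F.e_mem _))) (cm_mem' (F.e_mem _) (F.e_mem _))) s.not_mem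

theorem d_add (hy : y ∈ Y) (a b : K) :
    dl F (a + b) y = F.e (x1 a) * dl F b y * (F.e (x1 a))⁻¹ * dl F a y := by
  rw [dl, dl, dl, show x1 (a + b) = x1 a * x1 b by vs, map_mul, cm, cm, cm]; group

theorem s00 (h0 : y0 * y0 = F.e (x4 s0)) : s0 = 0 := by
  obtain ⟨n, n0, n1⟩ := ex_ω (K := K)
  obtain ⟨y1, m1, v1, h1, e1, k1⟩ := s.d1 h0 s.m0 s.n0 1
  obtain ⟨y2, m2, v2, h2, e2, k2⟩ := s.d1 h0 s.m0 s.n0 n
  obtain ⟨y3, m3, v3, h3, e3, k3⟩ := s.d1 h0 s.m0 s.n0 (1 + n)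
  rw [s.d_add s.m0, e1, e2, cjm, cjf.2 (s.cC m2 (F.eC _)), F.ej, mul_assoc, ← mul_assoc _ y1, (s.cC m1 (F.eC _)).eq,
    mul_assoc, ← map_mul, ← mul_assoc, ← inv_mul_eq_iff_eq_mul, ← mul_assoc, ← eq_mul_inv_iff_mul_eq] at e3
  have := (s.cC (mul_mem (inv_mem m3) (mul_mem m2 m1)) (F.eC (x1 1)))
  rw [e3, ← map_inv, ← map_mul] at this
  have := congrArg V.c4 (F.ce this)
  clear * - this h1 h2 h3 k1 k2 k3 n0 n1
  dst v1 h1; dst v2 h2; dst v3 h3; vs at *; grind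

theorem sq (hy : y ∈ Y) : y * y = 1 := by
  obtain ⟨s0, h0⟩ := s.sqZ s.n0
  obtain ⟨u, -, h⟩ := s.par h0 hy
  rw [h, s.s00 h0, mul_zero]; exact map_one _

theorem d_mem (hy : y ∈ Y) (a : K) : dl F a y ∈ Y := by
  obtain ⟨s0, h0⟩ := s.sqZ s.n0
  obtain ⟨c, κ, h⟩ := s.nw y hy
  obtain ⟨y1, m1, v, hv, e, k⟩ := s.d1 h0 hy h a
  rcases eq_or_ne a 0 with rfl | ha
  · simp [dl, cm, show x1 (0 : K) = 1 from rfl]
  rw [e, show v = x4 v.c4 by rw [s.s00 h0] at k; clear * - hv k ha; dst v hv; vs at *; grind]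
  exact mul_mem m1 (s.Z _)

theorem d_mul (hy : y ∈ Y) (hy' : y' ∈ Y) (a : K) : dl F a (y * y') = dl F a y * dl F a y' := by
  rw [← cjf.2 (s.c46 (s.d_mem hy' a) hy).symm, dl, dl, dl, map_mul, cm, cm, cm]; group

theorem d_one (hy : y ∈ Y) : dl F 1 y = y := by
  have m := s.d_mem hy 1
  have c := cjf.2 (s.cC hy (F.eC (x1 1)))
  have e : F.e (x1 1) * F.cs y * (F.e (x1 1))⁻¹ = dl F 1 y * F.cs y := by rw [dl, cm]; group
  have e2 : F.cs (y⁻¹ * dl F 1 y) = dl F 1 y * y⁻¹ := by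
    rw [map_mul, map_inv, inv_mul_eq_iff_eq_mul, ← mul_assoc, eq_mul_inv_iff_mul_eq, ← (s.c46 m hy).eq, ← e]
    nth_rw 2 [← F.cs_cs y]
    rw [← map_mul, ← e]
    calc _ = F.s * F.e (x1 1) * F.s * y * (F.s * F.e (x1 1) * F.s)⁻¹ := by simp only [F.cs_apply]; group
      _ = F.e (x1 1) * F.s * (F.e (x1 1) * y * (F.e (x1 1))⁻¹) * F.s⁻¹ * (F.e (x1 1))⁻¹ := by rw [F.s3]; group
      _ = _ := by rw [c, F.cs_apply]; group
  obtain ⟨c1, κ1, h1⟩ := s.nw _ (mul_mem (inv_mem hy) m)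
  obtain ⟨c2, κ2, h2⟩ := s.nw _ (mul_mem m (inv_mem hy))
  have := h1.ct6 s.toSt
  rw [e2, h2.ct, mul_right_inj, F.inj.eq_iff] at this
  obtain rfl : c1 = 0 := (congrArg V.c6 this).symm
  obtain rfl : c2 = 0 := congrArg V.c4 this
  obtain ⟨a, e3⟩ := s.zero (mul_mem (inv_mem hy) m) h1
  obtain ⟨b, e4⟩ := s.zero (mul_mem m (inv_mem hy)) h2
  rw [e3, e4, F.s4, F.inj.eq_iff] at e2
  rw [show a = 0 from congrArg V.c6 e2] at e3
  exact (inv_mul_eq_one.1 (e3.trans (map_one _))).symm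

omit s in
theorem d_h (l : Kˣ × Kˣ) (a : K) (y : G) :
    F.h l * dl F a y * (F.h l)⁻¹ = dl F (l.1 * a) (F.h (ws l) * y * (F.h (ws l))⁻¹) := by
  rw [dl, dl, map_mul, map_mul, map_inv, F.cs_h, ws_ws, show x1 (l.1 * a) = tor l (x1 a) by vs, ← F.he, cm, cm]; group

theorem h_d (l : Kˣ × Kˣ) (hy : y ∈ Y) : F.h l * y * (F.h l)⁻¹ = dl F (w4 l) y := by
  obtain ⟨l', hl, e⟩ := T4_ex_fst (w4 l)⁻¹
  have h1 := d_h (F := F) (ws l') 1 y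
  rw [s.d_one hy, ws_ws, cjf.2 (s.cC hy (F.hC ⟨l', hl⟩)), mul_one, show (ws l').1 = w4 l by rw [ws, e, inv_inv]] at h1
  have h2 : l * (ws l')⁻¹ ∈ T4 K := w4_T4.2 (mul_right_cancel (b := w4 (ws l') * l'.1) (by
    rw [one_mul, ← mul_assoc, ← w4_mul, inv_mul_cancel_right, w4_ws', e, mul_inv_cancel, w4_T4.1 hl]))
  rw [← h1, ← cjf.2 (s.cC (s.H (ws l') y hy) (F.hC ⟨_, h2⟩)), map_mul, map_inv]; group

theorem d_d (hy : y ∈ Y) (a b : K) : dl F a (dl F b y) = dl F (a * b) y := by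
  rcases eq_or_ne a 0 with rfl | ha
  · simp [dl, cm, show x1 (0 : K) = 1 from rfl]
  obtain ⟨l', hl, e⟩ := T4_ex_fst (Units.mk0 a ha)⁻¹
  have k : ∀ b, ∀ y ∈ Y, F.h (ws l') * dl F b y * (F.h (ws l'))⁻¹ = dl F (a * b) y := fun b y hy => by
    rw [d_h, ws_ws, cjf.2 (s.cC hy (F.hC ⟨l', hl⟩)), ws, e, inv_inv, Units.val_mk0]
  rw [← k b y hy, ← mul_one a, ← k 1 _ (s.d_mem hy b), s.d_one (s.d_mem hy b)]

end Y0

/-- The parametrized group `Y₄`. -/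
structure YS (F : Full K G) (t : G) (X : K × K → G) : Prop extends S0 F t where
  add : ∀ p q, X (p + q) = X p * X q
  cC : ∀ g ∈ F.C, ∀ p, Commute g (X p)
  h4 : ∀ l p, F.h l * X p * (F.h l)⁻¹ = X ((w4 l : K) • p)
  ct : ∀ p, X p * t * (X p)⁻¹ = t * F.e (x4 p.2)
  d : ∀ c, X (c, 0) = F.e (x4 c)
  x16 : ∀ a p, cm (F.e (x1 a)) (F.cs (X p)) = X (a • p)
  c46 : ∀ p q, Commute (X p) (F.cs (X q))

theorem S0.ex_YS [Bg K] [Finite G] (s : S0 F t) : ∃ X, YS F t X := by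
  obtain ⟨Y, y0, κ0, s⟩ := s.ex_Y0
  have m : ∀ p : K × K, F.e (x4 p.1) * dl F p.2 y0 ∈ Y := fun p => mul_mem (s.Z _) (s.d_mem s.m0 _)
  have k : ∀ a (p : K × K), dl F a (F.e (x4 p.1) * dl F p.2 y0) = F.e (x4 (a • p).1) * dl F (a • p).2 y0 := fun a p => by
    rw [s.d_mul (s.Z _) (s.d_mem s.m0 _), s.d_d s.m0, dl, F.s4, ← map_cm]
    congr 2; rw [Prod.smul_fst, smul_eq_mul]; vq
  refine ⟨fun p => F.e (x4 p.1) * dl F p.2 y0, s.toS0, fun p q => ?_, fun g hg p => s.cC (m p) hg,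
    fun l p => (s.h_d l (m p)).trans (k _ p), fun p => ?_, fun c => ?_, k, fun p q => s.c46 (m p) (m q)⟩
  · rw [Prod.fst_add, Prod.snd_add, s.d_add s.m0, cjf.2 (s.cC (s.d_mem s.m0 _) (F.eC _)), x4_add, map_mul,
      (s.comm (s.d_mem s.m0 q.2) (s.d_mem s.m0 p.2)).eq, (s.comm (s.Z _) (s.d_mem s.m0 _)).mul_mul_mul_comm]
  · rw [mul_inv_rev, ← mul_assoc, mul_assoc (F.e _), mul_assoc (F.e _), s.d_t s.m0 s.n0, mul_one,
      cjf.2 ((s.te _).symm.mul_right (F.C_Z (F.eC _) _))]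
  · simp [dl, cm, show x1 (0 : K) = 1 from rfl]

end Cfsg.Lib.SF4
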